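import Mathlib
import Cfsg.Agent.Lib.Compute.TC.SCentQ.Final

/-!
# A presentation of a group of order 720, mapped into `G`
-/

set_option autoImplicit false

namespace Cfsg.Agent.Lib.SCent

open Subgroup Cfsg.Agent.Lib.Compute.ToddCoxeterPresented Cfsg.Agent.Lib.Compute.TC.SCentQ

/-- The presented group has order 720. -/
theorem card_presented : Nat.card (PresentedGroup RR) = 720 := by
  have h := index
  have h2 : HOf RR D.Hs = ⊥ := by
    simp [HOf, D]
  rw [h2, Subgroup.index_bot] at h
  exact h

theorem card_dvd_720 {G : Type*} [Group G] (x w t : G)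
    (h1 : x ^ 3 = 1) (h2 : w ^ 4 = 1) (h3 : t * t = 1) (h4 : t * w * (t * w) = 1)
    (h5 : x * w * x * w⁻¹ * x⁻¹ * w * x⁻¹ * w⁻¹ = 1) (h6 : w * w * x * w⁻¹ * w⁻¹ * x = 1)
    (h7 : (t * x) ^ 3 = 1) :
    Nat.card (closure ({x, w, t} : Set G)) ∣ 720 := by
  let f : Fin 3 → G := ![x, w, t]
  have hf : ∀ r ∈ RR, FreeGroup.lift f r = 1 := by
    intro r hr
    have hr' : r ∈ D.rs := (hR r).1 hr
    simp only [D, List.mem_cons, List.not_mem_nil, or_false] at hr'
    have e0 : FreeGroup.lift f (FreeGroup.of 0) = x := by simp [f]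
    have e1 : FreeGroup.lift f (FreeGroup.of 1) = w := by simp [f]
    have e2 : FreeGroup.lift f (FreeGroup.of 2) = t := by simp [f]
    rcases hr' with rfl | rfl | rfl | rfl | rfl | rfl | rfl
    · simp only [map_pow, e0, h1]
    · simp only [map_pow, e1, h2]
    · simp only [map_mul, e2, h3]
    · simp only [map_mul, e1, e2, h4]
    · simp only [map_mul, map_inv, e0, e1, h5]
    · simp only [map_mul, map_inv, e0, e1, h6]
    · simp only [map_mul, map_pow, e0, e2, h7]
  let φ : PresentedGroup RR →* G := PresentedGroup.toGroup hf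
  have hrange : φ.range = closure ({x, w, t} : Set G) := by
    apply le_antisymm
    · rw [MonoidHom.range_eq_map, ← PresentedGroup.closure_range_of, MonoidHom.map_closure,
        closure_le]
      rintro _ ⟨_, ⟨a, rfl⟩, rfl⟩
      have h8 : φ (PresentedGroup.of a) = f a := PresentedGroup.toGroup.of hf
      rw [SetLike.mem_coe, h8]
      apply Subgroup.subset_closure
      fin_cases a <;> simp [f]
    · rw [closure_le]
      rintro y (rfl | rfl | rfl)
      · exact ⟨PresentedGroup.of 0, by simp [φ, f]⟩
      · exact ⟨PresentedGroup.of 1, by simp [φ, f]⟩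
      · exact ⟨PresentedGroup.of 2, by simp [φ, f]⟩
  rw [← hrange, ← card_presented]
  exact Subgroup.card_range_dvd φ

end Cfsg.Agent.Lib.SCent
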