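import Mathlib

/-!
# Configuration: a self-centralizing cyclic subgroup of order four in a dihedral Sylow 2-subgroup
-/

set_option autoImplicit false

namespace Cfsg.Agent.Lib.SCent

open Subgroup

/-- `w` has order four, is self-centralizing, `t` is an involution inverting `w`, `⟨w, t⟩` is a Sylow
2-subgroup of order eight, and `A` is a normal complement to `S` in the centralizer of `w²`. -/
structure Cfg (G : Type*) [Group G] [Finite G] where
  w : G
  t : G
  A : Subgroup G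
  S : Sylow 2 G
  hw : orderOf w = 4
  ht : t * t = 1
  hinv : t * w * t = w⁻¹
  hcw : ∀ g : G, g * w = w * g → g ∈ zpowers w
  hwS : w ∈ (S : Subgroup G)
  htS : t ∈ (S : Subgroup G)
  hcardS : Nat.card (S : Subgroup G) = 8
  hAz : ∀ a ∈ A, a * (w * w) = (w * w) * a
  hAn : ∀ g : G, g * (w * w) = (w * w) * g → ∀ a ∈ A, g * a * g⁻¹ ∈ A
  hAodd : Odd (Nat.card A)
  hAS : ∀ g : G, g * (w * w) = (w * w) * g → ∃ a ∈ A, ∃ s ∈ (S : Subgroup G), g = a * s

namespace Cfg

variable {G : Type*} [Group G] [Finite G] (C : Cfg G)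

/-- The central involution. -/
def z : G := C.w * C.w

lemma w4 : C.w * C.w * C.w * C.w = 1 := by
  have := pow_orderOf_eq_one C.w
  rw [C.hw] at this
  simpa [pow_succ, mul_assoc] using this

lemma w_pow4 : C.w ^ 4 = 1 := by
  have := pow_orderOf_eq_one C.w
  rwa [C.hw] at this

lemma z_z : C.z * C.z = 1 := by
  unfold z
  have := C.w4
  simpa [mul_assoc] using this

lemma z_inv : C.z⁻¹ = C.z := inv_eq_of_mul_eq_one_left C.z_z

lemma w_inv : C.w⁻¹ = C.w * C.z := by
  unfold z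
  have := C.w4
  rw [inv_eq_iff_mul_eq_one]
  simpa [mul_assoc] using this

lemma z_ne_one : C.z ≠ 1 := by
  intro h
  have h2 : orderOf C.w ∣ 2 := orderOf_dvd_of_pow_eq_one (by rw [pow_two]; exact h)
  rw [C.hw] at h2
  omega

lemma w_ne_one : C.w ≠ 1 := by
  intro h
  have h2 := C.hw
  rw [h, orderOf_one] at h2
  omega

lemma t_inv : C.t⁻¹ = C.t := inv_eq_of_mul_eq_one_left C.ht

lemma w_ne_z : C.w ≠ C.z := by
  intro h
  unfold z at h
  have : C.w = 1 := by
    have h2 : C.w * 1 = C.w * C.w := by rw [mul_one]; exact h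
    exact (mul_left_cancel h2).symm
  exact C.w_ne_one this

lemma wz : C.w * C.z = C.z * C.w := by
  unfold z; simp [mul_assoc]

lemma wiz : C.w⁻¹ * C.z = C.w := by
  unfold z; simp

lemma tw_eq : C.t * C.w = C.w⁻¹ * C.t := by
  have h := C.hinv
  rw [← h]
  have := C.ht
  simp [mul_assoc, this]

lemma wt_eq : C.w * C.t = C.t * C.w⁻¹ := by
  have h := C.hinv
  calc C.w * C.t = C.t * (C.t * C.w * C.t) := by
        rw [← mul_assoc, ← mul_assoc, C.ht, one_mul]
    _ = C.t * C.w⁻¹ := by rw [h]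

lemma zt : C.z * C.t = C.t * C.z := by
  unfold z
  have h1 : C.t * C.w = C.w⁻¹ * C.t := C.tw_eq
  have h2 : C.w * C.t = C.t * C.w⁻¹ := C.wt_eq
  calc C.w * C.w * C.t = C.w * (C.w * C.t) := by group
    _ = C.w * (C.t * C.w⁻¹) := by rw [h2]
    _ = (C.w * C.t) * C.w⁻¹ := by group
    _ = C.t * C.w⁻¹ * C.w⁻¹ := by rw [h2]
    _ = C.t * (C.w⁻¹ * C.w⁻¹) := by group
    _ = C.t * (C.w * C.w) := by
        rw [show C.w⁻¹ = C.w * C.z from C.w_inv]
        unfold z
        have := C.w4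
        congr 1
        have h3 : C.w * (C.w * C.w) * (C.w * (C.w * C.w)) = (C.w * C.w * C.w * C.w) * (C.w * C.w) := by
          group
        rw [h3, this, one_mul]

/-- `t` is not a power of `w`. -/
lemma t_ne_one : C.t ≠ 1 := by
  intro h
  have := C.hinv
  rw [h] at this
  simp at this
  have h2 : C.w * C.w = 1 := by
    nth_rw 1 [this]
    simp
  exact C.z_ne_one h2

lemma t_ne_z : C.t ≠ C.z := by
  intro h
  have := C.hinv
  rw [h] at this
  have h2 : C.z * C.w * C.z = C.w := by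
    unfold z
    have := C.w4
    calc C.w * C.w * C.w * (C.w * C.w) = (C.w * C.w * C.w * C.w) * C.w := by group
      _ = C.w := by rw [this, one_mul]
  rw [h2] at this
  have h3 : C.w * C.w = 1 := by
    nth_rw 1 [this]
    simp
  exact C.z_ne_one h3

/-- A swap of the four-subgroups. -/
lemma tw_tw : (C.t * C.w) * (C.t * C.w) = 1 := by
  rw [C.tw_eq]
  calc C.w⁻¹ * C.t * (C.w⁻¹ * C.t) = C.w⁻¹ * (C.t * C.w⁻¹ * C.t) := by group
    _ = C.w⁻¹ * (C.t * C.w * C.t)⁻¹ := by
        have : (C.t * C.w * C.t)⁻¹ = C.t⁻¹ * C.w⁻¹ * C.t⁻¹ := by group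
        rw [this, C.t_inv]
    _ = 1 := by rw [C.hinv]; group

/-- Elements of `⟨w⟩`. -/
lemma mem_zpowers_w {y : G} : y ∈ zpowers C.w ↔ y = 1 ∨ y = C.w ∨ y = C.z ∨ y = C.w⁻¹ := by
  constructor
  · rintro ⟨k, rfl⟩
    have h4 : C.w ^ (k : ℤ) = C.w ^ (k % 4 : ℤ) := by
      have := zpow_mod_orderOf C.w k
      rw [C.hw] at this
      exact this.symm
    change C.w ^ k = _ ∨ C.w ^ k = _ ∨ C.w ^ k = _ ∨ C.w ^ k = _
    rw [h4]
    have h5 : k % 4 = 0 ∨ k % 4 = 1 ∨ k % 4 = 2 ∨ k % 4 = 3 := by omega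
    rcases h5 with h | h | h | h <;> rw [h]
    · left; simp
    · right; left; simp
    · right; right; left
      unfold z
      rw [show (2 : ℤ) = ((2 : ℕ) : ℤ) from rfl, zpow_natCast, pow_two]
    · right; right; right
      rw [eq_inv_iff_mul_eq_one, show (3 : ℤ) = ((3 : ℕ) : ℤ) from rfl, zpow_natCast,
        ← pow_succ, C.w_pow4]
  · rintro (rfl | rfl | rfl | rfl)
    · exact one_mem _
    · exact mem_zpowers _
    · exact mul_mem (mem_zpowers _) (mem_zpowers _)
    · exact inv_mem (mem_zpowers _)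

lemma card_zpowers_w : Nat.card (zpowers C.w) = 4 := by
  rw [Nat.card_zpowers, C.hw]

lemma t_notMem : C.t ∉ zpowers C.w := by
  intro h
  have hc : C.t * C.w = C.w * C.t := by
    obtain ⟨k, hk⟩ := h
    change C.w ^ k = C.t at hk
    rw [← hk]
    exact (Commute.zpow_left (Commute.refl _) k).eq
  have h1 := C.hinv
  rw [hc, mul_assoc, C.ht, mul_one] at h1
  have h2 : C.w * C.w = 1 := by
    nth_rw 1 [h1]
    simp
  exact C.z_ne_one h2

lemma z_mem_S : C.z ∈ (C.S : Subgroup G) := mul_mem C.hwS C.hwS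

/-- Elements of the Sylow subgroup. -/
lemma mem_S {s : G} : s ∈ (C.S : Subgroup G) ↔
    s ∈ zpowers C.w ∨ C.t * s ∈ zpowers C.w := by
  classical
  have hle : zpowers C.w ≤ (C.S : Subgroup G) := by
    rw [zpowers_le]; exact C.hwS
  constructor
  · intro hs
    have hidx : ((zpowers C.w).subgroupOf (C.S : Subgroup G)).index = 2 := by
      have h1 := Subgroup.card_mul_index ((zpowers C.w).subgroupOf (C.S : Subgroup G))
      have h2 : Nat.card ((zpowers C.w).subgroupOf (C.S : Subgroup G)) = 4 := by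
        rw [← C.card_zpowers_w]
        exact Nat.card_congr (Subgroup.subgroupOfEquivOfLe hle).toEquiv
      rw [h2, C.hcardS] at h1
      omega
    have key := Subgroup.mul_mem_iff_of_index_two hidx (a := ⟨C.t, C.htS⟩) (b := ⟨s, hs⟩)
    simp only [Subgroup.mem_subgroupOf] at key
    by_cases h : s ∈ zpowers C.w
    · exact Or.inl h
    · right
      exact key.2 (by simp [C.t_notMem, h])
  · rintro (h | h)
    · exact hle h
    · have := mul_mem C.htS (hle h)
      rwa [← mul_assoc, C.ht, one_mul] at this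

/-- The list of elements of `S`. -/
lemma mem_S_list {s : G} (hs : s ∈ (C.S : Subgroup G)) :
    s = 1 ∨ s = C.w ∨ s = C.z ∨ s = C.w⁻¹ ∨ s = C.t ∨ s = C.t * C.w ∨ s = C.t * C.z ∨
      s = C.t * C.w⁻¹ := by
  have hts : ∀ y, C.t * s = y → s = C.t * y := by
    intro y hy
    rw [← hy, ← mul_assoc, C.ht, one_mul]
  rcases C.mem_S.1 hs with h | h
  · rcases C.mem_zpowers_w.1 h with h | h | h | h <;> simp [h]
  · rcases C.mem_zpowers_w.1 h with h | h | h | h
    · have := hts _ h; rw [mul_one] at this; simp [this]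
    · have := hts _ h; simp [this]
    · have := hts _ h; simp [this]
    · have := hts _ h; simp [this]

lemma w_mul_t : C.w * C.t * C.w⁻¹ = C.t * C.z := by
  rw [C.wt_eq, mul_assoc, C.w_inv]
  unfold z
  have := C.w4
  congr 1
  have h3 : C.w * (C.w * C.w) * (C.w * (C.w * C.w)) = (C.w * C.w * C.w * C.w) * (C.w * C.w) := by
    group
  rw [h3, this, one_mul]

/-- The second involution. -/
def u : G := C.t * C.w

lemma u_u : C.u * C.u = 1 := C.tw_tw

lemma u_inv : C.u⁻¹ = C.u := inv_eq_of_mul_eq_one_left C.u_u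

lemma u_mem : C.u ∈ (C.S : Subgroup G) := mul_mem C.htS C.hwS

lemma z_comm_w : C.z * C.w = C.w * C.z := C.wz.symm

lemma z_comm_u : C.z * C.u = C.u * C.z := by
  unfold u
  rw [← mul_assoc, C.zt, mul_assoc, C.z_comm_w, mul_assoc]

/-- Swap `t` for `t w`. -/
def swap : Cfg G where
  w := C.w
  t := C.u
  A := C.A
  S := C.S
  hw := C.hw
  ht := C.u_u
  hinv := by
    unfold u
    have := C.hinv
    calc C.t * C.w * C.w * (C.t * C.w) = C.t * C.w * (C.w * C.t) * C.w := by group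
      _ = C.t * C.w * (C.t * C.w⁻¹) * C.w := by rw [C.wt_eq]
      _ = (C.t * C.w * C.t) * (C.w⁻¹ * C.w) := by group
      _ = C.w⁻¹ := by rw [this]; group
  hcw := C.hcw
  hwS := C.hwS
  htS := C.u_mem
  hcardS := C.hcardS
  hAz := C.hAz
  hAn := C.hAn
  hAodd := C.hAodd
  hAS := C.hAS

/-! ### The complement `A` -/

lemma mem_cent_z {g : G} : g ∈ centralizer ({C.z} : Set G) ↔ g * C.z = C.z * g := by
  rw [mem_centralizer_singleton_iff]

lemma z_conj_w : C.w * C.z * C.w⁻¹ = C.z := by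
  rw [C.wz]; simp

lemma S_comm_z {s : G} (hs : s ∈ (C.S : Subgroup G)) : s * C.z = C.z * s := by
  have hw' : C.w⁻¹ * C.z = C.z * C.w⁻¹ := by
    rw [inv_mul_eq_iff_eq_mul, ← mul_assoc, C.wz, mul_assoc]; simp
  rcases C.mem_S_list hs with h | h | h | h | h | h | h | h <;> subst h
  · simp
  · exact C.wz
  · rfl
  · exact hw'
  · exact C.zt.symm
  · exact C.z_comm_u.symm
  · rw [mul_assoc, C.z_z, mul_one, ← mul_assoc, C.zt, mul_assoc, C.z_z, mul_one]
  · rw [mul_assoc, hw', ← mul_assoc, ← C.zt, mul_assoc]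

lemma A_comm_z {a : G} (ha : a ∈ C.A) : a * C.z = C.z * a := C.hAz a ha

lemma normal_A {g : G} (hg : g * C.z = C.z * g) {a : G} (ha : a ∈ C.A) : g * a * g⁻¹ ∈ C.A :=
  C.hAn g hg a ha

lemma normal_A_S {s : G} (hs : s ∈ (C.S : Subgroup G)) {a : G} (ha : a ∈ C.A) :
    s * a * s⁻¹ ∈ C.A := C.normal_A (C.S_comm_z hs) ha

lemma odd_of_mem_A {a : G} (ha : a ∈ C.A) : Odd (orderOf a) := by
  have h : orderOf (⟨a, ha⟩ : C.A) ∣ Nat.card C.A := orderOf_dvd_natCard _
  rw [Subgroup.orderOf_mk] at h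
  exact C.hAodd.of_dvd_nat h

/-- `y² = 1`, `y` of odd order, gives `y = 1`. -/
lemma eq_one_of_sq_of_odd {y : G} (h : Odd (orderOf y)) (h2 : y * y = 1) : y = 1 := by
  have h3 : orderOf y ∣ 2 := orderOf_dvd_of_pow_eq_one (by rw [pow_two]; exact h2)
  have h4 : orderOf y = 1 := by
    rcases (Nat.dvd_prime Nat.prime_two).1 h3 with h5 | h5
    · exact h5
    · rw [h5] at h; exact absurd h (by decide)
  exact orderOf_eq_one_iff.1 h4

lemma two_elt_of_mem_S {s : G} (hs : s ∈ (C.S : Subgroup G)) : ∃ k : ℕ, orderOf s = 2 ^ k := by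
  have h : orderOf (⟨s, hs⟩ : (C.S : Subgroup G)) ∣ Nat.card (C.S : Subgroup G) := orderOf_dvd_natCard _
  rw [Subgroup.orderOf_mk, C.hcardS, show 8 = 2 ^ 3 by norm_num] at h
  obtain ⟨k, -, hk⟩ := (Nat.dvd_prime_pow Nat.prime_two).1 h
  exact ⟨k, hk⟩

lemma A_inf_S {a : G} (ha : a ∈ C.A) (hs : a ∈ (C.S : Subgroup G)) : a = 1 := by
  obtain ⟨k, hk⟩ := C.two_elt_of_mem_S hs
  have h1 := C.odd_of_mem_A ha
  rw [hk] at h1
  rcases k with _ | k
  · rw [pow_zero] at hk
    exact orderOf_eq_one_iff.1 hk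
  · rw [pow_succ] at h1
    exact absurd h1 (by simp)

/-- `w` inverts `A`, which is abelian. -/
theorem A_struct : (∀ a ∈ C.A, C.w * a * C.w⁻¹ = a⁻¹) ∧ ∀ a ∈ C.A, ∀ b ∈ C.A, a * b = b * a := by
  classical
  let φ : C.A →* C.A :=
    { toFun := fun a => ⟨C.w * a * C.w⁻¹, C.normal_A C.wz a.2⟩
      map_one' := by ext; simp
      map_mul' := by
        intro a b
        ext
        change C.w * ((a : G) * b) * C.w⁻¹ = (C.w * (a : G) * C.w⁻¹) * (C.w * (b : G) * C.w⁻¹)
        group }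
  have hφ : ∀ a : C.A, ((φ a : C.A) : G) = C.w * a * C.w⁻¹ := fun a => rfl
  have hfp : MonoidHom.FixedPointFree φ := by
    intro a ha
    have h1 : (C.w * (a : G) * C.w⁻¹) = a := by
      have := congrArg (fun x : C.A => (x : G)) ha
      simpa [hφ] using this
    have h2 : (a : G) * C.w = C.w * a := by
      rw [mul_inv_eq_iff_eq_mul] at h1
      exact h1.symm
    have h3 : (a : G) ∈ zpowers C.w := C.hcw a h2
    have h4 : (a : G) ∈ (C.S : Subgroup G) := (zpowers_le.2 C.hwS) h3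
    ext
    simpa using C.A_inf_S a.2 h4
  have hinv : Function.Involutive φ := by
    intro a
    ext
    rw [hφ, hφ]
    have h1 : C.w * (C.w * (a : G) * C.w⁻¹) * C.w⁻¹ = (C.w * C.w) * a * (C.w * C.w)⁻¹ := by group
    rw [h1]
    have h2 := C.A_comm_z a.2
    change (a : G) * (C.w * C.w) = (C.w * C.w) * a at h2
    rw [← h2]
    group
  constructor
  · intro a ha
    have := congrFun (hfp.coe_eq_inv_of_involutive hinv) ⟨a, ha⟩
    have h2 := congrArg (fun x : C.A => (x : G)) this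
    simpa [hφ] using h2
  · intro a ha b hb
    have := hfp.commute_all_of_involutive hinv ⟨a, ha⟩ ⟨b, hb⟩
    exact congrArg (fun x : C.A => (x : G)) this

lemma w_act {a : G} (ha : a ∈ C.A) : C.w * a * C.w⁻¹ = a⁻¹ := C.A_struct.1 a ha

lemma A_comm {a b : G} (ha : a ∈ C.A) (hb : b ∈ C.A) : a * b = b * a := C.A_struct.2 a ha b hb


/-! ### Decompositions -/

/-- Unique factorizations give the order of a subgroup. -/
theorem card_of_decomp {P Q L : Subgroup G} (hP : P ≤ L) (hQ : Q ≤ L) (hPQ : P ⊓ Q = ⊥)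
    (h : ∀ x ∈ L, ∃ p ∈ P, ∃ q ∈ Q, x = p * q) : Nat.card L = Nat.card P * Nat.card Q := by
  rw [← Nat.card_prod]
  symm
  refine Nat.card_congr (Equiv.ofBijective
    (fun x : P × Q => (⟨(x.1 : G) * (x.2 : G), L.mul_mem (hP x.1.2) (hQ x.2.2)⟩ : L)) ⟨?_, ?_⟩)
  · rintro ⟨⟨p, hp⟩, ⟨q, hq⟩⟩ ⟨⟨p', hp'⟩, ⟨q', hq'⟩⟩ hxy
    have h1 : p * q = p' * q' := congrArg (fun x : L => (x : G)) hxy
    have h2 : p'⁻¹ * p = q' * q⁻¹ := by
      rw [inv_mul_eq_iff_eq_mul, ← mul_assoc, ← h1]; group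
    have h3 : p'⁻¹ * p ∈ P ⊓ Q := ⟨P.mul_mem (P.inv_mem hp') hp, by rw [h2]; exact Q.mul_mem hq' (Q.inv_mem hq)⟩
    rw [hPQ, Subgroup.mem_bot] at h3
    have h4 : p = p' := by
      rw [inv_mul_eq_one] at h3; exact h3.symm
    have h5 : q = q' := by
      rw [h4] at h1
      exact mul_left_cancel h1
    subst h4 h5
    rfl
  · rintro ⟨x, hx⟩
    obtain ⟨p, hp, q, hq, rfl⟩ := h x hx
    exact ⟨(⟨p, hp⟩, ⟨q, hq⟩), rfl⟩

lemma A_S_bot : C.A ⊓ (C.S : Subgroup G) = ⊥ := by
  rw [eq_bot_iff]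
  rintro x ⟨h1, h2⟩
  rw [Subgroup.mem_bot]
  exact C.A_inf_S h1 h2

/-- Uniqueness of the decomposition `g = a s`. -/
lemma decomp_unique {a a' s s' : G} (ha : a ∈ C.A) (ha' : a' ∈ C.A) (hs : s ∈ (C.S : Subgroup G))
    (hs' : s' ∈ (C.S : Subgroup G)) (h : a * s = a' * s') : a = a' ∧ s = s' := by
  have h2 : a'⁻¹ * a = s' * s⁻¹ := by
    rw [inv_mul_eq_iff_eq_mul, ← mul_assoc, ← h]; group
  have h3 : a'⁻¹ * a = 1 := C.A_inf_S (C.A.mul_mem (C.A.inv_mem ha') ha) (by
    rw [h2]; exact Subgroup.mul_mem _ hs' (Subgroup.inv_mem _ hs))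
  have h4 : a = a' := by
    rw [inv_mul_eq_one] at h3; exact h3.symm
  subst h4
  exact ⟨rfl, mul_left_cancel h⟩

lemma A_le_cent : C.A ≤ centralizer ({C.z} : Set G) := fun _ ha => C.mem_cent_z.2 (C.A_comm_z ha)

lemma S_le_cent : (C.S : Subgroup G) ≤ centralizer ({C.z} : Set G) :=
  fun _ hs => C.mem_cent_z.2 (C.S_comm_z hs)

lemma card_cent_z : Nat.card (centralizer ({C.z} : Set G)) = Nat.card C.A * 8 := by
  rw [← C.hcardS]
  refine card_of_decomp C.A_le_cent C.S_le_cent C.A_S_bot ?_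
  intro x hx
  exact C.hAS x (C.mem_cent_z.1 hx)

/-- Square roots in `A`. -/
lemma exists_sqrt {y : G} (hy : y ∈ C.A) : ∃ r ∈ C.A, r * r = y := by
  obtain ⟨k, hk⟩ := C.hAodd
  refine ⟨y ^ (k + 1), C.A.pow_mem hy _, ?_⟩
  have h1 : y ^ Nat.card C.A = 1 := by
    apply orderOf_dvd_iff_pow_eq_one.1
    have h : orderOf (⟨y, hy⟩ : C.A) ∣ Nat.card C.A := orderOf_dvd_natCard _
    rwa [Subgroup.orderOf_mk] at h
  rw [← pow_add, show k + 1 + (k + 1) = Nat.card C.A + 1 by omega, pow_succ, h1, one_mul]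

lemma A_sq_eq_one {y : G} (hy : y ∈ C.A) (h : y * y = 1) : y = 1 :=
  eq_one_of_sq_of_odd (C.odd_of_mem_A hy) h

lemma A_conj_t {y : G} (hy : y ∈ C.A) : C.t * y * C.t ∈ C.A := by
  have := C.normal_A_S C.htS hy
  rwa [C.t_inv] at this

/-- `A₊`: the fixed points of `t` on `A`. -/
def Ap : Subgroup G := C.A ⊓ centralizer ({C.t} : Set G)

lemma mem_Ap {y : G} : y ∈ C.Ap ↔ y ∈ C.A ∧ C.t * y * C.t = y := by
  unfold Ap
  rw [Subgroup.mem_inf, mem_centralizer_singleton_iff]
  refine and_congr_right fun _ => ?_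
  constructor
  · intro h
    rw [← h, mul_assoc, C.ht, mul_one]
  · intro h
    calc y * C.t = C.t * y * C.t * C.t := by rw [h]
      _ = C.t * y := by rw [mul_assoc, C.ht, mul_one]

lemma Ap_le : C.Ap ≤ C.A := inf_le_left

lemma mem_swap_Ap {y : G} : y ∈ C.swap.Ap ↔ y ∈ C.A ∧ C.t * y * C.t = y⁻¹ := by
  rw [mem_Ap]
  change y ∈ C.A ∧ C.u * y * C.u = y ↔ _
  refine and_congr_right fun hy => ?_
  have h1 : C.u * y * C.u = C.t * y⁻¹ * C.t := by
    unfold u
    have h2 := C.w_act hy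
    calc C.t * C.w * y * (C.t * C.w) = C.t * (C.w * y * C.w⁻¹) * (C.w * C.t * C.w) := by group
      _ = C.t * y⁻¹ * (C.w * C.t * C.w) := by rw [h2]
      _ = C.t * y⁻¹ * C.t := by
          rw [C.wt_eq]; group
  rw [h1]
  constructor
  · intro h
    have h3 : C.t * y * C.t = (C.t * y⁻¹ * C.t)⁻¹ := by
      simp only [mul_inv_rev, inv_inv, C.t_inv, mul_assoc]
    rw [h3, h]
  · intro h
    have h3 : C.t * y⁻¹ * C.t = (C.t * y * C.t)⁻¹ := by
      simp only [mul_inv_rev, C.t_inv, mul_assoc]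
    rw [h3, h, inv_inv]

lemma Ap_inf_Am : C.Ap ⊓ C.swap.Ap = ⊥ := by
  rw [eq_bot_iff]
  rintro y ⟨h1, h2⟩
  rw [Subgroup.mem_bot]
  have h3 := (C.mem_Ap.1 h1).2
  have h4 := (C.mem_swap_Ap.1 h2).2
  rw [h3] at h4
  apply C.A_sq_eq_one (C.mem_Ap.1 h1).1
  nth_rw 1 [h4]
  simp

lemma A_decomp (y : G) (hy : y ∈ C.A) : ∃ p ∈ C.Ap, ∃ m ∈ C.swap.Ap, y = p * m := by
  obtain ⟨r, hr, rfl⟩ := C.exists_sqrt hy
  set s := C.t * r * C.t with hs
  have hsA : s ∈ C.A := C.A_conj_t hr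
  have hss : C.t * s * C.t = r := by
    rw [hs]
    calc C.t * (C.t * r * C.t) * C.t = (C.t * C.t) * r * (C.t * C.t) := by group
      _ = r := by rw [C.ht]; simp
  have hsinv : C.t * s⁻¹ * C.t = r⁻¹ := by
    have : C.t * s⁻¹ * C.t = (C.t * s * C.t)⁻¹ := by
      simp only [mul_inv_rev, C.t_inv, mul_assoc]
    rw [this, hss]
  have hrs : C.t * r⁻¹ * C.t = s⁻¹ := by
    have : C.t * r⁻¹ * C.t = (C.t * r * C.t)⁻¹ := by
      simp only [mul_inv_rev, C.t_inv, mul_assoc]
    rw [this]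
  have hmul : ∀ x y : G, C.t * (x * y) * C.t = (C.t * x * C.t) * (C.t * y * C.t) := by
    intro x y
    calc C.t * (x * y) * C.t = C.t * x * 1 * y * C.t := by group
      _ = C.t * x * (C.t * C.t) * y * C.t := by rw [C.ht]
      _ = _ := by group
  refine ⟨r * s, ?_, r * s⁻¹, ?_, ?_⟩
  · rw [mem_Ap]
    refine ⟨C.A.mul_mem hr hsA, ?_⟩
    rw [hmul, hss, ← hs]
    exact C.A_comm hsA hr
  · rw [mem_swap_Ap]
    refine ⟨C.A.mul_mem hr (C.A.inv_mem hsA), ?_⟩
    rw [hmul, hsinv, ← hs, mul_inv_rev, inv_inv]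
  · have := C.A_comm hsA (C.A.inv_mem hsA)
    calc r * r = r * (s * s⁻¹) * r := by simp
      _ = r * s * s⁻¹ * r := by group
      _ = r * s * (s⁻¹ * r) := by group
      _ = r * s * (r * s⁻¹) := by
          rw [(C.A_comm (C.A.inv_mem hsA) hr)]

lemma card_A : Nat.card C.A = Nat.card C.Ap * Nat.card C.swap.Ap :=
  card_of_decomp C.Ap_le (by
      intro y hy; exact (C.mem_swap_Ap.1 hy).1) C.Ap_inf_Am C.A_decomp

/-- The four-group through `t`. -/
def V : Subgroup G := (C.S : Subgroup G) ⊓ centralizer ({C.t} : Set G)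

lemma mem_V {s : G} : s ∈ C.V ↔ s = 1 ∨ s = C.z ∨ s = C.t ∨ s = C.t * C.z := by
  unfold V
  rw [Subgroup.mem_inf, mem_centralizer_singleton_iff]
  constructor
  · rintro ⟨h1, h2⟩
    have hwt : ¬ C.t * C.w = C.w * C.t := by
      intro h
      have h3 := C.hinv
      rw [h, mul_assoc, C.ht, mul_one] at h3
      apply C.z_ne_one
      change C.w * C.w = 1
      nth_rw 1 [h3]
      simp
    have hwti : ¬ C.t * C.w⁻¹ = C.w⁻¹ * C.t := by
      intro h
      apply hwt
      rw [C.wt_eq, C.tw_eq]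
      exact h.symm
    have htt : ∀ y : G, C.t * (C.t * y) = C.t * y * C.t → C.t * y = y * C.t := by
      intro y h
      rw [← mul_assoc, C.ht, one_mul] at h
      calc C.t * y = C.t * y * C.t * C.t := by rw [mul_assoc (C.t * y), C.ht, mul_one]
        _ = y * C.t := by rw [← h]
    rcases C.mem_S_list h1 with h | h | h | h | h | h | h | h
    · exact Or.inl h
    · exfalso; rw [h] at h2; exact hwt h2.symm
    · exact Or.inr (Or.inl h)
    · exfalso
      rw [h] at h2
      exact hwti h2.symm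
    · exact Or.inr (Or.inr (Or.inl h))
    · exfalso
      rw [h] at h2
      exact hwt (htt _ h2.symm)
    · exact Or.inr (Or.inr (Or.inr h))
    · exfalso
      rw [h] at h2
      exact hwti (htt _ h2.symm)
  · rintro (h | h | h | h) <;> subst h
    · exact ⟨one_mem _, by simp⟩
    · exact ⟨C.z_mem_S, C.zt⟩
    · exact ⟨C.htS, rfl⟩
    · exact ⟨mul_mem C.htS C.z_mem_S, by
        rw [mul_assoc, C.zt, ← mul_assoc]⟩


lemma V_le_S : C.V ≤ (C.S : Subgroup G) := inf_le_left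

lemma t_ne_tz : C.t ≠ C.t * C.z := by
  intro h
  have : C.z = 1 := by
    have h2 : C.t * 1 = C.t * C.z := by rw [mul_one]; exact h
    exact (mul_left_cancel h2).symm
  exact C.z_ne_one this

lemma one_ne_tz : (1 : G) ≠ C.t * C.z := by
  intro h
  apply C.t_ne_z
  have h2 : C.t⁻¹ = C.z := inv_eq_of_mul_eq_one_right h.symm
  rw [← h2, C.t_inv]

lemma z_ne_tz : C.z ≠ C.t * C.z := by
  intro h
  apply C.t_ne_one
  exact (mul_eq_right.1 h.symm)

lemma card_V : Nat.card C.V = 4 := by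
  classical
  have h : (C.V : Set G) = ↑({1, C.z, C.t, C.t * C.z} : Finset G) := by
    ext s
    simp [C.mem_V]
  rw [show Nat.card C.V = Nat.card (C.V : Set G) from rfl, h, Nat.card_coe_set_eq, Set.ncard_coe_finset]
  rw [Finset.card_insert_of_notMem, Finset.card_insert_of_notMem, Finset.card_insert_of_notMem,
    Finset.card_singleton]
  · simpa using C.t_ne_tz
  · simp only [Finset.mem_insert, Finset.mem_singleton, not_or]
    exact ⟨C.t_ne_z.symm, C.z_ne_tz⟩
  · simp only [Finset.mem_insert, Finset.mem_singleton, not_or]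
    exact ⟨C.z_ne_one.symm, C.t_ne_one.symm, C.one_ne_tz⟩

/-- Joint centralizer of `z` and `t`. -/
theorem card_cent_z_t : Nat.card (centralizer ({C.z, C.t} : Set G)) = 4 * Nat.card C.Ap := by
  rw [mul_comm, ← C.card_V]
  refine card_of_decomp ?_ ?_ ?_ ?_
  · intro y hy
    rw [mem_centralizer_iff]
    have h1 := C.mem_Ap.1 hy
    intro h hh
    rcases hh with rfl | hh
    · exact (C.A_comm_z h1.1).symm
    · rw [Set.mem_singleton_iff] at hh
      subst hh
      have : y ∈ centralizer ({C.t} : Set G) := hy.2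
      rw [mem_centralizer_singleton_iff] at this
      exact this.symm
  · intro y hy
    rw [mem_centralizer_iff]
    intro h hh
    rcases hh with rfl | hh
    · exact (C.S_comm_z hy.1).symm
    · rw [Set.mem_singleton_iff] at hh
      subst hh
      have : y ∈ centralizer ({C.t} : Set G) := hy.2
      rw [mem_centralizer_singleton_iff] at this
      exact this.symm
  · rw [eq_bot_iff]
    rintro y ⟨h1, h2⟩
    rw [Subgroup.mem_bot]
    exact C.A_inf_S (C.mem_Ap.1 h1).1 (C.V_le_S h2)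
  · intro x hx
    rw [mem_centralizer_iff] at hx
    have hxz : x * C.z = C.z * x := (hx C.z (Or.inl rfl)).symm
    have hxt : C.t * x = x * C.t := hx C.t (Or.inr rfl)
    obtain ⟨α, hα, s, hs, rfl⟩ := C.hAS x hxz
    refine ⟨α, ?_, s, ?_, rfl⟩
    all_goals
      have h1 : (C.t * α * C.t) * (C.t * s * C.t) = α * s := by
        calc (C.t * α * C.t) * (C.t * s * C.t) = C.t * α * (C.t * C.t) * s * C.t := by group
          _ = C.t * (α * s) * C.t := by rw [C.ht]; group
          _ = α * s * C.t * C.t := by rw [hxt]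
          _ = α * s := by rw [mul_assoc (α * s), C.ht, mul_one]
      have hs2 : C.t * s * C.t ∈ (C.S : Subgroup G) :=
        mul_mem (mul_mem C.htS hs) C.htS
      obtain ⟨h2, h3⟩ := C.decomp_unique (C.A_conj_t hα) hα hs2 hs h1
    · exact C.mem_Ap.2 ⟨hα, h2⟩
    · refine ⟨hs, ?_⟩
      change s ∈ centralizer ({C.t} : Set G)
      rw [mem_centralizer_singleton_iff]
      calc s * C.t = C.t * s * C.t * C.t := by rw [h3]
        _ = C.t * s := by rw [mul_assoc (C.t * s), C.ht, mul_one]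

lemma wt_eq_uz : C.w * C.t = C.u * C.z := by
  unfold u
  rw [C.wt_eq, C.w_inv, mul_assoc]

theorem cent_z_wt : centralizer ({C.z, C.w * C.t} : Set G) = centralizer ({C.z, C.u} : Set G) := by
  ext y
  simp only [mem_centralizer_iff, Set.mem_insert_iff, Set.mem_singleton_iff, forall_eq_or_imp,
    forall_eq]
  refine and_congr_right fun hz => ?_
  rw [C.wt_eq_uz]
  constructor
  · intro h
    have h3 : C.u * y * C.z = y * C.u * C.z := by
      rw [mul_assoc C.u y, ← hz, ← mul_assoc, h, mul_assoc]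
    exact mul_right_cancel h3
  · intro h
    rw [mul_assoc, hz, ← mul_assoc, h, mul_assoc]

/-- Joint centralizer of `z` and `w t`. -/
theorem card_cent_z_wt : Nat.card (centralizer ({C.z, C.w * C.t} : Set G)) = 4 * Nat.card C.swap.Ap := by
  rw [C.cent_z_wt]
  exact C.swap.card_cent_z_t

/-- The basic numbers. -/
lemma odd_a : Odd (Nat.card C.Ap) := by
  have := C.hAodd
  rw [C.card_A] at this
  exact (Nat.odd_mul.1 this).1

lemma odd_b : Odd (Nat.card C.swap.Ap) := by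
  have := C.hAodd
  rw [C.card_A] at this
  exact (Nat.odd_mul.1 this).2

theorem card_cent_z' : Nat.card (centralizer ({C.z} : Set G)) =
    8 * Nat.card C.Ap * Nat.card C.swap.Ap := by
  rw [C.card_cent_z, C.card_A]; ring

lemma t_y_t {y : G} (hy : y ∈ zpowers C.w) : C.t * y * C.t = y⁻¹ := by
  obtain ⟨k, rfl⟩ := hy
  change C.t * C.w ^ k * C.t = (C.w ^ k)⁻¹
  have h := conj_zpow (a := C.t) (b := C.w) (i := k)
  rw [C.t_inv, C.hinv, inv_zpow] at h
  exact h.symm

lemma ty_sq {y : G} (hy : y ∈ zpowers C.w) : (C.t * y) * (C.t * y) = 1 := by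
  rw [← mul_assoc, C.t_y_t hy]; simp

lemma ty_ne {y : G} (hy : y ∈ zpowers C.w) : C.t * y ≠ 1 := by
  intro h
  apply C.t_notMem
  have : C.t = y⁻¹ := eq_inv_of_mul_eq_one_left h
  rw [this]
  exact inv_mem hy

lemma orderOf_ty {y : G} (hy : y ∈ zpowers C.w) : orderOf (C.t * y) = 2 :=
  orderOf_eq_prime (p := 2) (by rw [pow_two, C.ty_sq hy]) (C.ty_ne hy)

lemma orderOf_z : orderOf C.z = 2 :=
  orderOf_eq_prime (p := 2) (by rw [pow_two, C.z_z]) C.z_ne_one

end Cfg

end Cfsg.Agent.Lib.SCent
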