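import Mathlib

/-!
# Generic lemmas on conjugacy classes, Sylow subgroups and factorizations
-/

set_option autoImplicit false

namespace Cfsg.Agent.Lib.SCent

open Subgroup

variable {G : Type*} [Group G]

/-- Orbit-stabilizer for conjugation by a subgroup. -/
theorem card_class [Finite G] (K : Subgroup G) (x : G) :
    Set.ncard {y | ∃ g ∈ K, g * x * g⁻¹ = y} * Nat.card (K ⊓ centralizer ({x} : Set G) : Subgroup G) =
      Nat.card K := by
  classical
  set St : Subgroup K := (centralizer ({x} : Set G)).subgroupOf K with hSt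
  have h1 : Nat.card St = Nat.card (K ⊓ centralizer ({x} : Set G) : Subgroup G) := by
    have := Subgroup.subgroupOfEquivOfLe (G := G) (H := K ⊓ centralizer ({x} : Set G)) (K := K) inf_le_left
    rw [← Nat.card_congr this.toEquiv]
    congr 2
    ext y
    simp [hSt, Subgroup.mem_subgroupOf]
  have h2 := Subgroup.card_mul_index St
  rw [← h1, mul_comm, ← h2]
  congr 1
  have hf : ∀ k k' : K, ((k : G) * x * (k : G)⁻¹ = (k' : G) * x * (k' : G)⁻¹) ↔
      (k : K ⧸ St) = k' := by
    intro k k'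
    rw [QuotientGroup.eq, hSt, Subgroup.mem_subgroupOf, mem_centralizer_singleton_iff]
    simp only [coe_mul, InvMemClass.coe_inv]
    constructor
    · intro h
      calc (k : G)⁻¹ * k' * x = (k : G)⁻¹ * ((k' : G) * x * (k' : G)⁻¹) * k' := by group
        _ = (k : G)⁻¹ * ((k : G) * x * (k : G)⁻¹) * k' := by rw [h]
        _ = x * ((k : G)⁻¹ * k') := by group
    · intro h
      calc (k : G) * x * (k : G)⁻¹ = (k : G) * (x * ((k : G)⁻¹ * k')) * (k' : G)⁻¹ := by group
        _ = (k : G) * ((k : G)⁻¹ * k' * x) * (k' : G)⁻¹ := by rw [h]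
        _ = _ := by group
  let φ : K ⧸ St → {y | ∃ g ∈ K, g * x * g⁻¹ = y} := fun q =>
    ⟨(q.out : G) * x * (q.out : G)⁻¹, q.out, q.out.2, rfl⟩
  have hφ : Function.Bijective φ := by
    constructor
    · intro q q' h
      have h3 : (q.out : G) * x * (q.out : G)⁻¹ = (q'.out : G) * x * (q'.out : G)⁻¹ :=
        congrArg Subtype.val h
      have h4 := (hf _ _).1 h3
      rwa [QuotientGroup.out_eq', QuotientGroup.out_eq'] at h4
    · rintro ⟨y, g, hg, rfl⟩
      refine ⟨((⟨g, hg⟩ : K) : K ⧸ St), ?_⟩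
      apply Subtype.ext
      exact (hf _ ⟨g, hg⟩).2 (QuotientGroup.out_eq' _)
  rw [← Nat.card_coe_set_eq, Subgroup.index]
  exact (Nat.card_congr (Equiv.ofBijective φ hφ)).symm

/-- Uniqueness of the decomposition into an involution and a commuting element of odd order. -/
theorem parts_unique {i i' r r' : G} (hi : i * i = 1) (hi' : i' * i' = 1) (hc : Commute i r)
    (hc' : Commute i' r') (hr : Odd (orderOf r)) (hr' : Odd (orderOf r')) (h : i * r = i' * r') :
    i = i' ∧ r = r' := by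
  obtain ⟨n, hn⟩ := hr.mul hr'
  have h2 : i ^ 2 = 1 := by rw [pow_two, hi]
  have h2' : i' ^ 2 = 1 := by rw [pow_two, hi']
  have h3 : r ^ (2 * n + 1) = 1 := by
    rw [← hn]
    rw [pow_mul, pow_orderOf_eq_one, one_pow]
  have h3' : r' ^ (2 * n + 1) = 1 := by
    rw [← hn, mul_comm]
    rw [pow_mul, pow_orderOf_eq_one, one_pow]
  have h4 : (i * r) ^ (2 * n + 1) = i := by
    rw [hc.mul_pow, h3, mul_one, pow_succ, pow_mul, h2, one_pow, one_mul]
  have h4' : (i' * r') ^ (2 * n + 1) = i' := by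
    rw [hc'.mul_pow, h3', mul_one, pow_succ, pow_mul, h2', one_pow, one_mul]
  have h5 : i = i' := by
    rw [← h4, ← h4', h]
  subst h5
  exact ⟨rfl, mul_left_cancel h⟩

/-- A `p`-subgroup of `K` can be conjugated in `K` into a Sylow subgroup of `G` contained in `K`. -/
theorem exists_conj_into_sylow [Finite G] {p : ℕ} [Fact p.Prime] (K : Subgroup G) (S : Sylow p G)
    (hSK : (S : Subgroup G) ≤ K) (Q : Subgroup G) (hQK : Q ≤ K) (hQ : IsPGroup p Q) :
    ∃ h ∈ K, ∀ y ∈ Q, h * y * h⁻¹ ∈ (S : Subgroup G) := by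
  have hQ' : IsPGroup p (Q.subgroupOf K) := by
    exact hQ.of_injective (Subgroup.subgroupOfEquivOfLe hQK).toMonoidHom
      (Subgroup.subgroupOfEquivOfLe hQK).injective
  obtain ⟨R, hR⟩ := hQ'.exists_le_sylow
  obtain ⟨g, hg⟩ := MulAction.exists_smul_eq K R (S.subtype hSK)
  refine ⟨g, g.2, fun y hy => ?_⟩
  have h1 : (⟨y, hQK hy⟩ : K) ∈ (R : Subgroup K) := hR hy
  have h2 : g * (⟨y, hQK hy⟩ : K) * g⁻¹ ∈ ((g • R : Sylow p K) : Subgroup K) := by
    rw [Sylow.smul_def, Sylow.pointwise_smul_def]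
    exact Subgroup.smul_mem_pointwise_smul _ (MulAut.conj g) _ h1
  rw [hg, Sylow.coe_subtype] at h2
  exact h2

/-- Two Sylow subgroups of `G` in `K` are conjugate in `K`. -/
theorem exists_conj_sylow [Finite G] {p : ℕ} [Fact p.Prime] (K : Subgroup G) (S S' : Sylow p G)
    (hSK : (S : Subgroup G) ≤ K) (hSK' : (S' : Subgroup G) ≤ K) :
    ∃ h ∈ K, ∀ y ∈ (S' : Subgroup G), h * y * h⁻¹ ∈ (S : Subgroup G) :=
  exists_conj_into_sylow K S hSK S' hSK' S'.isPGroup'

theorem conj_orderOf (g x : G) : orderOf (g * x * g⁻¹) = orderOf x := by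
  have := orderOf_injective (MulAut.conj g).toMonoidHom (MulAut.conj g).injective x
  simpa [MulAut.conj_apply] using this

theorem conj_commute {g x y : G} (h : x * y = y * x) :
    (g * x * g⁻¹) * (g * y * g⁻¹) = (g * y * g⁻¹) * (g * x * g⁻¹) := by
  calc (g * x * g⁻¹) * (g * y * g⁻¹) = g * (x * y) * g⁻¹ := by group
    _ = g * (y * x) * g⁻¹ := by rw [h]
    _ = _ := by group

theorem conj_mul_conj (g x y : G) : (g * x * g⁻¹) * (g * y * g⁻¹) = g * (x * y) * g⁻¹ := by group

theorem conj_inv' (g x : G) : g * x⁻¹ * g⁻¹ = (g * x * g⁻¹)⁻¹ := by group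

theorem conj_conj' (g h x : G) : (g * h) * x * (g * h)⁻¹ = g * (h * x * h⁻¹) * g⁻¹ := by group

theorem inv_conj_conj (g x : G) : g⁻¹ * (g * x * g⁻¹) * g = x := by group

theorem conj_inv_conj (g x : G) : g * (g⁻¹ * x * g) * g⁻¹ = x := by group

theorem conj_inv_inv (g x : G) : g⁻¹ * x * g⁻¹⁻¹ = g⁻¹ * x * g := by group

/-- Even and odd parts of a power. -/
theorem eq_one_of_odd_of_two_pow {x : G} {k : ℕ} (h : orderOf x = 2 ^ k) (h2 : Odd (orderOf x)) :
    x = 1 := by
  rcases k with _ | k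
  · rw [pow_zero] at h
    exact orderOf_eq_one_iff.1 h
  · rw [h, pow_succ] at h2
    exact absurd h2 (by simp)

end Cfsg.Agent.Lib.SCent
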