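import Mathlib
import Cfsg.Agent.Lib.SCent.Base
import Cfsg.Agent.Lib.SCent.Gen

/-!
# The element `τ` permuting the three involutions of the four-group `V`
-/

set_option autoImplicit false

namespace Cfsg.Agent.Lib.SCent

open Subgroup

theorem mem_norm_of_maps {G : Type*} [Group G] [Finite G] {H : Subgroup G} {g : G}
    (h : ∀ x ∈ H, g * x * g⁻¹ ∈ H) : g ∈ normalizer (H : Set G) := by
  rw [mem_normalizer_iff]
  intro x
  refine ⟨h x, fun hx => ?_⟩
  have h1 : H.map (MulAut.conj g).toMonoidHom ≤ H := by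
    rintro _ ⟨y, hy, rfl⟩
    exact h y hy
  have h2 : H.map (MulAut.conj g).toMonoidHom = H := by
    apply Subgroup.eq_of_le_of_card_ge h1
    rw [Subgroup.card_map_of_injective (MulAut.conj g).injective]
  rw [← h2] at hx
  obtain ⟨y, hy, hyx⟩ := hx
  have h3 : g * y * g⁻¹ = g * x * g⁻¹ := hyx
  have h4 : y = x := by
    have := mul_right_cancel h3
    exact mul_left_cancel this
  rwa [← h4]

namespace Cfg

variable {G : Type*} [Group G] [Finite G] (C : Cfg G)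

/-- Powers of an element of `A S`. -/
lemma pow_decomp {α s : G} (hα : α ∈ C.A) (hs : s ∈ (C.S : Subgroup G)) (k : ℕ) :
    ∃ β ∈ C.A, (α * s) ^ k = β * s ^ k := by
  induction k with
  | zero => exact ⟨1, one_mem _, by simp⟩
  | succ k ih =>
    obtain ⟨β, hβ, h⟩ := ih
    refine ⟨β * (s ^ k * α * (s ^ k)⁻¹), mul_mem hβ (C.normal_A_S (pow_mem hs k) hα), ?_⟩
    rw [pow_succ, h, pow_succ]
    group

/-- Elements of odd order of `C(z)` lie in `A`. -/
theorem mem_A_of_odd {g : G} (hg : g * C.z = C.z * g) (ho : Odd (orderOf g)) : g ∈ C.A := by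
  obtain ⟨α, hα, s, hs, rfl⟩ := C.hAS g hg
  obtain ⟨β, hβ, h⟩ := C.pow_decomp hα hs (orderOf (α * s))
  rw [pow_orderOf_eq_one] at h
  have h1 : s ^ orderOf (α * s) = β⁻¹ := (inv_eq_of_mul_eq_one_right h.symm).symm
  have h2 : s ^ orderOf (α * s) = 1 := by
    apply C.A_inf_S
    · rw [h1]; exact inv_mem hβ
    · exact pow_mem hs _
  have h3 : orderOf s ∣ orderOf (α * s) := orderOf_dvd_of_pow_eq_one h2
  have h4 : Odd (orderOf s) := ho.of_dvd_nat h3
  obtain ⟨k, hk⟩ := C.two_elt_of_mem_S hs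
  have h5 : s = 1 := eq_one_of_odd_of_two_pow hk h4
  rw [h5, mul_one]
  exact hα

lemma w_inv_act {a : G} (ha : a ∈ C.A) : C.w⁻¹ * a * C.w = a⁻¹ := by
  have h := C.w_act (inv_mem ha)
  rw [inv_inv] at h
  have h2 : C.w⁻¹ * a * C.w = C.w⁻¹ * (C.w * a⁻¹ * C.w⁻¹) * C.w := by rw [h]
  rw [h2]; group

/-- Decomposition of the joint centralizer. -/
lemma cent_z_t_decomp {x : G} (hz : x * C.z = C.z * x) (ht : x * C.t = C.t * x) :
    ∃ β ∈ C.Ap, ∃ s ∈ C.V, x = β * s := by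
  obtain ⟨α, hα, s, hs, rfl⟩ := C.hAS x hz
  have h1 : (C.t * α * C.t) * (C.t * s * C.t) = α * s := by
    calc (C.t * α * C.t) * (C.t * s * C.t) = C.t * α * (C.t * C.t) * s * C.t := by group
      _ = C.t * (α * s) * C.t := by rw [C.ht]; group
      _ = α * s * C.t * C.t := by rw [ht]
      _ = α * s := by rw [mul_assoc (α * s), C.ht, mul_one]
  have hs2 : C.t * s * C.t ∈ (C.S : Subgroup G) := mul_mem (mul_mem C.htS hs) C.htS
  obtain ⟨h2, h3⟩ := C.decomp_unique (C.A_conj_t hα) hα hs2 hs h1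
  refine ⟨α, C.mem_Ap.2 ⟨hα, h2⟩, s, ⟨hs, ?_⟩, rfl⟩
  change s ∈ centralizer ({C.t} : Set G)
  rw [mem_centralizer_singleton_iff]
  calc s * C.t = C.t * s * C.t * C.t := by rw [h3]
    _ = C.t * s := by rw [mul_assoc (C.t * s), C.ht, mul_one]

lemma Ap_comm_V {α s : G} (hα : α ∈ C.Ap) (hs : s ∈ C.V) : α * s = s * α := by
  have h1 := C.mem_Ap.1 hα
  have hαz := C.A_comm_z h1.1
  have hαt : α * C.t = C.t * α := by
    calc α * C.t = C.t * α * C.t * C.t := by rw [h1.2]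
      _ = C.t * α := by rw [mul_assoc (C.t * α), C.ht, mul_one]
  rcases C.mem_V.1 hs with h | h | h | h <;> subst h
  · simp
  · exact hαz
  · exact hαt
  · rw [← mul_assoc, hαt, mul_assoc, hαz, mul_assoc]

/-- Conjugation of `t` by elements of `S`. -/
lemma conj_t_S {s : G} (hs : s ∈ (C.S : Subgroup G)) :
    s * C.t * s⁻¹ = C.t ∨ s * C.t * s⁻¹ = C.t * C.z := by
  have hw : C.w * C.t * C.w⁻¹ = C.t * C.z := C.w_mul_t
  have hwi : C.w⁻¹ * C.t * C.w = C.t * C.z := by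
    have h1 : C.t = C.w⁻¹ * (C.t * C.z) * C.w := by
      rw [← hw]; group
    have h2 : C.w⁻¹ * (C.t * C.z) * C.w = (C.w⁻¹ * C.t * C.w) * C.z := by
      calc C.w⁻¹ * (C.t * C.z) * C.w = C.w⁻¹ * C.t * (C.z * C.w) := by group
        _ = C.w⁻¹ * C.t * (C.w * C.z) := by rw [C.wz]
        _ = _ := by group
    rw [h2] at h1
    have h3 : C.t * C.z = (C.w⁻¹ * C.t * C.w) * C.z * C.z := by rw [← h1]
    rw [mul_assoc _ C.z C.z, C.z_z, mul_one] at h3
    exact h3.symm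
  have htz : C.t * (C.t * C.z) * C.t = C.t * C.z := by
    rw [← mul_assoc, C.ht, one_mul, C.zt]
  have hconj : ∀ x : G, (C.t * x) * C.t * (C.t * x)⁻¹ = C.t * (x * C.t * x⁻¹) * C.t := by
    intro x
    calc (C.t * x) * C.t * (C.t * x)⁻¹ = C.t * (x * C.t * x⁻¹) * C.t⁻¹ := by group
      _ = _ := by rw [C.t_inv]
  have hzt : C.z * C.t * C.z⁻¹ = C.t := by
    rw [C.z_inv, C.zt, mul_assoc, C.z_z, mul_one]
  rcases C.mem_S_list hs with h | h | h | h | h | h | h | h <;> subst h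
  · left; simp
  · right; exact hw
  · left; exact hzt
  · right
    rw [inv_inv]; exact hwi
  · left
    rw [C.t_inv, C.ht, one_mul]
  · right
    rw [hconj, hw, htz]
  · left
    rw [hconj, hzt, C.ht, one_mul]
  · right
    rw [hconj, inv_inv, hwi, htz]

lemma V_normal {s x : G} (hs : s ∈ (C.S : Subgroup G)) (hx : x ∈ C.V) : s * x * s⁻¹ ∈ C.V := by
  have hsz : s * C.z * s⁻¹ = C.z := by rw [C.S_comm_z hs]; simp
  rw [C.mem_V]
  rcases C.mem_V.1 hx with h | h | h | h <;> subst h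
  · left; simp
  · right; left; exact hsz
  · rcases C.conj_t_S hs with h | h
    · right; right; left; exact h
    · right; right; right; exact h
  · have h2 : s * (C.t * C.z) * s⁻¹ = (s * C.t * s⁻¹) * (s * C.z * s⁻¹) := (conj_mul_conj _ _ _).symm
    rw [h2, hsz]
    rcases C.conj_t_S hs with h | h
    · right; right; right; rw [h]
    · right; right; left
      rw [h, mul_assoc, C.z_z, mul_one]

lemma swap_mem_V {s : G} : s ∈ C.swap.V ↔ s = 1 ∨ s = C.z ∨ s = C.u ∨ s = C.u * C.z := C.swap.mem_V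

lemma w_ne_wi : C.w ≠ C.w⁻¹ := by
  intro h
  apply C.z_ne_one
  change C.w * C.w = 1
  nth_rw 1 [h]
  simp

/-- An element sending `w` into `S` lies in `S`. -/
lemma mem_S_of_conj_w {n : G} (h : n * C.w * n⁻¹ ∈ (C.S : Subgroup G)) : n ∈ (C.S : Subgroup G) := by
  have ho : orderOf (n * C.w * n⁻¹) = 4 := by rw [conj_orderOf, C.hw]
  have hle : zpowers C.w ≤ (C.S : Subgroup G) := by
    rw [zpowers_le]; exact C.hwS
  have hcase : n * C.w * n⁻¹ = C.w ∨ n * C.w * n⁻¹ = C.w⁻¹ := by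
    rcases C.mem_S.1 h with h1 | h1
    · rcases C.mem_zpowers_w.1 h1 with h2 | h2 | h2 | h2
      · rw [h2, orderOf_one] at ho; omega
      · exact Or.inl h2
      · rw [h2, C.orderOf_z] at ho; omega
      · exact Or.inr h2
    · exfalso
      have h2 := C.orderOf_ty h1
      rw [← mul_assoc, C.ht, one_mul, ho] at h2
      omega
  rcases hcase with h1 | h1
  · apply hle
    apply C.hcw
    rw [mul_inv_eq_iff_eq_mul] at h1
    exact h1
  · have h2 : (C.t * n) * C.w = C.w * (C.t * n) := by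
      rw [mul_inv_eq_iff_eq_mul] at h1
      calc (C.t * n) * C.w = C.t * (n * C.w) := by group
        _ = C.t * (C.w⁻¹ * n) := by rw [h1]
        _ = (C.t * C.w⁻¹) * n := by group
        _ = (C.w * C.t) * n := by rw [C.wt_eq]
        _ = _ := by group
    have h3 := hle (C.hcw _ h2)
    have h4 := mul_mem C.htS h3
    rwa [← mul_assoc, C.ht, one_mul] at h4

/-- The two four-subgroups are not conjugate. -/
theorem not_conj (g : G) (h : ∀ x ∈ C.V, g * x * g⁻¹ ∈ C.swap.V) : False := by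
  haveI : Fact (Nat.Prime 2) := ⟨Nat.prime_two⟩
  have hmap : C.V.map (MulAut.conj g).toMonoidHom = C.swap.V := by
    apply Subgroup.eq_of_le_of_card_ge
    · rintro _ ⟨y, hy, rfl⟩
      exact h y hy
    · rw [Subgroup.card_map_of_injective (MulAut.conj g).injective, C.swap.card_V, C.card_V]
  let N₂ : Subgroup G := normalizer (C.swap.V : Set G)
  have hSN : (C.S : Subgroup G) ≤ N₂ := fun s hs =>
    mem_norm_of_maps (fun x hx => C.swap.V_normal hs hx)
  let Q : Subgroup G := (C.S : Subgroup G).map (MulAut.conj g).toMonoidHom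
  have hQ : IsPGroup 2 Q := C.S.isPGroup'.map _
  have hQN : Q ≤ N₂ := by
    rintro _ ⟨s, hs, rfl⟩
    apply mem_norm_of_maps
    intro x hx
    rw [← hmap] at hx
    obtain ⟨y, hy, rfl⟩ := hx
    rw [← hmap]
    refine ⟨s * y * s⁻¹, C.V_normal hs hy, ?_⟩
    change g * (s * y * s⁻¹) * g⁻¹ = (g * s * g⁻¹) * (g * y * g⁻¹) * (g * s * g⁻¹)⁻¹
    group
  obtain ⟨h', hh', hQS⟩ := exists_conj_into_sylow N₂ C.S hSN Q hQN hQ
  set n := h' * g with hn
  have hnS : n * C.w * n⁻¹ ∈ (C.S : Subgroup G) := by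
    have := hQS (g * C.w * g⁻¹) ⟨C.w, C.hwS, rfl⟩
    convert this using 1
    rw [hn]; group
  have hnmem := C.mem_S_of_conj_w hnS
  have hnt : n * C.t * n⁻¹ ∈ C.swap.V := by
    have h1 := h C.t (C.mem_V.2 (Or.inr (Or.inr (Or.inl rfl))))
    have h2 := (mem_normalizer_iff.1 hh' _).1 h1
    convert h2 using 1
    rw [hn]; group
  have hne1 : C.w ≠ 1 := C.w_ne_one
  have hwz : C.w ≠ C.z := C.w_ne_z
  have hu : C.u = C.t * C.w := rfl
  rw [C.swap_mem_V] at hnt
  rcases C.conj_t_S hnmem with h1 | h1 <;> rw [h1] at hnt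
  · rcases hnt with h2 | h2 | h2 | h2
    · exact C.t_ne_one h2
    · exact C.t_ne_z h2
    · rw [hu] at h2
      exact hne1 (mul_eq_left.1 h2.symm)
    · rw [hu, mul_assoc] at h2
      have h3 : C.w * C.z = 1 := (mul_eq_left.1 h2.symm)
      have h4 : C.w = C.z⁻¹ := eq_inv_of_mul_eq_one_left h3
      rw [C.z_inv] at h4
      exact hwz h4
  · rcases hnt with h2 | h2 | h2 | h2
    · exact C.one_ne_tz h2.symm
    · exact C.t_ne_one (mul_eq_right.1 h2)
    · rw [hu] at h2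
      exact hwz (mul_left_cancel h2).symm
    · rw [hu, mul_assoc] at h2
      have h3 : C.z = C.w * C.z := mul_left_cancel h2
      exact hne1 (mul_eq_right.1 h3.symm)

/-- The element `τ`. -/
theorem exists_tau (hc : ∀ x : G, orderOf x = 2 → IsConj C.z x) :
    ∃ τ : G, (∀ α ∈ C.Ap, τ * α * τ⁻¹ = α) ∧ τ * C.z * τ⁻¹ = C.t ∧ τ * C.t * τ⁻¹ = C.t * C.z := by
  haveI : Fact (Nat.Prime 2) := ⟨Nat.prime_two⟩
  have hto : orderOf C.t = 2 := orderOf_eq_prime (p := 2) (by rw [pow_two, C.ht]) C.t_ne_one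
  obtain ⟨c, hc1⟩ := isConj_iff.1 (hc C.t hto)
  obtain ⟨g, hgt⟩ : ∃ g : G, g * C.t * g⁻¹ = C.z := ⟨c⁻¹, by rw [← hc1]; group⟩
  let Q : Subgroup G := C.V.map (MulAut.conj g).toMonoidHom
  have hVp : IsPGroup 2 C.V := by
    apply IsPGroup.of_card (n := 2)
    rw [C.card_V]; norm_num
  have hQ : IsPGroup 2 Q := hVp.map _
  have hVt : ∀ x ∈ C.V, x * C.t = C.t * x := by
    intro x hx
    have h1 : x ∈ centralizer ({C.t} : Set G) := hx.2
    exact mem_centralizer_singleton_iff.1 h1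
  have hQC : Q ≤ centralizer ({C.z} : Set G) := by
    rintro _ ⟨x, hx, rfl⟩
    rw [mem_centralizer_singleton_iff, ← hgt]
    exact conj_commute (hVt x hx)
  obtain ⟨h', hh', hQS⟩ := exists_conj_into_sylow _ C.S C.S_le_cent Q hQC hQ
  have hh'z := C.mem_cent_z.1 hh'
  set g₁ := h' * g with hg₁
  have hg₁conj : ∀ x : G, g₁ * x * g₁⁻¹ = h' * (g * x * g⁻¹) * h'⁻¹ := fun x => by rw [hg₁]; group
  have hg₁t : g₁ * C.t * g₁⁻¹ = C.z := by
    rw [hg₁conj, hgt, hh'z]; simp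
  have hg₁S : ∀ x ∈ C.V, g₁ * x * g₁⁻¹ ∈ (C.S : Subgroup G) := by
    intro x hx
    rw [hg₁conj]
    exact hQS _ ⟨x, hx, rfl⟩
  set x₂ := g₁ * C.z * g₁⁻¹ with hx₂
  have hzV : C.z ∈ C.V := C.mem_V.2 (Or.inr (Or.inl rfl))
  have htV : C.t ∈ C.V := C.mem_V.2 (Or.inr (Or.inr (Or.inl rfl)))
  have hx₂S : x₂ ∈ (C.S : Subgroup G) := hg₁S _ hzV
  have hx₂2 : x₂ * x₂ = 1 := by
    rw [hx₂, conj_mul_conj, C.z_z]; group
  have hx₂1 : x₂ ≠ 1 := by
    intro h
    apply C.z_ne_one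
    have h1 : C.z = g₁⁻¹ * x₂ * g₁ := by rw [hx₂]; group
    rw [h1, h]; group
  have hx₂z : x₂ ≠ C.z := by
    intro h
    apply C.t_ne_z
    have h1 : g₁ * C.t * g₁⁻¹ = g₁ * C.z * g₁⁻¹ := by rw [hg₁t, ← hx₂, h]
    exact mul_left_cancel (mul_right_cancel h1)
  have htz1 : (g₁ * (C.t * C.z) * g₁⁻¹) = C.z * x₂ := by
    rw [hx₂, ← hg₁t, conj_mul_conj]
  -- the image of the four-group is `V`
  have hcases : x₂ = C.t ∨ x₂ = C.t * C.z := by
    rcases C.mem_S_list hx₂S with h | h | h | h | h | h | h | h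
    · exact absurd h hx₂1
    · exfalso; rw [h] at hx₂2; exact C.z_ne_one hx₂2
    · exact absurd h hx₂z
    · exfalso
      rw [h] at hx₂2
      apply C.z_ne_one
      have h2 : C.w⁻¹ * C.w⁻¹ = C.z := by
        rw [← mul_inv_rev]; exact C.z_inv
      rw [← h2]; exact hx₂2
    · exact Or.inl h
    · exfalso
      apply C.not_conj g₁
      intro x hx
      rw [C.swap_mem_V]
      rcases C.mem_V.1 hx with h1 | h1 | h1 | h1 <;> subst h1
      · left; simp
      · right; right; left; rw [← hx₂, h]; rfl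
      · right; left; exact hg₁t
      · right; right; right
        rw [htz1, h]
        exact C.z_comm_u
    · exact Or.inr h
    · exfalso
      apply C.not_conj g₁
      have huz : C.t * C.w⁻¹ = C.u * C.z := by
        rw [C.w_inv]; unfold u; rw [mul_assoc]
      intro x hx
      rw [C.swap_mem_V]
      rcases C.mem_V.1 hx with h1 | h1 | h1 | h1 <;> subst h1
      · left; simp
      · right; right; right; rw [← hx₂, h, huz]
      · right; left; exact hg₁t
      · right; right; left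
        rw [htz1, h, huz, ← mul_assoc, C.z_comm_u, mul_assoc, C.z_z, mul_one]
  -- the element `y'` acting as a three-cycle
  obtain ⟨y', hy'z, hy't⟩ : ∃ y' : G, y' * C.z * y'⁻¹ = C.t ∧ y' * C.t * y'⁻¹ = C.t * C.z := by
    rcases hcases with h | h
    · refine ⟨g₁ * C.w, ?_, ?_⟩
      · calc g₁ * C.w * C.z * (g₁ * C.w)⁻¹ = g₁ * (C.w * C.z * C.w⁻¹) * g₁⁻¹ := by group
          _ = g₁ * C.z * g₁⁻¹ := by rw [C.z_conj_w]
          _ = C.t := h
      · calc g₁ * C.w * C.t * (g₁ * C.w)⁻¹ = g₁ * (C.w * C.t * C.w⁻¹) * g₁⁻¹ := by group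
          _ = g₁ * (C.t * C.z) * g₁⁻¹ := by rw [C.w_mul_t]
          _ = C.z * x₂ := htz1
          _ = C.t * C.z := by rw [h, C.zt]
    · refine ⟨g₁⁻¹, ?_, ?_⟩
      · rw [inv_inv, ← hg₁t]; group
      · rw [inv_inv]
        have h1 : g₁ * (C.t * C.z) * g₁⁻¹ = C.t := by
          rw [htz1, h, ← mul_assoc, C.zt, mul_assoc, C.z_z, mul_one]
        calc g₁⁻¹ * C.t * g₁ = g₁⁻¹ * (g₁ * (C.t * C.z) * g₁⁻¹) * g₁ := by rw [h1]
          _ = C.t * C.z := by group
  have hy'tz : y' * (C.t * C.z) * y'⁻¹ = C.z := by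
    rw [← conj_mul_conj, hy't, hy'z, mul_assoc, C.zt, ← mul_assoc, C.ht, one_mul]
  -- it normalizes `A₊`
  have hf : ∀ α ∈ C.Ap, y' * α * y'⁻¹ ∈ C.Ap := by
    intro α hα
    have h1 := C.mem_Ap.1 hα
    have hαz : α * C.z = C.z * α := C.A_comm_z h1.1
    have hαt : α * C.t = C.t * α := C.Ap_comm_V hα htV
    have h2 : (y' * α * y'⁻¹) * C.t = C.t * (y' * α * y'⁻¹) := by
      rw [← hy'z]; exact conj_commute hαz
    have h3 : (y' * α * y'⁻¹) * C.z = C.z * (y' * α * y'⁻¹) := by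
      rw [← hy'tz]
      apply conj_commute
      rw [← mul_assoc, hαt, mul_assoc, hαz, mul_assoc]
    have h4 : y' * α * y'⁻¹ ∈ C.A := by
      apply C.mem_A_of_odd h3
      rw [conj_orderOf]
      exact C.odd_of_mem_A h1.1
    refine C.mem_Ap.2 ⟨h4, ?_⟩
    rw [← h2, mul_assoc (y' * α * y'⁻¹), C.ht, mul_one]
  -- `y'²` centralizes `A₊`
  set c := C.w * y' * C.w⁻¹ * y' with hc'
  have hwi_t : C.w⁻¹ * C.t * C.w = C.t * C.z := by
    have := C.conj_t_S (inv_mem C.hwS)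
    rw [inv_inv] at this
    rcases this with h | h
    · exfalso
      have h2 : C.w * C.t * C.w⁻¹ = C.t := by
        nth_rw 1 [← h]
        group
      rw [C.w_mul_t] at h2
      exact C.z_ne_one (mul_eq_left.1 h2)
    · exact h
  have hcz : c * C.z * c⁻¹ = C.z := by
    calc c * C.z * c⁻¹ = C.w * (y' * (C.w⁻¹ * (y' * C.z * y'⁻¹) * C.w) * y'⁻¹) * C.w⁻¹ := by
          rw [hc']; group
      _ = C.z := by
          rw [hy'z, hwi_t, hy'tz, C.z_conj_w]
  have hct : c * C.t * c⁻¹ = C.t := by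
    calc c * C.t * c⁻¹ = C.w * (y' * (C.w⁻¹ * (y' * C.t * y'⁻¹) * C.w) * y'⁻¹) * C.w⁻¹ := by
          rw [hc']; group
      _ = C.t := by
          have h1 : C.w⁻¹ * (C.t * C.z) * C.w = C.t := by
            have : C.w⁻¹ * (C.t * C.z) * C.w = C.w⁻¹ * (C.w * C.t * C.w⁻¹) * C.w := by
              rw [C.w_mul_t]
            rw [this]; group
          have h2 : C.w * (C.t * C.z) * C.w⁻¹ = C.t := by
            rw [← conj_mul_conj, C.w_mul_t, C.z_conj_w, mul_assoc, C.z_z, mul_one]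
          rw [hy't, h1, hy't, h2]
  have hcz' : c * C.z = C.z * c := by
    rw [mul_inv_eq_iff_eq_mul] at hcz; exact hcz
  have hct' : c * C.t = C.t * c := by
    rw [mul_inv_eq_iff_eq_mul] at hct; exact hct
  obtain ⟨β, hβ, s₀, hs₀, hcdec⟩ := C.cent_z_t_decomp hcz' hct'
  have hsq : ∀ α ∈ C.Ap, (y' * y') * α = α * (y' * y') := by
    intro α hα
    have hc1 : c * α * c⁻¹ = α := by
      rw [hcdec]
      have h1 := C.Ap_comm_V hα hs₀
      have h2 := C.A_comm (C.mem_Ap.1 hα).1 (C.mem_Ap.1 hβ).1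
      calc β * s₀ * α * (β * s₀)⁻¹ = β * (s₀ * α) * s₀⁻¹ * β⁻¹ := by group
        _ = β * (α * s₀) * s₀⁻¹ * β⁻¹ := by rw [h1]
        _ = β * α * β⁻¹ := by group
        _ = α * β * β⁻¹ := by rw [h2]
        _ = α := by group
    have h3 := C.w_inv_act (C.mem_Ap.1 (hf α hα)).1
    have h4 : c * α * c⁻¹ = C.w * (y' * (C.w⁻¹ * (y' * α * y'⁻¹) * C.w) * y'⁻¹) * C.w⁻¹ := by
      rw [hc']; group
    rw [h3] at h4
    rw [conj_inv' y' (y' * α * y'⁻¹), C.w_act (inv_mem (C.mem_Ap.1 (hf _ (hf α hα))).1), inv_inv,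
      hc1] at h4
    have h6 : (y' * y') * α * (y' * y')⁻¹ = α := by
      rw [conj_conj']; exact h4.symm
    rw [mul_inv_eq_iff_eq_mul] at h6
    exact h6
  refine ⟨(y' * y')⁻¹, ?_, ?_, ?_⟩
  · intro α hα
    have h1 := hsq α hα
    rw [inv_inv, mul_assoc, ← h1, inv_mul_cancel_left]
  · rw [inv_inv]
    have h1 : (y' * y') * C.t * (y' * y')⁻¹ = C.z := by
      rw [conj_conj', hy't, hy'tz]
    rw [← h1, inv_conj_conj]
  · rw [inv_inv]
    have h1 : (y' * y') * (C.t * C.z) * (y' * y')⁻¹ = C.t := by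
      rw [conj_conj', hy'tz, hy'z]
    nth_rw 1 [← h1]
    rw [inv_conj_conj]

end Cfg

end Cfsg.Agent.Lib.SCent
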