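import Mathlib
import Cfsg.Agent.Lib.SCent.Local1

/-!
# The centralizer of `A₊` and the subgroup `N`
-/

set_option autoImplicit false

namespace Cfsg.Agent.Lib.SCent

open Subgroup

namespace Cfg

variable {G : Type*} [Group G] [Finite G] (C : Cfg G)

/-- The centralizer of `A₊`. -/
def Hc : Subgroup G := centralizer (C.Ap : Set G)

lemma mem_Hc {x : G} : x ∈ C.Hc ↔ ∀ α ∈ C.Ap, x * α * x⁻¹ = α := by
  unfold Hc
  rw [mem_centralizer_iff]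
  constructor
  · intro h α hα
    rw [← h α hα]; group
  · intro h α hα
    have h2 := h α hα
    rw [mul_inv_eq_iff_eq_mul] at h2
    exact h2.symm

/-- Elements acting on `A₊` as `±1`. -/
def Nc : Subgroup G where
  carrier := {g | (∀ α ∈ C.Ap, g * α * g⁻¹ = α) ∨ (∀ α ∈ C.Ap, g * α * g⁻¹ = α⁻¹)}
  one_mem' := Or.inl (by simp)
  mul_mem' := by
    rintro g h (hg | hg) (hh | hh)
    · left; intro α hα; rw [conj_conj', hh α hα, hg α hα]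
    · right; intro α hα; rw [conj_conj', hh α hα, conj_inv', hg α hα]
    · right; intro α hα; rw [conj_conj', hh α hα, hg α hα]
    · left; intro α hα; rw [conj_conj', hh α hα, conj_inv', hg α hα, inv_inv]
  inv_mem' := by
    rintro g (hg | hg)
    · left; intro α hα
      nth_rw 1 [← hg α hα]
      rw [inv_inv]; exact inv_conj_conj g α
    · right; intro α hα
      have h1 := hg α⁻¹ (inv_mem hα)
      rw [inv_inv] at h1
      rw [inv_inv]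
      nth_rw 1 [← h1]
      exact inv_conj_conj g α⁻¹

lemma mem_Nc {g : G} : g ∈ C.Nc ↔ (∀ α ∈ C.Ap, g * α * g⁻¹ = α) ∨ (∀ α ∈ C.Ap, g * α * g⁻¹ = α⁻¹) :=
  Iff.rfl

lemma Hc_le_Nc : C.Hc ≤ C.Nc := fun _ hx => Or.inl (C.mem_Hc.1 hx)

lemma w_act_Ap {α : G} (hα : α ∈ C.Ap) : C.w * α * C.w⁻¹ = α⁻¹ := C.w_act (C.mem_Ap.1 hα).1

lemma A_le_Hc : C.A ≤ C.Hc := by
  intro a ha
  rw [mem_Hc]
  intro α hα
  rw [C.A_comm ha (C.mem_Ap.1 hα).1]; group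

lemma V_le_Hc : C.V ≤ C.Hc := by
  intro s hs
  rw [mem_Hc]
  intro α hα
  rw [← C.Ap_comm_V hα hs]; group

lemma z_mem_V : C.z ∈ C.V := C.mem_V.2 (Or.inr (Or.inl rfl))
lemma t_mem_V : C.t ∈ C.V := C.mem_V.2 (Or.inr (Or.inr (Or.inl rfl)))
lemma tz_mem_V : C.t * C.z ∈ C.V := C.mem_V.2 (Or.inr (Or.inr (Or.inr rfl)))

lemma z_mem_Hc : C.z ∈ C.Hc := C.V_le_Hc C.z_mem_V
lemma t_mem_Hc : C.t ∈ C.Hc := C.V_le_Hc C.t_mem_V

lemma w_mem_Nc : C.w ∈ C.Nc := Or.inr fun _ hα => C.w_act_Ap hα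

lemma u_act {α : G} (hα : α ∈ C.Ap) : C.u * α * C.u⁻¹ = α⁻¹ := by
  unfold u
  rw [conj_conj', C.w_act_Ap hα, conj_inv', C.mem_Hc.1 C.t_mem_Hc α hα]

lemma u_mem_Nc : C.u ∈ C.Nc := mul_mem (C.Hc_le_Nc C.t_mem_Hc) C.w_mem_Nc

lemma S_le_Nc : (C.S : Subgroup G) ≤ C.Nc := by
  intro s hs
  have ht := C.Hc_le_Nc C.t_mem_Hc
  have hz := C.Hc_le_Nc C.z_mem_Hc
  rcases C.mem_S_list hs with h | h | h | h | h | h | h | h <;> subst h
  · exact one_mem _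
  · exact C.w_mem_Nc
  · exact hz
  · exact inv_mem C.w_mem_Nc
  · exact ht
  · exact C.u_mem_Nc
  · exact mul_mem ht hz
  · exact mul_mem ht (inv_mem C.w_mem_Nc)

lemma cent_le_Nc {g : G} (hg : g * C.z = C.z * g) : g ∈ C.Nc := by
  obtain ⟨a, ha, s, hs, rfl⟩ := C.hAS g hg
  exact mul_mem (C.Hc_le_Nc (C.A_le_Hc ha)) (C.S_le_Nc hs)

/-- `H` is normal in `N`. -/
lemma Hc_normal {g h : G} (hg : g ∈ C.Nc) (hh : h ∈ C.Hc) : g * h * g⁻¹ ∈ C.Hc := by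
  rw [mem_Hc]
  intro α hα
  have h1 := C.mem_Hc.1 hh
  rcases hg with hg | hg
  · have h2 : g⁻¹ * α * g = α := by
      nth_rw 1 [← hg α hα]
      exact inv_conj_conj g α
    calc g * h * g⁻¹ * α * (g * h * g⁻¹)⁻¹ = g * (h * (g⁻¹ * α * g) * h⁻¹) * g⁻¹ := by group
      _ = α := by rw [h2, h1 α hα, hg α hα]
  · have h2 : g⁻¹ * α * g = α⁻¹ := by
      have h3 := hg α⁻¹ (inv_mem hα)
      rw [inv_inv] at h3
      nth_rw 1 [← h3]
      exact inv_conj_conj g α⁻¹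
    calc g * h * g⁻¹ * α * (g * h * g⁻¹)⁻¹ = g * (h * (g⁻¹ * α * g) * h⁻¹) * g⁻¹ := by group
      _ = g * α⁻¹ * g⁻¹ := by rw [h2, h1 _ (inv_mem hα)]
      _ = α := by rw [hg _ (inv_mem hα), inv_inv]

section Big

variable (ha : 1 < Nat.card C.Ap)
include ha

lemma exists_big : ∃ α ∈ C.Ap, α ≠ α⁻¹ := by
  haveI : Nontrivial C.Ap := Finite.one_lt_card_iff_nontrivial.1 ha
  obtain ⟨⟨α, hα⟩, h1⟩ := exists_ne (1 : C.Ap)
  refine ⟨α, hα, fun h => h1 ?_⟩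
  apply Subtype.ext
  apply C.A_sq_eq_one (C.mem_Ap.1 hα).1
  nth_rw 1 [h]
  simp

lemma not_mem_Hc_of_act {g : G} (h : ∀ α ∈ C.Ap, g * α * g⁻¹ = α⁻¹) : g ∉ C.Hc := by
  intro hg
  obtain ⟨α, hα, hne⟩ := C.exists_big ha
  exact hne (by rw [← h α hα, C.mem_Hc.1 hg α hα])

lemma w_notMem_Hc : C.w ∉ C.Hc := C.not_mem_Hc_of_act ha fun _ hα => C.w_act_Ap hα

lemma u_notMem_Hc : C.u ∉ C.Hc := C.not_mem_Hc_of_act ha fun _ hα => C.u_act hα

lemma act_of_not {g : G} (hg : g ∈ C.Nc) (hn : g ∉ C.Hc) : ∀ α ∈ C.Ap, g * α * g⁻¹ = α⁻¹ := by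
  rcases hg with h | h
  · exact absurd (C.mem_Hc.2 h) hn
  · exact h

lemma mul_mem_Hc_of_not {g g' : G} (hg : g ∈ C.Nc) (hn : g ∉ C.Hc) (hg' : g' ∈ C.Nc) (hn' : g' ∉ C.Hc) :
    g * g' ∈ C.Hc := by
  rw [mem_Hc]
  intro α hα
  rw [conj_conj', C.act_of_not ha hg' hn' α hα, conj_inv', C.act_of_not ha hg hn α hα, inv_inv]

lemma sq_mem_Hc {g : G} (hg : g ∈ C.Nc) : g * g ∈ C.Hc := by
  by_cases hn : g ∈ C.Hc
  · exact mul_mem hn hn
  · exact C.mul_mem_Hc_of_not ha hg hn hg hn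

lemma even_pow_mem {g : G} (hg : g ∈ C.Nc) (k : ℕ) : g ^ (2 * k) ∈ C.Hc := by
  rw [pow_mul, pow_two]
  exact pow_mem (C.sq_mem_Hc ha hg) k

lemma odd_pow_notMem {g : G} (hg : g ∈ C.Nc) (hn : g ∉ C.Hc) {k : ℕ} (hk : Odd k) : g ^ k ∉ C.Hc := by
  obtain ⟨l, rfl⟩ := hk
  rw [pow_succ]
  intro h
  exact hn ((mul_mem_cancel_left (C.even_pow_mem ha hg l)).1 h)

lemma mem_Hc_of_odd {g : G} (hg : g ∈ C.Nc) (ho : Odd (orderOf g)) : g ∈ C.Hc := by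
  by_contra hn
  apply C.odd_pow_notMem ha hg hn ho
  rw [pow_orderOf_eq_one]
  exact one_mem _

/-- Elements of `S` in `H`. -/
lemma S_inter {s : G} (hs : s ∈ (C.S : Subgroup G)) (hH : s ∈ C.Hc) : s ∈ C.V := by
  have hw := C.w_notMem_Hc ha
  have hu := C.u_notMem_Hc ha
  rw [mem_V]
  rcases C.mem_S_list hs with h | h | h | h | h | h | h | h <;> subst h
  · exact Or.inl rfl
  · exact absurd hH hw
  · exact Or.inr (Or.inl rfl)
  · exact absurd (inv_mem hH) (by simpa using hw)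
  · exact Or.inr (Or.inr (Or.inl rfl))
  · exact absurd hH hu
  · exact Or.inr (Or.inr (Or.inr rfl))
  · exfalso
    apply hw
    have h1 := mul_mem C.t_mem_Hc hH
    rw [← mul_assoc, C.ht, one_mul] at h1
    simpa using h1

end Big

lemma uz_eq : C.u * C.z = C.t * C.w⁻¹ := by
  unfold u; rw [C.w_inv, mul_assoc]

/-- Elements of `S` outside `H`. -/
lemma S_outside {s : G} (hs : s ∈ (C.S : Subgroup G)) (hH : s ∉ C.Hc) :
    s = C.w ∨ s = C.w⁻¹ ∨ s = C.u ∨ s = C.u * C.z := by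
  rcases C.mem_S_list hs with h | h | h | h | h | h | h | h
  · subst h; exact absurd (one_mem _) hH
  · exact Or.inl h
  · subst h; exact absurd C.z_mem_Hc hH
  · exact Or.inr (Or.inl h)
  · subst h; exact absurd C.t_mem_Hc hH
  · exact Or.inr (Or.inr (Or.inl h))
  · subst h; exact absurd (mul_mem C.t_mem_Hc C.z_mem_Hc) hH
  · exact Or.inr (Or.inr (Or.inr (by rw [h, C.uz_eq])))

/-- Conjugation of a 2-element of `N` into `S`. -/
lemma conj_into_S {y : G} (hy : y ∈ C.Nc) {k : ℕ} (ho : orderOf y = 2 ^ k) :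
    ∃ h ∈ C.Nc, h * y * h⁻¹ ∈ (C.S : Subgroup G) := by
  haveI : Fact (Nat.Prime 2) := ⟨Nat.prime_two⟩
  have hp : IsPGroup 2 (zpowers y) := by
    apply IsPGroup.of_card (n := k)
    rw [Nat.card_zpowers, ho]
  obtain ⟨h, hh, h1⟩ := exists_conj_into_sylow C.Nc C.S C.S_le_Nc (zpowers y)
    (by rw [zpowers_le]; exact hy) hp
  exact ⟨h, hh, h1 y (mem_zpowers y)⟩

lemma order_two_of {x : G} (h1 : x * x = 1) (h2 : x ≠ 1) : orderOf x = 2 :=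
  orderOf_eq_prime (p := 2) (by rw [pow_two, h1]) h2

lemma conj_sq {g x : G} (h : x * x = 1) : (g * x * g⁻¹) * (g * x * g⁻¹) = 1 := by
  rw [conj_mul_conj, h]; group

lemma conj_ne_one {g x : G} (h : x ≠ 1) : g * x * g⁻¹ ≠ 1 := by
  intro h1
  apply h
  have : x = g⁻¹ * (g * x * g⁻¹) * g := (inv_conj_conj g x).symm
  rw [this, h1]; group

/-- Involutions of `H`. -/
def I1 : Set G := {x | x ∈ C.Hc ∧ x * x = 1 ∧ x ≠ 1}

/-- Involutions of `N` outside `H`. -/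
def Vs : Set G := {v | v ∈ C.Nc ∧ v ∉ C.Hc ∧ v * v = 1}

lemma mem_I1 {x : G} : x ∈ C.I1 ↔ x ∈ C.Hc ∧ x * x = 1 ∧ x ≠ 1 := Iff.rfl

lemma mem_Vs {x : G} : x ∈ C.Vs ↔ x ∈ C.Nc ∧ x ∉ C.Hc ∧ x * x = 1 := Iff.rfl

/-- `I1` is a single class. -/
theorem I1_eq (ha : 1 < Nat.card C.Ap) {τ : G} (hτH : τ ∈ C.Hc) (hτz : τ * C.z * τ⁻¹ = C.t)
    (hτt : τ * C.t * τ⁻¹ = C.t * C.z) : C.I1 = {y | ∃ g ∈ C.Nc, g * C.z * g⁻¹ = y} := by
  ext x
  constructor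
  · rintro ⟨hxH, hx2, hx1⟩
    obtain ⟨h, hh, hS⟩ := C.conj_into_S (C.Hc_le_Nc hxH) (k := 1) (by
      rw [pow_one]; exact order_two_of hx2 hx1)
    have h1 : h * x * h⁻¹ ∈ C.V := C.S_inter ha hS (C.Hc_normal hh hxH)
    have hτN := C.Hc_le_Nc hτH
    have hback : ∀ y : G, h * x * h⁻¹ = y → x = h⁻¹ * y * h := by
      intro y hy; rw [← hy]; group
    rcases C.mem_V.1 h1 with h2 | h2 | h2 | h2
    · exact absurd (hback _ h2) (by simpa using hx1)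
    · refine ⟨h⁻¹, inv_mem hh, ?_⟩
      rw [hback _ h2]; group
    · refine ⟨h⁻¹ * τ, mul_mem (inv_mem hh) hτN, ?_⟩
      rw [hback _ h2, conj_conj', hτz]; group
    · refine ⟨h⁻¹ * (τ * τ), mul_mem (inv_mem hh) (mul_mem hτN hτN), ?_⟩
      rw [hback _ h2, conj_conj', conj_conj', hτz, hτt]; group
  · rintro ⟨g, hg, rfl⟩
    exact ⟨C.Hc_normal hg C.z_mem_Hc, conj_sq C.z_z, conj_ne_one C.z_ne_one⟩

/-- `Vs` is a single class. -/
theorem Vs_eq (ha : 1 < Nat.card C.Ap) : C.Vs = {y | ∃ g ∈ C.Nc, g * C.u * g⁻¹ = y} := by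
  ext x
  constructor
  · rintro ⟨hxN, hxH, hx2⟩
    have hx1 : x ≠ 1 := fun h => hxH (h ▸ one_mem _)
    obtain ⟨h, hh, hS⟩ := C.conj_into_S hxN (k := 1) (by
      rw [pow_one]; exact order_two_of hx2 hx1)
    have hnot : h * x * h⁻¹ ∉ C.Hc := by
      intro h1
      apply hxH
      have h2 := C.Hc_normal (inv_mem hh) h1
      rwa [conj_inv_inv, inv_conj_conj] at h2
    have hsq : (h * x * h⁻¹) * (h * x * h⁻¹) = 1 := conj_sq hx2
    have hback : ∀ y : G, h * x * h⁻¹ = y → x = h⁻¹ * y * h := by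
      intro y hy; rw [← hy]; group
    have hw2 : ∀ y : G, y = C.w ∨ y = C.w⁻¹ → y * y ≠ 1 := by
      rintro y (rfl | rfl)
      · exact C.z_ne_one
      · rw [← mul_inv_rev, inv_ne_one]
        exact C.z_ne_one
    rcases C.S_outside hS hnot with h2 | h2 | h2 | h2
    · exact absurd (by rw [h2] at hsq; exact hsq) (hw2 _ (Or.inl rfl))
    · exact absurd (by rw [h2] at hsq; exact hsq) (hw2 _ (Or.inr rfl))
    · refine ⟨h⁻¹, inv_mem hh, ?_⟩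
      rw [hback _ h2]; group
    · refine ⟨h⁻¹ * C.t, mul_mem (inv_mem hh) (C.Hc_le_Nc C.t_mem_Hc), ?_⟩
      have h3 : C.t * C.u * C.t⁻¹ = C.u * C.z := by
        rw [C.t_inv, ← C.wt_eq_uz]
        unfold u
        rw [← mul_assoc, C.ht, one_mul]
      rw [hback _ h2, conj_conj', h3]; group
  · rintro ⟨g, hg, rfl⟩
    refine ⟨mul_mem (mul_mem hg C.u_mem_Nc) (inv_mem hg), ?_, conj_sq C.u_u⟩
    intro h1
    apply C.u_notMem_Hc ha
    have h2 := C.Hc_normal (inv_mem hg) h1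
    rwa [conj_inv_inv, inv_conj_conj] at h2

/-- `N` contains the centralizer of `z`. -/
lemma inf_cent_z : C.Nc ⊓ centralizer ({C.z} : Set G) = centralizer ({C.z} : Set G) := by
  apply inf_eq_right.2
  intro g hg
  exact C.cent_le_Nc (C.mem_cent_z.1 hg)

theorem card_N_I1 (ha : 1 < Nat.card C.Ap) {τ : G} (hτH : τ ∈ C.Hc) (hτz : τ * C.z * τ⁻¹ = C.t)
    (hτt : τ * C.t * τ⁻¹ = C.t * C.z) :
    C.I1.ncard * (8 * Nat.card C.Ap * Nat.card C.swap.Ap) = Nat.card C.Nc := by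
  have h1 := card_class C.Nc C.z
  rw [C.inf_cent_z, C.card_cent_z', ← C.I1_eq ha hτH hτz hτt] at h1
  exact h1

theorem card_N_Vs (ha : 1 < Nat.card C.Ap) :
    C.Vs.ncard * Nat.card (C.Nc ⊓ centralizer ({C.u} : Set G) : Subgroup G) = Nat.card C.Nc := by
  have h1 := card_class C.Nc C.u
  rw [← C.Vs_eq ha] at h1
  exact h1

end Cfg

end Cfsg.Agent.Lib.SCent
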