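import Mathlib
import Cfsg.Agent.Lib.SCent.Local2

/-!
# The configuration with `|A| = 3`: four-groups in centralizers of elements of order 3
-/

set_option autoImplicit false

namespace Cfsg.Agent.Lib.SCent

open Subgroup

/-- Three distinct nontrivial elements of a four-group multiply to one. -/
structure Four {G : Type*} [Group G] (y a b : G) : Prop where
  ha : a * a = 1
  hb : b * b = 1
  hab : a * b = b * a
  ha1 : a ≠ 1
  hb1 : b ≠ 1
  hne : a ≠ b
  hall : ∀ v : G, v * v = 1 → v ≠ 1 → v * y = y * v → v = a ∨ v = b ∨ v = a * b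
  hay : a * y = y * a
  hby : b * y = y * b

namespace Four

variable {G : Type*} [Group G] {y a b : G} (F : Four y a b)

include F

lemma hab1 : a * b ≠ 1 := by
  intro h
  apply F.hne
  have h2 : a * b * b = b := by rw [h, one_mul]
  rwa [mul_assoc, F.hb, mul_one] at h2

lemma hab_sq : (a * b) * (a * b) = 1 := by
  calc (a * b) * (a * b) = (a * a) * (b * b) := by
        rw [mul_assoc a b, ← mul_assoc b a b, ← F.hab, mul_assoc a b b, ← mul_assoc a a]
    _ = 1 := by rw [F.ha, F.hb, one_mul]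

lemma haby : (a * b) * y = y * (a * b) := by
  rw [mul_assoc, F.hby, ← mul_assoc, F.hay, mul_assoc]

/-- `a * b * a = b`. -/
lemma aba : a * b * a = b := by
  rw [F.hab, mul_assoc, F.ha, mul_one]

lemma bab : b * (a * b) = a := by
  rw [← mul_assoc, ← F.hab, mul_assoc, F.hb, mul_one]

/-- Three distinct members have product one. -/
lemma prod_three {u v w : G} (hu : u = a ∨ u = b ∨ u = a * b) (hv : v = a ∨ v = b ∨ v = a * b)
    (hw : w = a ∨ w = b ∨ w = a * b) (h1 : u ≠ v) (h2 : v ≠ w) (h3 : u ≠ w) : u * v * w = 1 := by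
  have e1 := F.ha
  have e2 := F.hb
  have e3 := F.hab
  have e4 : a * b * a = b := F.aba
  have e5 : b * (a * b) = a := F.bab
  rcases hu with hu | hu | hu <;> rcases hv with hv | hv | hv <;> rcases hw with hw | hw | hw <;>
    rw [hu, hv] at h1 <;> rw [hv, hw] at h2 <;> rw [hu, hw] at h3 <;> rw [hu, hv, hw] <;>
    first
    | exact absurd rfl h1
    | exact absurd rfl h2
    | exact absurd rfl h3
    | skip
  · exact F.hab_sq
  · rw [← mul_assoc a a b, e1, one_mul, e2]
  · rw [mul_assoc b a, ← mul_assoc a a b, e1, one_mul, e2]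
  · rw [e5, e1]
  · rw [e4, e2]
  · rw [mul_assoc a b b, e2, mul_one, e1]

/-- An element commuting with `y` permutes the members. -/
lemma conj_mem {r v : G} (hr : r * y = y * r) (hv : v = a ∨ v = b ∨ v = a * b) :
    r * v * r⁻¹ = a ∨ r * v * r⁻¹ = b ∨ r * v * r⁻¹ = a * b := by
  have hvv : v * v = 1 := by
    rcases hv with rfl | rfl | rfl
    · exact F.ha
    · exact F.hb
    · exact F.hab_sq
  have hv1 : v ≠ 1 := by
    rcases hv with rfl | rfl | rfl
    · exact F.ha1
    · exact F.hb1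
    · exact F.hab1
  have hvy : v * y = y * v := by
    rcases hv with rfl | rfl | rfl
    · exact F.hay
    · exact F.hby
    · exact F.haby
  apply F.hall
  · calc r * v * r⁻¹ * (r * v * r⁻¹) = r * (v * v) * r⁻¹ := by group
      _ = 1 := by rw [hvv]; group
  · intro h
    apply hv1
    have : v = r⁻¹ * (r * v * r⁻¹) * r := by group
    rw [this, h]; group
  · have hri : r⁻¹ * y = y * r⁻¹ := by
      calc r⁻¹ * y = r⁻¹ * (y * r) * r⁻¹ := by group
        _ = r⁻¹ * (r * y) * r⁻¹ := by rw [hr]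
        _ = y * r⁻¹ := by group
    calc r * v * r⁻¹ * y = r * v * (r⁻¹ * y) := by group
      _ = r * v * (y * r⁻¹) := by rw [hri]
      _ = r * (v * y) * r⁻¹ := by group
      _ = r * (y * v) * r⁻¹ := by rw [hvy]
      _ = (r * y) * v * r⁻¹ := by group
      _ = (y * r) * v * r⁻¹ := by rw [hr]
      _ = y * (r * v * r⁻¹) := by group

/-- The square of a product of two members is one. -/
lemma mul_mem_sq {u v : G} (hu : u = a ∨ u = b ∨ u = a * b) (hv : v = a ∨ v = b ∨ v = a * b) :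
    (u * v) * (u * v) = 1 := by
  have e1 := F.ha
  have e2 := F.hb
  have e3 := F.hab
  have e4 := F.hab_sq
  have e5 : a * (a * b) = b := by rw [← mul_assoc, e1, one_mul]
  have e6 : b * (a * b) = a := F.bab
  have e7 : a * b * a = b := F.aba
  have e8 : a * b * b = a := by rw [mul_assoc, e2, mul_one]
  rcases hu with hu | hu | hu <;> rcases hv with hv | hv | hv <;> rw [hu, hv]
  · rw [e1, one_mul]
  · exact e4
  · rw [e5, e2]
  · rw [← e3]; exact e4
  · rw [e2, one_mul]
  · rw [e6, e1]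
  · rw [e7, e2]
  · rw [e8, e1]
  · rw [e4, one_mul]

/-- An element inverting `y` fixes a member. -/
lemma exists_fixed {s : G} (hs : s * s = 1) (hsy : s * y * s⁻¹ = y⁻¹) :
    ∃ v : G, (v = a ∨ v = b ∨ v = a * b) ∧ s * v * s⁻¹ = v := by
  have hsi : s⁻¹ = s := inv_eq_of_mul_eq_one_left hs
  have hact : ∀ v : G, (v = a ∨ v = b ∨ v = a * b) →
      s * v * s⁻¹ = a ∨ s * v * s⁻¹ = b ∨ s * v * s⁻¹ = a * b := by
    intro v hv
    have hvv : v * v = 1 := by
      rcases hv with rfl | rfl | rfl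
      · exact F.ha
      · exact F.hb
      · exact F.hab_sq
    have hv1 : v ≠ 1 := by
      rcases hv with rfl | rfl | rfl
      · exact F.ha1
      · exact F.hb1
      · exact F.hab1
    have hvy : v * y = y * v := by
      rcases hv with rfl | rfl | rfl
      · exact F.hay
      · exact F.hby
      · exact F.haby
    apply F.hall
    · calc s * v * s⁻¹ * (s * v * s⁻¹) = s * (v * v) * s⁻¹ := by group
        _ = 1 := by rw [hvv]; group
    · intro h
      apply hv1
      have : v = s⁻¹ * (s * v * s⁻¹) * s := by group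
      rw [this, h]; group
    · have hvyi : v * y⁻¹ = y⁻¹ * v := by
        calc v * y⁻¹ = y⁻¹ * (y * v) * y⁻¹ := by group
          _ = y⁻¹ * (v * y) * y⁻¹ := by rw [hvy]
          _ = y⁻¹ * v := by group
      have hy2 : s * y⁻¹ * s⁻¹ = y := by
        have : s * y⁻¹ * s⁻¹ = (s * y * s⁻¹)⁻¹ := by group
        rw [this, hsy, inv_inv]
      have h1 : y = s * y⁻¹ * s⁻¹ := hy2.symm
      calc s * v * s⁻¹ * y = s * v * s⁻¹ * (s * y⁻¹ * s⁻¹) := by rw [← h1]
        _ = s * (v * y⁻¹) * s⁻¹ := by group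
        _ = s * (y⁻¹ * v) * s⁻¹ := by rw [hvyi]
        _ = (s * y⁻¹ * s⁻¹) * (s * v * s⁻¹) := by group
        _ = y * (s * v * s⁻¹) := by rw [hy2]
  by_cases h1 : s * a * s⁻¹ = a
  · exact ⟨a, Or.inl rfl, h1⟩
  by_cases h2 : s * b * s⁻¹ = b
  · exact ⟨b, Or.inr (Or.inl rfl), h2⟩
  refine ⟨a * b, Or.inr (Or.inr rfl), ?_⟩
  have hmul : s * (a * b) * s⁻¹ = (s * a * s⁻¹) * (s * b * s⁻¹) := by group
  have hss : ∀ v : G, s * v * s⁻¹ = a → s * a * s⁻¹ = v := by
    intro v hv
    rw [← hv, hsi]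
    calc s * (s * v * s) * s = (s * s) * v * (s * s) := by group
      _ = v := by rw [hs]; group
  have hss' : ∀ v : G, s * v * s⁻¹ = b → s * b * s⁻¹ = v := by
    intro v hv
    rw [← hv, hsi]
    calc s * (s * v * s) * s = (s * s) * v * (s * s) := by group
      _ = v := by rw [hs]; group
  rcases hact a (Or.inl rfl) with h3 | h3 | h3
  · exact absurd h3 h1
  · -- `s` swaps `a` and `b`
    have h4 : s * b * s⁻¹ = a := hss' a h3
    rw [hmul, h3, h4]; exact F.hab.symm
  · -- `s` swaps `a` and `ab`; then `b` is fixed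
    exfalso
    apply h2
    have h4 : s * (a * b) * s⁻¹ = a := by
      have : s * (a * b) * s⁻¹ = s * (s * a * s⁻¹) * s⁻¹ := by rw [h3]
      rw [this, hsi]
      calc s * (s * a * s) * s = (s * s) * a * (s * s) := by group
        _ = a := by rw [hs]; group
    have h5 : b = a * (a * b) := by rw [← mul_assoc, F.ha, one_mul]
    calc s * b * s⁻¹ = s * (a * (a * b)) * s⁻¹ := by rw [← h5]
      _ = (s * a * s⁻¹) * (s * (a * b) * s⁻¹) := by group
      _ = a * b * a := by rw [h3, h4]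
      _ = b := F.aba

end Four

namespace Cfg

variable {G : Type*} [Group G] [Finite G] {C : Cfg G}

/-- The hypotheses of the configuration with `|A| = 3`. -/
structure A7Hyp (C : Cfg G) (p : G) : Prop where
  hc : ∀ x : G, orderOf x = 2 → IsConj C.z x
  hpA : p ∈ C.A
  hp1 : p ≠ 1
  hcard : Nat.card C.A = 3
  htp : C.t * p * C.t = p
  hV : ∀ v : G, v * v = 1 → v ≠ 1 → v * p = p * v → v = C.z ∨ v = C.t ∨ v = C.t * C.z

namespace A7Hyp

variable {p : G} (H : A7Hyp C p)

include H

lemma p_pow3 : p ^ 3 = 1 := by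
  have h1 : (⟨p, H.hpA⟩ : C.A) ^ Nat.card C.A = 1 := pow_card_eq_one'
  rw [H.hcard] at h1
  exact congrArg Subtype.val h1

lemma p3 : p * p * p = 1 := by
  have := H.p_pow3
  rwa [pow_succ, pow_two] at this

lemma orderOf_p : orderOf p = 3 := orderOf_eq_prime H.p_pow3 H.hp1

lemma p_inv : p⁻¹ = p * p := by
  rw [inv_eq_iff_mul_eq_one, ← mul_assoc]
  exact H.p3

lemma p_ne_inv : p ≠ p⁻¹ := by
  intro h
  have h1 : p * p = 1 := by
    nth_rw 2 [h]
    simp
  apply H.hp1
  have h2 := H.p3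
  rwa [h1, one_mul] at h2

lemma mem_A {y : G} : y ∈ C.A ↔ y = 1 ∨ y = p ∨ y = p⁻¹ := by
  constructor
  · intro hy
    have hle : zpowers p ≤ C.A := zpowers_le.2 H.hpA
    have heq : zpowers p = C.A := by
      apply Subgroup.eq_of_le_of_card_ge hle
      rw [Nat.card_zpowers, H.orderOf_p, H.hcard]
    rw [← heq, mem_zpowers_iff] at hy
    obtain ⟨k, rfl⟩ := hy
    have h3 : p ^ k = p ^ (k % 3) := by
      have h4 := zpow_mod_orderOf p k
      rw [H.orderOf_p] at h4
      exact_mod_cast h4.symm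
    have h5 : k % 3 = 0 ∨ k % 3 = 1 ∨ k % 3 = 2 := by omega
    rw [h3]
    rcases h5 with h5 | h5 | h5 <;> rw [h5]
    · left; simp
    · right; left; simp
    · right; right
      rw [H.p_inv]
      rw [show (2 : ℤ) = ((2 : ℕ) : ℤ) from rfl, zpow_natCast, pow_two]
  · rintro (rfl | rfl | rfl)
    · exact one_mem _
    · exact H.hpA
    · exact inv_mem H.hpA

lemma wp : C.w * p * C.w⁻¹ = p⁻¹ := C.w_act H.hpA

/-- An involution is a conjugate of `z`. -/
lemma invol_conj {v : G} (hv : v * v = 1) (hv1 : v ≠ 1) : ∃ g : G, g * C.z * g⁻¹ = v := by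
  obtain ⟨g, hg⟩ := isConj_iff.1 (H.hc v (order_two_of hv hv1))
  exact ⟨g, hg⟩

/-- Odd elements in the centralizer of an involution. -/
lemma odd_mem {v y g : G} (hg : g * C.z * g⁻¹ = v) (hyv : y * v = v * y) (hy : Odd (orderOf y)) :
    g⁻¹ * y * g ∈ C.A := by
  apply C.mem_A_of_odd
  · calc g⁻¹ * y * g * C.z = g⁻¹ * y * (g * C.z * g⁻¹) * g := by group
      _ = g⁻¹ * (y * v) * g := by rw [hg]; group
      _ = g⁻¹ * (v * y) * g := by rw [hyv]
      _ = g⁻¹ * (g * C.z * g⁻¹) * y * g := by rw [hg]; group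
      _ = C.z * (g⁻¹ * y * g) := by group
  · have := conj_orderOf g⁻¹ y
    rw [inv_inv] at this
    rw [this]
    exact hy

/-- Nontrivial odd elements centralizing an involution are conjugate to `p`. -/
lemma conj_p {v y : G} (hv : v * v = 1) (hv1 : v ≠ 1) (hyv : y * v = v * y)
    (hy : Odd (orderOf y)) (hy1 : y ≠ 1) : ∃ g : G, y = g * p * g⁻¹ := by
  obtain ⟨g, hg⟩ := H.invol_conj hv hv1
  rcases H.mem_A.1 (H.odd_mem hg hyv hy) with h | h | h
  · exfalso
    apply hy1
    have : y = g * (g⁻¹ * y * g) * g⁻¹ := by group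
    rw [this, h]; group
  · refine ⟨g, ?_⟩
    rw [← h]; group
  · refine ⟨g * C.w, ?_⟩
    rw [conj_conj', H.wp, ← h]; group

/-- Two nontrivial odd elements centralizing an involution generate the same subgroup. -/
lemma odd_pair {v y y' : G} (hv : v * v = 1) (hv1 : v ≠ 1) (hyv : y * v = v * y)
    (hy : Odd (orderOf y)) (hy1 : y ≠ 1) (hyv' : y' * v = v * y')
    (hy' : Odd (orderOf y')) (hy1' : y' ≠ 1) : y' = y ∨ y' = y⁻¹ := by
  obtain ⟨g, hg⟩ := H.invol_conj hv hv1
  have hback : ∀ {r s : G}, g⁻¹ * r * g = s → r = g * s * g⁻¹ := by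
    intro r s h
    rw [← h]; group
  have hne : ∀ {r : G}, r ≠ 1 → g⁻¹ * r * g ≠ 1 := by
    intro r hr h
    apply hr
    rw [hback h]; group
  have h1 := H.mem_A.1 (H.odd_mem hg hyv hy)
  have h2 := H.mem_A.1 (H.odd_mem hg hyv' hy')
  rcases h1 with h1 | h1 | h1
  · exact absurd h1 (hne hy1)
  · rcases h2 with h2 | h2 | h2
    · exact absurd h2 (hne hy1')
    · left; rw [hback h1, hback h2]
    · right; rw [hback h1, hback h2]; group
  · rcases h2 with h2 | h2 | h2
    · exact absurd h2 (hne hy1')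
    · right; rw [hback h1, hback h2]; group
    · left; rw [hback h1, hback h2]

/-- Subgroups centralizing an involution of odd order have order at most three. -/
lemma card_le {v : G} (hv : v * v = 1) (hv1 : v ≠ 1) (T : Subgroup G)
    (hTv : ∀ y ∈ T, y * v = v * y) (hT : ∀ y ∈ T, Odd (orderOf y)) : Nat.card T ≤ 3 := by
  obtain ⟨g, hg⟩ := H.invol_conj hv hv1
  rw [← H.hcard]
  let f : T → C.A := fun y => ⟨g⁻¹ * y * g, H.odd_mem hg (hTv y y.2) (hT y y.2)⟩
  apply Nat.card_le_card_of_injective f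
  intro y y' h
  have h1 : g⁻¹ * (y : G) * g = g⁻¹ * (y' : G) * g := congrArg Subtype.val h
  apply Subtype.ext
  have h2 : (y : G) = g * (g⁻¹ * (y : G) * g) * g⁻¹ := by group
  rw [h2, h1]; group

/-- The four-group in the centralizer of a conjugate of `p`. -/
lemma exists_four {y : G} (hy : ∃ g : G, y = g * p * g⁻¹) : ∃ a b : G, Four y a b := by
  obtain ⟨g, rfl⟩ := hy
  have hzt := C.zt
  have hzne : C.z ≠ C.t := fun h => C.t_ne_z h.symm
  refine ⟨g * C.z * g⁻¹, g * C.t * g⁻¹, ?_⟩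
  have hpz : C.z * p = p * C.z := (C.A_comm_z H.hpA).symm
  have hpt : C.t * p = p * C.t := by
    have h1 := H.htp
    calc C.t * p = C.t * p * C.t * C.t := by
          rw [mul_assoc (C.t * p), C.ht, mul_one]
      _ = p * C.t := by rw [h1]
  have hinj : ∀ {r s : G}, g * r * g⁻¹ = g * s * g⁻¹ → r = s := by
    intro r s h
    have h2 : r = g⁻¹ * (g * r * g⁻¹) * g := by group
    rw [h2, h]; group
  have hone : ∀ {r : G}, g * r * g⁻¹ = 1 → r = 1 := by
    intro r h
    have h2 : r = g⁻¹ * (g * r * g⁻¹) * g := by group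
    rw [h2, h]; group
  refine ⟨conj_sq C.z_z, conj_sq C.ht, conj_commute hzt, fun h => C.z_ne_one (hone h),
    fun h => C.t_ne_one (hone h), fun h => hzne (hinj h), ?_, conj_commute hpz, conj_commute hpt⟩
  intro v hv hv1 hvy
  have hv' : g⁻¹ * v * g * (g⁻¹ * v * g) = 1 := by
    calc g⁻¹ * v * g * (g⁻¹ * v * g) = g⁻¹ * (v * v) * g := by group
      _ = 1 := by rw [hv]; group
  have hv1' : g⁻¹ * v * g ≠ 1 := by
    intro h
    apply hv1
    have h2 : v = g * (g⁻¹ * v * g) * g⁻¹ := by group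
    rw [h2, h]; group
  have hvp : g⁻¹ * v * g * p = p * (g⁻¹ * v * g) := by
    have := conj_commute (g := g⁻¹) hvy
    rw [inv_inv, inv_conj_conj] at this
    exact this
  have hback : ∀ {s : G}, g⁻¹ * v * g = s → v = g * s * g⁻¹ := by
    intro s h
    rw [← h]; group
  rcases H.hV _ hv' hv1' hvp with h | h | h
  · left; exact hback h
  · right; left; exact hback h
  · right; right
    rw [hback h, conj_mul_conj, hzt]

/-- An involution normalizing an abelian subgroup of order nine of odd exponent inverts it. -/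
lemma inv_of_norm (T : Subgroup G) (hT9 : Nat.card T = 9)
    (hTab : ∀ a ∈ T, ∀ b ∈ T, a * b = b * a) (hTo : ∀ y ∈ T, Odd (orderOf y))
    {v : G} (hv : v * v = 1) (hv1 : v ≠ 1) (hvT : ∀ y ∈ T, v * y * v⁻¹ ∈ T) :
    ∀ y ∈ T, v * y * v⁻¹ = y⁻¹ := by
  have hvi : v⁻¹ = v := inv_eq_of_mul_eq_one_left hv
  intro y hy
  set y₁ := y * (v * y * v⁻¹) with hy₁
  have hy₁T : y₁ ∈ T := mul_mem hy (hvT y hy)
  by_cases h1 : y₁ = 1
  · rw [hy₁] at h1
    exact (inv_eq_of_mul_eq_one_right h1).symm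
  exfalso
  have hcomm : y₁ * v = v * y₁ := by
    have h2 : v * y₁ * v⁻¹ = y₁ := by
      have h3 : v * y₁ * v⁻¹ = (v * y * v⁻¹) * (v * (v * y * v⁻¹) * v⁻¹) := by
        rw [hy₁]; group
      have h4 : v * (v * y * v⁻¹) * v⁻¹ = y := by
        rw [hvi]
        calc v * (v * y * v) * v = (v * v) * y * (v * v) := by group
          _ = y := by rw [hv]; group
      rw [h3, h4, hy₁]
      exact hTab _ (hvT y hy) _ hy
    rw [mul_inv_eq_iff_eq_mul] at h2
    exact h2.symm
  obtain ⟨a, b, F⟩ := H.exists_four (H.conj_p hv hv1 hcomm (hTo _ hy₁T) h1)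
  have hvm := F.hall v hv hv1 hcomm.symm
  have hcen : ∀ r ∈ T, r * v = v * r := by
    intro r hr
    have h2 : r * y₁ = y₁ * r := hTab _ hr _ hy₁T
    have h3 := F.conj_mem h2 hvm
    have h4 := F.mul_mem_sq h3 hvm
    have h5 : r * v * r⁻¹ * v = r * (v * r⁻¹ * v⁻¹) := by
      rw [hvi]; group
    have h6 : r * v * r⁻¹ * v ∈ T := by
      rw [h5]
      exact mul_mem hr (hvT _ (inv_mem hr))
    have h7 := eq_one_of_sq_of_odd (hTo _ h6) h4
    have h8 : r * v * r⁻¹ = v := by
      have h9 : r * v * r⁻¹ * v * v = v := by rw [h7, one_mul]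
      rwa [mul_assoc (r * v * r⁻¹), hv, mul_one] at h9
    rw [mul_inv_eq_iff_eq_mul] at h8
    exact h8
  have h2 := H.card_le hv hv1 T hcen hTo
  omega

end A7Hyp

end Cfg

end Cfsg.Agent.Lib.SCent
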