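import Mathlib
import Cfsg.Agent.Lib.SCent.A7a

/-!
# The configuration with `|A| = 3`: fusion of elements of order three
-/

set_option autoImplicit false

namespace Cfsg.Agent.Lib.SCent

open Subgroup

/-- Two commuting elements of order three generating a subgroup of order nine. -/
theorem exists_T {G : Type*} [Group G] [Finite G] {a b : G} (ha : a ^ 3 = 1) (ha1 : a ≠ 1)
    (hb : b ^ 3 = 1) (hb1 : b ≠ 1) (hab : a * b = b * a) (hn : b ∉ zpowers a) :
    ∃ T : Subgroup G, Nat.card T = 9 ∧ a ∈ T ∧ b ∈ T ∧ (∀ y ∈ T, ∀ y' ∈ T, y * y' = y' * y) ∧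
      (∀ y ∈ T, y ^ 3 = 1) ∧ (∀ K : Subgroup G, a ∈ K → b ∈ K → T ≤ K) := by
  have hcomm : ∀ x ∈ zpowers a, ∀ y ∈ zpowers b, Commute x y := by
    rintro _ ⟨i, rfl⟩ _ ⟨j, rfl⟩
    exact Commute.zpow_zpow hab i j
  have hoa : orderOf a = 3 := orderOf_eq_prime ha ha1
  have hob : orderOf b = 3 := orderOf_eq_prime hb hb1
  have hpa : ∀ x ∈ zpowers a, x ^ 3 = 1 := by
    rintro _ ⟨i, rfl⟩
    change (a ^ i) ^ 3 = 1
    rw [← zpow_natCast, zpow_comm, zpow_natCast, ha, one_zpow]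
  have hpb : ∀ x ∈ zpowers b, x ^ 3 = 1 := by
    rintro _ ⟨i, rfl⟩
    change (b ^ i) ^ 3 = 1
    rw [← zpow_natCast, zpow_comm, zpow_natCast, hb, one_zpow]
  let φ : zpowers a × zpowers b →* G :=
    MonoidHom.noncommCoprod (zpowers a).subtype (zpowers b).subtype
      (fun x y => hcomm x x.2 y y.2)
  have hφ : ∀ q : zpowers a × zpowers b, φ q = (q.1 : G) * (q.2 : G) := fun q => rfl
  have hinf : ∀ c : G, c ∈ zpowers a → c ∈ zpowers b → c = 1 := by
    intro c hca hcb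
    by_contra hc1
    have hoc : orderOf c = 3 := orderOf_eq_prime (hpa c hca) hc1
    have h1 : zpowers c = zpowers b := by
      apply Subgroup.eq_of_le_of_card_ge (zpowers_le.2 hcb)
      rw [Nat.card_zpowers, Nat.card_zpowers, hoc, hob]
    have h2 : zpowers c ≤ zpowers a := zpowers_le.2 hca
    apply hn
    apply h2
    rw [h1]
    exact mem_zpowers b
  have hinj : Function.Injective φ := by
    rw [injective_iff_map_eq_one]
    rintro ⟨x, y⟩ h
    rw [hφ] at h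
    have h1 : (x : G) = (y : G)⁻¹ := eq_inv_of_mul_eq_one_left h
    have h2 : (x : G) = 1 := hinf _ x.2 (by rw [h1]; exact inv_mem y.2)
    have h3 : (y : G) = 1 := by
      rw [h2, one_mul] at h
      exact h
    exact Prod.ext (Subtype.ext h2) (Subtype.ext h3)
  refine ⟨φ.range, ?_, ⟨(⟨a, mem_zpowers a⟩, 1), ?_⟩, ⟨(1, ⟨b, mem_zpowers b⟩), ?_⟩, ?_, ?_, ?_⟩
  · rw [← Nat.card_congr (MonoidHom.ofInjective hinj).toEquiv, Nat.card_prod, Nat.card_zpowers,
      Nat.card_zpowers, hoa, hob]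
  · rw [hφ]; simp
  · rw [hφ]; simp
  · rintro _ ⟨q, rfl⟩ _ ⟨q', rfl⟩
    rw [hφ, hφ]
    have h1 := hcomm _ q.1.2 _ q'.2.2
    have h2 := hcomm _ q'.1.2 _ q.2.2
    have h3 : Commute (q.1 : G) (q'.1 : G) := by
      obtain ⟨_, i, rfl⟩ := q.1
      obtain ⟨_, j, rfl⟩ := q'.1
      exact Commute.zpow_zpow_self a i j
    have h4 : Commute (q.2 : G) (q'.2 : G) := by
      obtain ⟨_, i, rfl⟩ := q.2
      obtain ⟨_, j, rfl⟩ := q'.2
      exact Commute.zpow_zpow_self b i j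
    calc (q.1 : G) * q.2 * (q'.1 * q'.2) = q.1 * (q.2 * q'.1) * q'.2 := by group
      _ = q.1 * (q'.1 * q.2) * q'.2 := by rw [h2.symm.eq]
      _ = (q.1 * q'.1) * (q.2 * q'.2) := by group
      _ = (q'.1 * q.1) * (q'.2 * q.2) := by rw [h3.eq, h4.eq]
      _ = q'.1 * (q.1 * q'.2) * q.2 := by group
      _ = q'.1 * (q'.2 * q.1) * q.2 := by rw [h1.eq]
      _ = (q'.1 : G) * q'.2 * (q.1 * q.2) := by group
  · rintro _ ⟨q, rfl⟩
    rw [hφ, (hcomm _ q.1.2 _ q.2.2).mul_pow, hpa _ q.1.2, hpb _ q.2.2, one_mul]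
  · rintro K haK hbK _ ⟨q, rfl⟩
    rw [hφ]
    exact mul_mem (zpowers_le.2 haK q.1.2) (zpowers_le.2 hbK q.2.2)

namespace Cfg

variable {G : Type*} [Group G] [Finite G] {C : Cfg G}

namespace A7Hyp

variable {p : G} (H : A7Hyp C p)

include H

lemma p_mem_Ap : p ∈ C.Ap := C.mem_Ap.2 ⟨H.hpA, H.htp⟩

lemma Ap_eq : C.Ap = C.A := by
  apply le_antisymm C.Ap_le
  intro y hy
  rcases H.mem_A.1 hy with rfl | rfl | rfl
  · exact one_mem _
  · exact H.p_mem_Ap
  · exact inv_mem H.p_mem_Ap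

lemma mem_Hc_iff {g : G} : g ∈ C.Hc ↔ g * p * g⁻¹ = p := by
  rw [C.mem_Hc]
  constructor
  · intro h
    exact h p H.p_mem_Ap
  · intro h α hα
    rw [H.Ap_eq] at hα
    rcases H.mem_A.1 hα with rfl | rfl | rfl
    · group
    · exact h
    · rw [conj_inv', h]

lemma mem_Nc_iff {g : G} : g ∈ C.Nc ↔ g * p * g⁻¹ = p ∨ g * p * g⁻¹ = p⁻¹ := by
  rw [C.mem_Nc]
  constructor
  · rintro (h | h)
    · left; exact h p H.p_mem_Ap
    · right; exact h p H.p_mem_Ap
  · rintro (h | h)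
    · left
      intro α hα
      rw [H.Ap_eq] at hα
      rcases H.mem_A.1 hα with rfl | rfl | rfl
      · group
      · exact h
      · rw [conj_inv', h]
    · right
      intro α hα
      rw [H.Ap_eq] at hα
      rcases H.mem_A.1 hα with rfl | rfl | rfl
      · group
      · exact h
      · rw [conj_inv', h]

/-- Some conjugate of `p` commutes with `p` without lying in `⟨p⟩`. -/
lemma exists_p2 (hG : Nat.card G = 2520) (hNc : Nat.card C.Nc = 72) :
    ∃ g : G, (g⁻¹ * p * g) * p = p * (g⁻¹ * p * g) ∧ g⁻¹ * p * g ≠ p ∧ g⁻¹ * p * g ≠ p⁻¹ := by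
  have hidx : C.Nc.index = 35 := by
    have := Subgroup.card_mul_index C.Nc
    rw [hNc, hG] at this; omega
  have h3 : IsPGroup 3 (zpowers p) :=
    IsPGroup.of_card (n := 1) (by rw [Nat.card_zpowers, H.orderOf_p, pow_one])
  have hmod := h3.card_modEq_card_fixedPoints (G ⧸ C.Nc)
  have hcard : Nat.card (G ⧸ C.Nc) = 35 := hidx
  have hpm : ∀ r : zpowers p, (r : G) ∈ C.Nc := by
    rintro ⟨_, k, rfl⟩
    have hp : p ∈ C.Nc := Or.inl (fun α hα => by
      rw [C.A_comm H.hpA (C.Ap_le hα)]; group)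
    exact zpow_mem hp k
  have hne : ∃ q ∈ MulAction.fixedPoints (zpowers p) (G ⧸ C.Nc), q ≠ ((1 : G) : G ⧸ C.Nc) := by
    by_contra hno
    push Not at hno
    have h1 : MulAction.fixedPoints (zpowers p) (G ⧸ C.Nc) = {((1 : G) : G ⧸ C.Nc)} := by
      ext q
      constructor
      · exact hno q
      · rintro rfl r
        change (((r : G) * 1 : G) : G ⧸ C.Nc) = ((1 : G) : G ⧸ C.Nc)
        rw [QuotientGroup.eq]
        simpa using hpm r
    rw [hcard, h1, Nat.card_coe_set_eq, Set.ncard_singleton] at hmod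
    exact absurd hmod (by decide)
  obtain ⟨q, hq, hq1⟩ := hne
  obtain ⟨g, rfl⟩ := QuotientGroup.mk_surjective q
  have hgn : g ∉ C.Nc := by
    intro h
    apply hq1
    rw [QuotientGroup.eq]
    simpa using h
  have h4 : g⁻¹ * p * g ∈ C.Nc := by
    have h5 : (((p * g : G)) : G ⧸ C.Nc) = (g : G ⧸ C.Nc) := hq ⟨p, mem_zpowers p⟩
    rw [eq_comm, QuotientGroup.eq] at h5
    rw [mul_assoc]
    simpa [mul_assoc] using h5
  refine ⟨g, ?_, ?_, ?_⟩
  · rcases H.mem_Nc_iff.1 h4 with h5 | h5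
    · rw [mul_inv_eq_iff_eq_mul] at h5
      exact h5
    · exfalso
      -- an element of order three cannot invert `p`
      set p₁ := g⁻¹ * p * g with hp₁
      have hp₁3 : p₁ * p₁ * p₁ = 1 := by
        have h6 := H.p3
        calc p₁ * p₁ * p₁ = g⁻¹ * (p * p * p) * g := by rw [hp₁]; group
          _ = 1 := by rw [h6]; group
      have h7 : (p₁ * p₁ * p₁) * p * (p₁ * p₁ * p₁)⁻¹ = p⁻¹ := by
        have h8 : (p₁ * p₁ * p₁) * p * (p₁ * p₁ * p₁)⁻¹ =
            p₁ * (p₁ * (p₁ * p * p₁⁻¹) * p₁⁻¹) * p₁⁻¹ := by group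
        rw [h8, h5, conj_inv', h5, inv_inv, h5]
      rw [hp₁3] at h7
      apply H.p_ne_inv
      rw [← h7]; group
  · intro h5
    apply hgn
    rw [H.mem_Nc_iff]
    left
    calc g * p * g⁻¹ = g * (g⁻¹ * p * g) * g⁻¹ := by rw [h5]
      _ = p := by group
  · intro h5
    apply hgn
    rw [H.mem_Nc_iff]
    right
    have h6 : g * p⁻¹ * g⁻¹ = p := by
      calc g * p⁻¹ * g⁻¹ = g * (g⁻¹ * p * g) * g⁻¹ := by rw [h5]
        _ = p := by group
    calc g * p * g⁻¹ = (g * p⁻¹ * g⁻¹)⁻¹ := by group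
      _ = p⁻¹ := by rw [h6]

end A7Hyp

end Cfg

end Cfsg.Agent.Lib.SCent
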