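import Mathlib
import Cfsg.Agent.Lib.SCent.A7b

set_option autoImplicit false

namespace Cfsg.Agent.Lib.SCent

open Subgroup

theorem factorization_2520 : (2520 : ℕ).factorization 3 = 2 := by
  have h : (2520 : ℕ) = 3 ^ 2 * 280 := by norm_num
  rw [h, Nat.factorization_mul (by norm_num) (by norm_num), Finsupp.add_apply,
    Nat.Prime.factorization_pow (by norm_num), Finsupp.single_eq_same,
    Nat.factorization_eq_zero_of_not_dvd (by norm_num), add_zero]

namespace Cfg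

variable {G : Type*} [Group G] [Finite G] {C : Cfg G}

lemma tz_sq (C : Cfg G) : (C.t * C.z) * (C.t * C.z) = 1 := by
  calc (C.t * C.z) * (C.t * C.z) = C.t * (C.z * C.t) * C.z := by group
    _ = C.t * (C.t * C.z) * C.z := by rw [C.zt]
    _ = (C.t * C.t) * (C.z * C.z) := by group
    _ = 1 := by rw [C.ht, C.z_z, one_mul]

namespace A7Hyp

variable {p : G} (H : A7Hyp C p)

include H

/-- No element of order five or seven normalizes a subgroup of order nine containing `p`. -/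
lemma no_prime (hHc : Nat.card C.Hc = 36) {T : Subgroup G} (hT9 : Nat.card T = 9)
    (hpT : p ∈ T) {r : G} {q : ℕ} [Fact q.Prime] (hq : q = 5 ∨ q = 7) (hr : r ^ q = 1) (hr1 : r ≠ 1)
    (hrT : ∀ y ∈ T, r * y * r⁻¹ ∈ T) : False := by
  classical
  haveI : Fintype T := Fintype.ofFinite _
  let f : Function.End T := fun y => ⟨r * y * r⁻¹, hrT y y.2⟩
  have hf : ∀ n : ℕ, ∀ y : T, (((f ^ n) y : T) : G) = r ^ n * y * (r ^ n)⁻¹ := by
    intro n
    induction n with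
    | zero => intro y; simp; rfl
    | succ n ih =>
      intro y
      rw [pow_succ']
      change r * (((f ^ n) y : T) : G) * r⁻¹ = _
      rw [ih, pow_succ']
      group
  have hfq : f ^ q ^ 1 = 1 := by
    funext y
    apply Subtype.ext
    rw [pow_one, hf, hr]
    simp
    rfl
  have hm := Equiv.Perm.card_fixedPoints_modEq (p := q) (n := 1) hfq
  rw [← Nat.card_eq_fintype_card, ← Nat.card_eq_fintype_card, hT9] at hm
  let F : Subgroup T := (centralizer ({r} : Set G)).subgroupOf T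
  have hmem : ∀ y : T, y ∈ F ↔ f y = y := by
    intro y
    rw [Subgroup.mem_subgroupOf, mem_centralizer_singleton_iff, Subtype.ext_iff]
    change _ ↔ r * (y : G) * r⁻¹ = y
    rw [mul_inv_eq_iff_eq_mul]
    exact eq_comm
  have hF : Nat.card (Function.fixedPoints f) = Nat.card F :=
    Nat.card_congr (Equiv.subtypeEquivRight (fun y => (hmem y).symm))
  rw [hF] at hm
  have hd : Nat.card F ∣ 9 := by
    rw [← hT9]
    exact Subgroup.card_subgroup_dvd_card F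
  have hF9 : Nat.card F = 9 := by
    have h3 : Nat.card F ∣ 3 ^ 2 := hd
    obtain ⟨k, hk, hk2⟩ := (Nat.dvd_prime_pow Nat.prime_three).1 h3
    interval_cases k <;> rw [hk2] at hm <;> rcases hq with rfl | rfl <;> first
      | exact absurd hm (by decide)
      | (rw [hk2]; norm_num)
  have htop : F = ⊤ := by
    apply Subgroup.eq_top_of_card_eq
    rw [hF9, hT9]
  have hpF : (⟨p, hpT⟩ : T) ∈ F := by rw [htop]; trivial
  have hcomm := (hmem _).1 hpF
  have h5 : r * p * r⁻¹ = p := congrArg Subtype.val hcomm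
  have hrH : r ∈ C.Hc := H.mem_Hc_iff.2 h5
  have ho : orderOf r = q := orderOf_eq_prime hr hr1
  have hdvd : orderOf (⟨r, hrH⟩ : C.Hc) ∣ Nat.card C.Hc := orderOf_dvd_natCard _
  rw [Subgroup.orderOf_mk, ho, hHc] at hdvd
  rcases hq with rfl | rfl <;> exact absurd hdvd (by decide)

/-- A subgroup of order nine is a Sylow subgroup. -/
lemma exists_sylow (hG : Nat.card G = 2520) (T : Subgroup G) (hT9 : Nat.card T = 9) :
    ∃ P : Sylow 3 G, (P : Subgroup G) = T := by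
  have hc : Nat.card T = 3 ^ (Nat.card G).factorization 3 := by
    rw [hT9, hG, factorization_2520]; norm_num
  exact ⟨Sylow.ofCard T hc, Sylow.coe_ofCard T hc⟩

/-- Odd elements normalizing a Sylow 3-subgroup lie in it. -/
lemma odd_in_T (hG : Nat.card G = 2520) (hHc : Nat.card C.Hc = 36) {T : Subgroup G}
    (hT9 : Nat.card T = 9) (hpT : p ∈ T) {r : G} (hrT : ∀ y ∈ T, r * y * r⁻¹ ∈ T)
    (hr : Odd (orderOf r)) : r ∈ T := by
  have hpow : ∀ n : ℕ, ∀ y ∈ T, r ^ n * y * (r ^ n)⁻¹ ∈ T := by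
    intro n
    induction n with
    | zero => intro y hy; simpa using hy
    | succ n ih =>
      intro y hy
      have h1 := ih _ (hrT y hy)
      have h2 : r ^ (n + 1) * y * (r ^ (n + 1))⁻¹ = r ^ n * (r * y * r⁻¹) * (r ^ n)⁻¹ := by
        rw [pow_succ]; group
      rw [h2]; exact h1
  have ho0 : orderOf r ≠ 0 := (orderOf_pos r).ne'
  have hnot : ∀ q : ℕ, q.Prime → (q = 5 ∨ q = 7) → ¬ q ∣ orderOf r := by
    intro q hq hq2 hdvd
    haveI : Fact q.Prime := ⟨hq⟩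
    have h1 : orderOf (r ^ (orderOf r / q)) = q := orderOf_pow_orderOf_div ho0 hdvd
    apply H.no_prime hHc hT9 hpT hq2 (r := r ^ (orderOf r / q))
    · have h2 := pow_orderOf_eq_one (r ^ (orderOf r / q))
      rwa [h1] at h2
    · intro h2
      rw [h2, orderOf_one] at h1
      rcases hq2 with h3 | h3 <;> omega
    · exact hpow _
  have hd : orderOf r ∣ 2520 := by
    rw [← hG]; exact orderOf_dvd_natCard r
  have h5 := hnot 5 (by norm_num) (Or.inl rfl)
  have h7 := hnot 7 (by norm_num) (Or.inr rfl)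
  have hc2 : Nat.Coprime (orderOf r) 8 := by
    have : Nat.Coprime (orderOf r) 2 :=
      ((Nat.Prime.coprime_iff_not_dvd Nat.prime_two).2 hr.not_two_dvd_nat).symm
    exact Nat.Coprime.pow_right 3 this
  have hc5 : Nat.Coprime (orderOf r) 5 := ((Nat.Prime.coprime_iff_not_dvd (by norm_num)).2 h5).symm
  have hc7 : Nat.Coprime (orderOf r) 7 := ((Nat.Prime.coprime_iff_not_dvd (by norm_num)).2 h7).symm
  have hc : Nat.Coprime (orderOf r) 280 := by
    have h1 : Nat.Coprime (orderOf r) (8 * 5 * 7) := Nat.Coprime.mul_right (Nat.Coprime.mul_right hc2 hc5) hc7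
    exact h1
  have hd9 : orderOf r ∣ 3 ^ 2 := by
    have h2 : orderOf r ∣ 3 ^ 2 * 280 := hd
    exact hc.dvd_of_dvd_mul_right h2
  obtain ⟨k, -, hk⟩ := (Nat.dvd_prime_pow Nat.prime_three).1 hd9
  have hQ : IsPGroup 3 (zpowers r) :=
    IsPGroup.of_card (n := k) (by rw [Nat.card_zpowers, hk])
  obtain ⟨P, hP⟩ := H.exists_sylow hG T hT9
  have hrN : r ∈ normalizer (T : Set G) := mem_norm_of_maps hrT
  obtain ⟨h, hh, h2⟩ := exists_conj_into_sylow (normalizer (T : Set G)) P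
    (by rw [hP]; exact le_normalizer) (zpowers r) (zpowers_le.2 hrN) hQ
  have h3 := h2 r (mem_zpowers r)
  rw [hP] at h3
  exact (mem_normalizer_iff.1 hh r).2 h3

/-- Fusion in the normalizer. -/
lemma exists_n (hG : Nat.card G = 2520) {g : G} {T : Subgroup G} (hT9 : Nat.card T = 9)
    (hTab : ∀ a ∈ T, ∀ b ∈ T, a * b = b * a) (hpT : p ∈ T) (hp₁T : g⁻¹ * p * g ∈ T) :
    ∃ n : G, (∀ y ∈ T, n * y * n⁻¹ ∈ T) ∧ n * p * n⁻¹ = g⁻¹ * p * g := by
  set p₁ := g⁻¹ * p * g with hp₁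
  let T' : Subgroup G := T.map (MulAut.conj g⁻¹).toMonoidHom
  have hT'9 : Nat.card T' = 9 := by
    rw [← hT9]
    exact Subgroup.card_map_of_injective (MulAut.conj g⁻¹).injective
  obtain ⟨P, hP⟩ := H.exists_sylow hG T hT9
  obtain ⟨P', hP'⟩ := H.exists_sylow hG T' hT'9
  have hK1 : T ≤ centralizer ({p₁} : Set G) := by
    intro y hy
    rw [mem_centralizer_singleton_iff]
    exact hTab _ hy _ hp₁T
  have hK2 : T' ≤ centralizer ({p₁} : Set G) := by
    rintro _ ⟨y, hy, rfl⟩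
    rw [mem_centralizer_singleton_iff]
    have h1 := hTab _ hy _ hpT
    have h2 := conj_commute (g := g⁻¹) h1
    rw [inv_inv] at h2
    change g⁻¹ * y * g⁻¹⁻¹ * p₁ = p₁ * (g⁻¹ * y * g⁻¹⁻¹)
    rw [inv_inv]
    exact h2
  obtain ⟨h, hh, h2⟩ := exists_conj_sylow (centralizer ({p₁} : Set G)) P P'
    (by rw [hP]; exact hK1) (by rw [hP']; exact hK2)
  refine ⟨h * g⁻¹, ?_, ?_⟩
  · intro y hy
    have h3 : g⁻¹ * y * g ∈ (P' : Subgroup G) := by
      rw [hP']
      refine ⟨y, hy, ?_⟩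
      change g⁻¹ * y * g⁻¹⁻¹ = _
      rw [inv_inv]
    have h4 := h2 _ h3
    rw [hP] at h4
    have h5 : h * g⁻¹ * y * (h * g⁻¹)⁻¹ = h * (g⁻¹ * y * g) * h⁻¹ := by group
    rw [h5]; exact h4
  · have h5 : h * g⁻¹ * p * (h * g⁻¹)⁻¹ = h * p₁ * h⁻¹ := by rw [hp₁]; group
    rw [h5]
    rw [mem_centralizer_singleton_iff] at hh
    rw [hh]; group

/-- A 2-element with the same action. -/
lemma exists_q (hG : Nat.card G = 2520) (hHc : Nat.card C.Hc = 36) {T : Subgroup G}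
    (hT9 : Nat.card T = 9) (hTab : ∀ a ∈ T, ∀ b ∈ T, a * b = b * a) (hpT : p ∈ T) {n : G}
    (hn : ∀ y ∈ T, n * y * n⁻¹ ∈ T) :
    ∃ (q : G) (k : ℕ), q ^ (2 ^ k) = 1 ∧ (∀ y ∈ T, q * y * q⁻¹ ∈ T) ∧
      ∀ y ∈ T, q * y * q⁻¹ = n * y * n⁻¹ := by
  have hpow : ∀ l : ℕ, ∀ y ∈ T, n ^ l * y * (n ^ l)⁻¹ ∈ T := by
    intro l
    induction l with
    | zero => intro y hy; simpa using hy
    | succ l ih =>
      intro y hy
      have h1 := ih _ (hn y hy)
      have h2 : n ^ (l + 1) * y * (n ^ (l + 1))⁻¹ = n ^ l * (n * y * n⁻¹) * (n ^ l)⁻¹ := by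
        rw [pow_succ]; group
      rw [h2]; exact h1
  obtain ⟨k, m, hm, ho⟩ := Nat.exists_eq_two_pow_mul_odd (orderOf_pos n).ne'
  have hr₀ : (n ^ (2 ^ k)) ^ m = 1 := by
    rw [← pow_mul, ← ho, pow_orderOf_eq_one]
  have hodd : Odd (orderOf (n ^ (2 ^ k))) := Odd.of_dvd_nat hm (orderOf_dvd_of_pow_eq_one hr₀)
  have hr₀T : n ^ (2 ^ k) ∈ T := H.odd_in_T hG hHc hT9 hpT (hpow _) hodd
  obtain ⟨f, e, hfe⟩ : ∃ f e : ℕ, m * f = 1 + 2 ^ k * e := by
    rcases Nat.eq_zero_or_pos k with rfl | hk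
    · obtain ⟨m', rfl⟩ := hm
      exact ⟨1, 2 * m', by ring⟩
    · have hcop : Nat.Coprime m (2 ^ k) := by
        apply Nat.Coprime.pow_right
        exact ((Nat.Prime.coprime_iff_not_dvd Nat.prime_two).2 hm.not_two_dvd_nat).symm
      have h2k : 1 < 2 ^ k := Nat.one_lt_two_pow (by omega)
      obtain ⟨f, -, hf⟩ := Nat.exists_mul_mod_eq_one_of_coprime hcop h2k
      refine ⟨f, m * f / 2 ^ k, ?_⟩
      have := Nat.div_add_mod (m * f) (2 ^ k)
      omega
  have hq : n ^ (m * f) = n * (n ^ (2 ^ k)) ^ e := by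
    rw [hfe, pow_add, pow_one, pow_mul]
  refine ⟨n ^ (m * f), k, ?_, hpow _, ?_⟩
  · have h3 : m * f * 2 ^ k = orderOf n * f := by rw [ho]; ring
    rw [← pow_mul, h3, pow_mul, pow_orderOf_eq_one, one_pow]
  · intro y hy
    rw [hq]
    have h3 : (n ^ (2 ^ k)) ^ e * y = y * (n ^ (2 ^ k)) ^ e :=
      hTab _ (pow_mem hr₀T e) _ hy
    calc n * (n ^ (2 ^ k)) ^ e * y * (n * (n ^ (2 ^ k)) ^ e)⁻¹
        = n * ((n ^ (2 ^ k)) ^ e * y) * ((n ^ (2 ^ k)) ^ e)⁻¹ * n⁻¹ := by group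
      _ = n * (y * (n ^ (2 ^ k)) ^ e) * ((n ^ (2 ^ k)) ^ e)⁻¹ * n⁻¹ := by rw [h3]
      _ = n * y * n⁻¹ := by group

lemma odd_of_cube {y : G} (hy : y ^ 3 = 1) : Odd (orderOf y) :=
  Odd.of_dvd_nat (by decide) (orderOf_dvd_of_pow_eq_one hy)

/-- The conjugate of `p` moved by `w` inside a subgroup of order nine. -/
theorem exists_x (hG : Nat.card G = 2520) (hNc : Nat.card C.Nc = 72) (hHc : Nat.card C.Hc = 36) :
    ∃ x : G, (∃ g : G, x = g * p * g⁻¹) ∧ x * (C.w * x * C.w⁻¹) = (C.w * x * C.w⁻¹) * x ∧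
      C.w * x * C.w⁻¹ ≠ x ∧ C.w * x * C.w⁻¹ ≠ x⁻¹ ∧ C.z * x * C.z⁻¹ = x⁻¹ := by
  obtain ⟨g, hg1, hg2, hg3⟩ := H.exists_p2 hG hNc
  set p₁ := g⁻¹ * p * g with hp₁
  have hp₁3 : p₁ ^ 3 = 1 := by
    have h1 : p₁ * p₁ * p₁ = 1 := by
      calc p₁ * p₁ * p₁ = g⁻¹ * (p * p * p) * g := by rw [hp₁]; group
        _ = 1 := by rw [H.p3]; group
    rw [pow_succ, pow_two]; exact h1
  have hp₁1 : p₁ ≠ 1 := by
    intro h
    apply H.hp1
    have h1 : p = g * (g⁻¹ * p * g) * g⁻¹ := by group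
    rw [h1, ← hp₁, h]; group
  have hnz : p₁ ∉ zpowers p := by
    intro h
    have h1 : p₁ ∈ C.A := zpowers_le.2 H.hpA h
    rcases H.mem_A.1 h1 with h2 | h2 | h2
    · exact hp₁1 h2
    · exact hg2 h2
    · exact hg3 h2
  obtain ⟨T, hT9, hpT, hp₁T, hTab, hT3, -⟩ :=
    exists_T H.p_pow3 H.hp1 hp₁3 hp₁1 hg1.symm hnz
  have hTo : ∀ y ∈ T, Odd (orderOf y) := fun y hy => H.odd_of_cube (hT3 y hy)
  obtain ⟨n, hn, hnp⟩ := H.exists_n hG hT9 hTab hpT hp₁T
  obtain ⟨q, k, hqk, hqT, hqn⟩ := H.exists_q hG hHc hT9 hTab hpT hn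
  have hqp : q * p * q⁻¹ = p₁ := by rw [hqn p hpT, hnp]
  have hqinv : q * q = 1 → q ≠ 1 → False := by
    intro h1 h2
    have h3 := H.inv_of_norm T hT9 hTab hTo h1 h2 hqT p hpT
    rw [hqp] at h3
    exact hg3 h3
  have hq1 : q ≠ 1 := by
    rintro rfl
    apply hg2
    rw [← hqp]; group
  -- conjugate `q` into the Sylow 2-subgroup
  have hQ : IsPGroup 2 (zpowers q) := by
    have h1 : orderOf q ∣ 2 ^ k := orderOf_dvd_of_pow_eq_one hqk
    obtain ⟨l, -, hl⟩ := (Nat.dvd_prime_pow Nat.prime_two).1 h1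
    exact IsPGroup.of_card (n := l) (by rw [Nat.card_zpowers, hl])
  obtain ⟨h, -, hh⟩ := exists_conj_into_sylow ⊤ C.S le_top (zpowers q) le_top hQ
  have hs := hh q (mem_zpowers q)
  have hback : ∀ {s : G}, h * q * h⁻¹ = s → q = h⁻¹ * s * h := by
    intro s hs; rw [← hs]; group
  have hsq : ∀ {s : G}, h * q * h⁻¹ = s → s * s = 1 → s ≠ 1 → False := by
    intro s h1 h2 h3
    apply hqinv
    · rw [hback h1]
      calc h⁻¹ * s * h * (h⁻¹ * s * h) = h⁻¹ * (s * s) * h := by group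
        _ = 1 := by rw [h2]; group
    · exact hq1
  obtain ⟨h', hh'⟩ : ∃ h' : G, h' * q * h'⁻¹ = C.w := by
    rcases C.mem_S_list hs with h1 | h1 | h1 | h1 | h1 | h1 | h1 | h1
    · exfalso
      apply hq1
      rw [hback h1]; group
    · exact ⟨h, h1⟩
    · exact (hsq h1 C.z_z C.z_ne_one).elim
    · refine ⟨C.t * h, ?_⟩
      rw [conj_conj', h1, C.t_inv]
      have h2 := C.hinv
      calc C.t * C.w⁻¹ * C.t = C.t * (C.t * C.w * C.t) * C.t := by rw [h2]
        _ = (C.t * C.t) * C.w * (C.t * C.t) := by group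
        _ = C.w := by rw [C.ht]; group
    · exact (hsq h1 C.ht C.t_ne_one).elim
    · exact (hsq h1 C.u_u C.swap.t_ne_one).elim
    · exact (hsq h1 C.tz_sq C.one_ne_tz.symm).elim
    · refine (hsq h1 ?_ ?_).elim
      · rw [← C.uz_eq]
        exact C.swap.tz_sq
      · rw [← C.uz_eq]
        exact C.swap.one_ne_tz.symm
  have hwx : C.w * (h' * p * h'⁻¹) * C.w⁻¹ = h' * p₁ * h'⁻¹ := by
    rw [← hh', ← hqp]; group
  have hinj : ∀ {r s : G}, h' * r * h'⁻¹ = h' * s * h'⁻¹ → r = s := by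
    intro r s hrs
    have h2 : r = h'⁻¹ * (h' * r * h'⁻¹) * h' := by group
    rw [h2, hrs]; group
  refine ⟨h' * p * h'⁻¹, ⟨h', rfl⟩, ?_, ?_, ?_, ?_⟩
  · rw [hwx]
    exact conj_commute hg1.symm
  · rw [hwx]
    exact fun h2 => hg2 (hinj h2)
  · rw [hwx, ← conj_inv']
    exact fun h2 => hg3 (hinj h2)
  · have hzq : C.z = h' * (q * q) * h'⁻¹ := by
      unfold z
      rw [← hh']; group
    have hqq : (q * q) * (q * q) = 1 := by
      have h2 := C.z_z
      rw [hzq, conj_mul_conj] at h2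
      have h3 : (q * q) * (q * q) = h'⁻¹ * (h' * ((q * q) * (q * q)) * h'⁻¹) * h' := by group
      rw [h3, h2]; group
    have hqq1 : q * q ≠ 1 := by
      intro h2
      apply C.z_ne_one
      rw [hzq, h2]; group
    have hqqT : ∀ y ∈ T, (q * q) * y * (q * q)⁻¹ ∈ T := by
      intro y hy
      rw [conj_conj']
      exact hqT _ (hqT y hy)
    have h3 := H.inv_of_norm T hT9 hTab hTo hqq hqq1 hqqT p hpT
    calc C.z * (h' * p * h'⁻¹) * C.z⁻¹
        = h' * ((q * q) * p * (q * q)⁻¹) * h'⁻¹ := by rw [hzq]; group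
      _ = (h' * p * h'⁻¹)⁻¹ := by rw [h3]; group

end A7Hyp

end Cfg

end Cfsg.Agent.Lib.SCent
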