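import Mathlib
import Cfsg.Agent.Lib.SCent.A7c

set_option autoImplicit false

namespace Cfsg.Agent.Lib.SCent

open Subgroup

/-- A formula for the second involution. -/
lemma t0_formula {G : Type*} [Group G] {α s w z : G} (h1 : s * α⁻¹ * s = α) (h2 : w * α * w⁻¹ = α⁻¹)
    (h3 : w * s * w⁻¹ = s * z) (h4 : α * α * α = 1) (h5 : α * z = z * α) :
    (α * s) * (w * (α * s) * w⁻¹) * (α * s) = z * s := by
  have h6 : w * (α * s) * w⁻¹ = α⁻¹ * (s * z) := by
    rw [← conj_mul_conj, h2, h3]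
  rw [h6]
  calc α * s * (α⁻¹ * (s * z)) * (α * s) = α * (s * α⁻¹ * s) * z * (α * s) := by group
    _ = α * α * (z * α) * s := by rw [h1]; group
    _ = α * α * (α * z) * s := by rw [h5]
    _ = (α * α * α) * (z * s) := by group
    _ = z * s := by rw [h4, one_mul]

namespace Cfg

variable {G : Type*} [Group G] [Finite G] {C : Cfg G}

namespace A7Hyp

variable {p : G} (H : A7Hyp C p)

include H

lemma alpha_cube {α : G} (hα : α ∈ C.A) : α * α * α = 1 := by
  rcases H.mem_A.1 hα with rfl | rfl | rfl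
  · group
  · exact H.p3
  · have h1 := H.p3
    calc p⁻¹ * p⁻¹ * p⁻¹ = (p * p * p)⁻¹ := by group
      _ = 1 := by rw [h1]; group

lemma t_alpha {α : G} (hα : α ∈ C.A) : C.t * α = α * C.t := by
  rw [← H.Ap_eq] at hα
  have h1 := (C.mem_Ap.1 hα).2
  calc C.t * α = C.t * α * C.t * C.t := by rw [mul_assoc (C.t * α), C.ht, mul_one]
    _ = α * C.t := by rw [h1]

/-- Classification of involutions commuting with `z` and not centralizing `p`. -/
lemma invol_class {v₀ : G} (h1 : v₀ * v₀ = 1) (hne1 : v₀ ≠ 1) (hnez : v₀ ≠ C.z)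
    (hz : v₀ * C.z = C.z * v₀) (hnp : v₀ * p ≠ p * v₀) :
    ∃ α ∈ C.A, ∃ s : G, (s = C.u ∨ s = C.u * C.z) ∧ v₀ = α * s := by
  obtain ⟨α, hα, s, hs, rfl⟩ := C.hAS v₀ hz
  have hw := C.w_act hα
  have hwi := C.w_inv_act hα
  have hαz := C.A_comm_z hα
  have hαt := H.t_alpha hα
  have hαo := C.odd_of_mem_A hα
  have hzc : ∀ {y : G}, α * y = y * α → y * y = 1 → (α * y) * (α * y) = 1 → α = 1 := by
    intro y h2 h3 h4
    apply eq_one_of_sq_of_odd hαo
    calc α * α = α * α * (y * y) := by rw [h3, mul_one]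
      _ = (α * y) * (α * y) := by
          calc α * α * (y * y) = α * (α * y) * y := by group
            _ = α * (y * α) * y := by rw [h2]
            _ = (α * y) * (α * y) := by group
      _ = 1 := h4
  have hαp : α * p = p * α := C.A_comm hα H.hpA
  rcases C.mem_S_list hs with h | h | h | h | h | h | h | h
  · exfalso
    subst h
    rw [mul_one] at h1 hne1
    exact hne1 (eq_one_of_sq_of_odd hαo h1)
  · exfalso
    subst h
    apply C.z_ne_one
    have h2 : α * C.w * (α * C.w) = α * (C.w * α * C.w⁻¹) * C.z := by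
      unfold z; group
    rw [h2, hw, mul_inv_cancel, one_mul] at h1
    exact h1
  · exfalso
    subst h
    have h3 := hzc hαz C.z_z h1
    subst h3
    exact hnez (one_mul _)
  · exfalso
    subst h
    apply C.z_ne_one
    have h2 : α * C.w⁻¹ * (α * C.w⁻¹) = α * (C.w⁻¹ * α * C.w) * C.z := by
      have h4 : C.z = C.w⁻¹ * C.w⁻¹ := by
        rw [← mul_inv_rev]
        apply eq_inv_of_mul_eq_one_left
        have := C.z_z
        unfold z at this ⊢
        exact this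
      rw [h4]; group
    rw [h2, hwi, mul_inv_cancel, one_mul] at h1
    exact h1
  · exfalso
    subst h
    have h3 := hzc hαt.symm C.ht h1
    subst h3
    rw [one_mul] at hnp
    apply hnp
    have h4 := H.t_alpha H.hpA
    exact h4
  · exact ⟨α, hα, C.u, Or.inl rfl, by rw [h]; rfl⟩
  · exfalso
    subst h
    have hαtz : α * (C.t * C.z) = (C.t * C.z) * α := by
      rw [← mul_assoc, ← hαt, mul_assoc, hαz, mul_assoc]
    have h3 := hzc hαtz C.tz_sq h1
    subst h3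
    rw [one_mul] at hnp
    apply hnp
    have h4 := H.t_alpha H.hpA
    have h5 := C.A_comm_z H.hpA
    rw [mul_assoc, ← h5, ← mul_assoc, h4, mul_assoc]
  · exact ⟨α, hα, C.u * C.z, Or.inr rfl, by rw [h, C.uz_eq]⟩

/-- The second generator. -/
theorem exists_t0 {x : G} (hx : ∃ g : G, x = g * p * g⁻¹)
    (hc : x * (C.w * x * C.w⁻¹) = (C.w * x * C.w⁻¹) * x)
    (hne : C.w * x * C.w⁻¹ ≠ x) (hne' : C.w * x * C.w⁻¹ ≠ x⁻¹) (hzx : C.z * x * C.z⁻¹ = x⁻¹) :
    ∃ t₀ : G, (t₀ = C.u ∨ t₀ = C.u * C.z) ∧ (t₀ * x) ^ 3 = 1 := by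
  obtain ⟨g₀, hg₀⟩ := id hx
  have hx3 : x * x * x = 1 := by
    rw [hg₀]
    calc g₀ * p * g₀⁻¹ * (g₀ * p * g₀⁻¹) * (g₀ * p * g₀⁻¹) = g₀ * (p * p * p) * g₀⁻¹ := by group
      _ = 1 := by rw [H.p3]; group
  have hx1 : x ≠ 1 := by
    intro h
    apply H.hp1
    have h2 : p = g₀⁻¹ * (g₀ * p * g₀⁻¹) * g₀ := by group
    rw [h2, ← hg₀, h]; group
  have hxi : x ≠ x⁻¹ := by
    intro h
    have h1 : x * x = 1 := by
      nth_rw 2 [h]
      simp
    rw [h1, one_mul] at hx3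
    exact hx1 hx3
  have hxo : Odd (orderOf x) := H.odd_of_cube (by rw [pow_succ, pow_two]; exact hx3)
  obtain ⟨a, b, F⟩ := H.exists_four hx
  obtain ⟨v₀, hv₀, hv₀z⟩ := F.exists_fixed C.z_z hzx
  have hv₀v₀ : v₀ * v₀ = 1 := by
    rcases hv₀ with h | h | h <;> rw [h]
    · exact F.ha
    · exact F.hb
    · exact F.hab_sq
  have hv₀1 : v₀ ≠ 1 := by
    rcases hv₀ with h | h | h <;> rw [h]
    · exact F.ha1
    · exact F.hb1
    · exact F.hab1
  have hv₀x : v₀ * x = x * v₀ := by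
    rcases hv₀ with h | h | h <;> rw [h]
    · exact F.hay
    · exact F.hby
    · exact F.haby
  have hv₀i : v₀⁻¹ = v₀ := inv_eq_of_mul_eq_one_left hv₀v₀
  have hzv : v₀ * C.z = C.z * v₀ := by
    rw [mul_inv_eq_iff_eq_mul] at hv₀z
    exact hv₀z.symm
  have hnez : v₀ ≠ C.z := by
    rintro rfl
    apply hxi
    rw [← hzx, C.z_inv, hv₀x, mul_assoc, C.z_z, mul_one]
  have hxA : ∀ {y : G}, (y = p ∨ y = p⁻¹) → x ≠ y := by
    rintro y hy rfl
    have h1 : x * C.z = C.z * x := (C.A_comm_z (by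
      rcases hy with rfl | rfl
      · exact H.hpA
      · rw [← inv_inv p] at *
        exact inv_mem (by simpa using H.hpA)))
    apply hxi
    rw [← hzx, ← h1]; group
  have hnp : v₀ * p ≠ p * v₀ := by
    intro h
    have h1 := H.odd_pair hv₀v₀ hv₀1 (y := p) (y' := x) h.symm
      (by rw [H.orderOf_p]; decide) H.hp1 hv₀x.symm hxo hx1
    exact hxA h1 rfl
  obtain ⟨α, hα, s, hs, hv₀s⟩ := H.invol_class hv₀v₀ hv₀1 hnez hzv hnp
  -- the formula for `t₀`
  have hsi : s * s = 1 := by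
    rcases hs with rfl | rfl
    · exact C.u_u
    · exact C.swap.tz_sq
  have hsα : s * α⁻¹ * s = α := by
    have hu : C.u * α⁻¹ * C.u = α := by
      have := C.u_act (α := α⁻¹) (by rw [H.Ap_eq]; exact inv_mem hα)
      rw [C.u_inv, inv_inv] at this
      exact this
    rcases hs with rfl | rfl
    · exact hu
    · have hz1 := C.A_comm_z (inv_mem hα)
      calc C.u * C.z * α⁻¹ * (C.u * C.z) = C.u * (C.z * α⁻¹) * C.u * C.z := by group
        _ = C.u * (α⁻¹ * C.z) * C.u * C.z := by rw [hz1]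
        _ = C.u * α⁻¹ * (C.z * C.u * C.z) := by group
        _ = C.u * α⁻¹ * C.u := by rw [C.z_comm_u, mul_assoc C.u C.z C.z, C.z_z, mul_one]
        _ = α := hu
  have hwu : C.w * C.u * C.w⁻¹ = C.u * C.z := by
    calc C.w * C.u * C.w⁻¹ = C.w * C.t := by unfold u; group
      _ = C.u * C.z := C.wt_eq_uz
  have hws : C.w * s * C.w⁻¹ = s * C.z := by
    rcases hs with rfl | rfl
    · exact hwu
    · rw [← conj_mul_conj, hwu, C.z_conj_w]
  have ht₀f := t0_formula hsα (C.w_act hα) hws (H.alpha_cube hα) (C.A_comm_z hα)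
  rw [← hv₀s] at ht₀f
  set t₀ := C.z * s with ht₀
  refine ⟨t₀, ?_, ?_⟩
  · rcases hs with rfl | rfl
    · right; exact C.z_comm_u
    · left
      rw [ht₀, ← mul_assoc, C.z_comm_u, mul_assoc, C.z_z, mul_one]
  have ht₀t₀ : t₀ * t₀ = 1 := by
    rw [ht₀]
    calc C.z * s * (C.z * s) = C.z * (s * C.z) * s := by group
      _ = C.z * (C.z * s) * s := by
          rw [show s * C.z = C.z * s from by
            rcases hs with rfl | rfl
            · exact C.z_comm_u.symm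
            · rw [mul_assoc, C.z_z, mul_one, ← mul_assoc, C.z_comm_u, mul_assoc, C.z_z, mul_one]]
      _ = (C.z * C.z) * (s * s) := by group
      _ = 1 := by rw [C.z_z, hsi, one_mul]
  have ht₀1 : t₀ ≠ 1 := by
    intro h
    have h2 : C.z * s = 1 := h
    rcases hs with rfl | rfl
    · apply C.swap.t_ne_z
      have h3 : C.z * (C.z * C.u) = C.z := by rw [h2, mul_one]
      rwa [← mul_assoc, C.z_z, one_mul] at h3
    · apply C.swap.t_ne_one
      have h3 : C.z * (C.u * C.z) = C.u := by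
        rw [← mul_assoc, C.z_comm_u, mul_assoc, C.z_z, mul_one]
      change C.u = 1
      rw [← h3]; exact h2
  set x' := C.w * x * C.w⁻¹ with hx'
  set y₁ := v₀ * x' * v₀⁻¹ with hy₁
  have hy₁c : t₀ * y₁ = y₁ * t₀ := by
    have h1 : (C.w * v₀ * C.w⁻¹) * x' = x' * (C.w * v₀ * C.w⁻¹) := conj_commute hv₀x
    have h2 := conj_commute (g := v₀) h1
    rw [hv₀i] at h2
    rw [← ht₀f, hy₁, hv₀i]
    exact h2
  have hxy₁ : x * y₁ = y₁ * x := by
    have h2 := conj_commute (g := v₀) hc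
    have h3 : v₀ * x * v₀⁻¹ = x := by rw [hv₀x]; group
    rw [h3] at h2
    exact h2
  have hy₁conj : ∃ g : G, y₁ = g * p * g⁻¹ := by
    refine ⟨v₀ * C.w * g₀, ?_⟩
    rw [hy₁, hx', hg₀]; group
  obtain ⟨a₁, b₁, F₁⟩ := H.exists_four hy₁conj
  have ht₀m := F₁.hall t₀ ht₀t₀ ht₀1 hy₁c
  have hv₂ := F₁.conj_mem hxy₁ ht₀m
  have hv₃ := F₁.conj_mem hxy₁ hv₂
  have hy₁1 : y₁ ≠ 1 := by
    intro h
    obtain ⟨g, hg⟩ := hy₁conj
    apply H.hp1
    have h2 : p = g⁻¹ * (g * p * g⁻¹) * g := by group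
    rw [h2, ← hg, h]; group
  have hy₁o : Odd (orderOf y₁) := by
    obtain ⟨g, hg⟩ := hy₁conj
    rw [hg, conj_orderOf, H.orderOf_p]; decide
  have hne1 : t₀ ≠ x * t₀ * x⁻¹ := by
    intro h
    have hxt : x * t₀ = t₀ * x := by
      rw [eq_mul_inv_iff_mul_eq] at h
      exact h.symm
    have hback : ∀ {r : G}, v₀ * x' * v₀⁻¹ = r → x' = v₀⁻¹ * r * v₀ := by
      intro r hr
      rw [← hr]; group
    rcases H.odd_pair ht₀t₀ ht₀1 (y := x) (y' := y₁) hxt hxo hx1 hy₁c.symm hy₁o hy₁1 with h2 | h2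
    · apply hne
      rw [hback h2, hv₀i, hv₀x, mul_assoc, hv₀v₀, mul_one]
    · apply hne'
      have h3 : v₀ * x⁻¹ = x⁻¹ * v₀ := by
        calc v₀ * x⁻¹ = x⁻¹ * (x * v₀) * x⁻¹ := by group
          _ = x⁻¹ * (v₀ * x) * x⁻¹ := by rw [hv₀x]
          _ = x⁻¹ * v₀ := by group
      rw [hback h2, hv₀i, h3, mul_assoc, hv₀v₀, mul_one]
  have hne2 : x * t₀ * x⁻¹ ≠ x * (x * t₀ * x⁻¹) * x⁻¹ := by
    intro h
    apply hne1
    calc t₀ = x⁻¹ * (x * t₀ * x⁻¹) * x := by group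
      _ = x⁻¹ * (x * (x * t₀ * x⁻¹) * x⁻¹) * x := by rw [← h]
      _ = x * t₀ * x⁻¹ := by group
  have hne3 : t₀ ≠ x * (x * t₀ * x⁻¹) * x⁻¹ := by
    intro h
    apply hne1
    calc t₀ = x * (x * t₀ * x⁻¹) * x⁻¹ := h
      _ = x * (x * (x * (x * t₀ * x⁻¹) * x⁻¹) * x⁻¹) * x⁻¹ := by rw [← h]; exact h
      _ = (x * x * x) * (x * t₀ * x⁻¹) * (x * x * x)⁻¹ := by group
      _ = x * t₀ * x⁻¹ := by rw [hx3]; group
  have hprod := F₁.prod_three ht₀m hv₂ hv₃ hne1 hne2 hne3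
  calc (t₀ * x) ^ 3 = t₀ * (x * t₀ * x⁻¹) * (x * (x * t₀ * x⁻¹) * x⁻¹) * (x * x * x) := by
        rw [pow_succ, pow_two]; group
    _ = 1 := by rw [hprod, hx3, one_mul]

end A7Hyp

end Cfg

end Cfsg.Agent.Lib.SCent
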