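import Mathlib

/-!
# Permutation representations on cosets of a subgroup of a simple group
-/

set_option autoImplicit false

namespace Cfsg.Agent.Lib.SCent

open Subgroup

variable {G : Type*} [Group G] [Finite G] [IsSimpleGroup G]

/-- The action on cosets of a proper subgroup of a simple group is faithful. -/
theorem coset_hom_inj (N : Subgroup G) (hN : N ≠ ⊤) :
    Function.Injective (MulAction.toPermHom G (G ⧸ N)) := by
  rw [← MonoidHom.ker_eq_bot_iff]
  rcases (inferInstance : (MulAction.toPermHom G (G ⧸ N)).ker.Normal).eq_bot_or_eq_top with h | h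
  · exact h
  · exfalso
    apply hN
    rw [eq_top_iff]
    intro g _
    have h1 : g ∈ (MulAction.toPermHom G (G ⧸ N)).ker := by rw [h]; trivial
    rw [MonoidHom.mem_ker] at h1
    have h2 : g • ((1 : G) : G ⧸ N) = ((1 : G) : G ⧸ N) := by
      have := congrArg (fun f : Equiv.Perm (G ⧸ N) => f ((1 : G) : G ⧸ N)) h1
      simpa using this
    have h3 : ((g : G) : G ⧸ N) = ((1 : G) : G ⧸ N) := by
      rw [← h2]
      change ((g : G) : G ⧸ N) = ((g * 1 : G) : G ⧸ N)
      rw [mul_one]
    rw [eq_comm, QuotientGroup.eq] at h3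
    simpa using h3

/-- The order of a simple group divides `n!` for a proper subgroup of index `n`. -/
theorem card_dvd_factorial (N : Subgroup G) (hN : N ≠ ⊤) : Nat.card G ∣ (N.index).factorial := by
  classical
  have h1 := coset_hom_inj N hN
  haveI : Finite (G ⧸ N) := inferInstance
  haveI : Fintype (G ⧸ N) := Fintype.ofFinite _
  have h2 : Nat.card G ∣ Nat.card (Equiv.Perm (G ⧸ N)) :=
    Subgroup.card_dvd_of_injective _ h1
  rw [Nat.card_eq_fintype_card (α := Equiv.Perm (G ⧸ N)), Fintype.card_perm,
    ← Nat.card_eq_fintype_card] at h2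
  exact h2

/-- A simple perfect group with a subgroup of index `n` and order `n!/2` is alternating. -/
theorem iso_alt_of_index (hperf : commutator G = ⊤) (N : Subgroup G) {n : ℕ} (hi : N.index = n)
    (hN : N ≠ ⊤) (hcard : 2 * Nat.card G = n.factorial) :
    Nonempty (G ≃* alternatingGroup (Fin n)) := by
  classical
  have h1 := coset_hom_inj N hN
  have h2 : Nat.card (G ⧸ N) = n := hi
  obtain ⟨e⟩ : Nonempty ((G ⧸ N) ≃ Fin n) := by
    haveI : Fintype (G ⧸ N) := Fintype.ofFinite _
    rw [Nat.card_eq_fintype_card] at h2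
    exact ⟨Fintype.equivFinOfCardEq h2⟩
  let φ : G →* Equiv.Perm (Fin n) :=
    (Equiv.permCongrHom e).toMonoidHom.comp (MulAction.toPermHom G (G ⧸ N))
  have hφ : Function.Injective φ := (MulEquiv.injective (Equiv.permCongrHom e)).comp h1
  have hsign : ∀ g : G, φ g ∈ alternatingGroup (Fin n) := by
    intro g
    rw [Equiv.Perm.mem_alternatingGroup]
    have hmem : g ∈ commutator G := by rw [hperf]; trivial
    exact Abelianization.commutator_subset_ker (Equiv.Perm.sign.comp φ) hmem
  let ψ : G →* alternatingGroup (Fin n) := φ.codRestrict _ hsign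
  have hψ : Function.Injective ψ := by
    intro a b hab
    apply hφ
    exact congrArg Subtype.val hab
  have hn2 : 2 ≤ n := by
    by_contra hlt
    have hn1 : n = 0 ∨ n = 1 := by omega
    have hpos : 0 < Nat.card G := Nat.card_pos
    rcases hn1 with rfl | rfl <;> simp at hcard <;> omega
  haveI : Nontrivial (Fin n) := Fin.nontrivial_iff_two_le.2 hn2
  have hcard2 : Nat.card G = Nat.card (alternatingGroup (Fin n)) := by
    have h3 := two_mul_nat_card_alternatingGroup (α := Fin n)
    rw [Nat.card_eq_fintype_card (α := Equiv.Perm (Fin n)), Fintype.card_perm, Fintype.card_fin] at h3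
    omega
  have hsurj : Function.Surjective ψ := by
    exact ((Nat.bijective_iff_injective_and_card ψ).2 ⟨hψ, hcard2⟩).2
  exact ⟨MulEquiv.ofBijective ψ ⟨hψ, hsurj⟩⟩

end Cfsg.Agent.Lib.SCent
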