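import Mathlib
import Cfsg.Agent.Lib.SCent.A7d
import Cfsg.Agent.Lib.SCent.Iso
import Cfsg.Agent.Lib.SCent.A7Pres

set_option autoImplicit false

namespace Cfsg.Agent.Lib.SCent

open Subgroup

lemma mem_zpowers_three {G : Type*} [Group G] {x y : G} (hx : x ^ 3 = 1) (hx1 : x ≠ 1)
    (hy : y ∈ zpowers x) : y = 1 ∨ y = x ∨ y = x⁻¹ := by
  have ho : orderOf x = 3 := orderOf_eq_prime hx hx1
  rw [mem_zpowers_iff] at hy
  obtain ⟨k, rfl⟩ := hy
  have h3 : x ^ k = x ^ (k % 3) := by
    have h4 := zpow_mod_orderOf x k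
    rw [ho] at h4
    exact_mod_cast h4.symm
  have h5 : k % 3 = 0 ∨ k % 3 = 1 ∨ k % 3 = 2 := by omega
  rw [h3]
  rcases h5 with h5 | h5 | h5 <;> rw [h5]
  · left; simp
  · right; left; simp
  · right; right
    rw [eq_inv_iff_mul_eq_one, show (2 : ℤ) = ((2 : ℕ) : ℤ) from rfl, zpow_natCast, ← pow_succ]
    exact hx

namespace Cfg

variable {G : Type*} [Group G] [Finite G] {C : Cfg G}

namespace A7Hyp

variable {p : G} (H : A7Hyp C p)

include H

/-- **The alternating group of degree seven.** -/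
theorem a7_of_hyp [IsSimpleGroup G] (hperf : commutator G = ⊤) (hG : Nat.card G = 2520)
    (hNc : Nat.card C.Nc = 72) (hHc : Nat.card C.Hc = 36) :
    Nonempty (G ≃* alternatingGroup (Fin 7)) := by
  obtain ⟨x, hx, hc, hne, hne', hzx⟩ := H.exists_x hG hNc hHc
  obtain ⟨t₀, ht₀, ht₀x⟩ := H.exists_t0 hx hc hne hne' hzx
  obtain ⟨g₀, hg₀⟩ := id hx
  have hx3 : x * x * x = 1 := by
    rw [hg₀]
    calc g₀ * p * g₀⁻¹ * (g₀ * p * g₀⁻¹) * (g₀ * p * g₀⁻¹) = g₀ * (p * p * p) * g₀⁻¹ := by group
      _ = 1 := by rw [H.p3]; group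
  have hx3' : x ^ 3 = 1 := by rw [pow_succ, pow_two]; exact hx3
  have hx1 : x ≠ 1 := by
    intro h
    apply H.hp1
    have h2 : p = g₀⁻¹ * (g₀ * p * g₀⁻¹) * g₀ := by group
    rw [h2, ← hg₀, h]; group
  set x' := C.w * x * C.w⁻¹ with hx'
  have hx'3 : x' ^ 3 = 1 := by
    have h1 : x' * x' * x' = C.w * (x * x * x) * C.w⁻¹ := by rw [hx']; group
    rw [pow_succ, pow_two, h1, hx3]; group
  have hx'1 : x' ≠ 1 := by
    intro h
    apply hx1
    have h2 : x = C.w⁻¹ * x' * C.w := by rw [hx']; group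
    rw [h2, h]; group
  have hn : x' ∉ zpowers x := by
    intro h
    rcases mem_zpowers_three hx3' hx1 h with h1 | h1 | h1
    · exact hx'1 h1
    · exact hne h1
    · exact hne' h1
  obtain ⟨T, hT9, hxT, hx'T, hTab, hT3, hTle⟩ := exists_T hx3' hx1 hx'3 hx'1 hc hn
  have hTo : ∀ y ∈ T, Odd (orderOf y) := fun y hy => H.odd_of_cube (hT3 y hy)
  have ht₀t₀ : t₀ * t₀ = 1 := by
    rcases ht₀ with rfl | rfl
    · exact C.u_u
    · exact C.swap.tz_sq
  have ht₀1 : t₀ ≠ 1 := by
    rcases ht₀ with rfl | rfl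
    · exact C.swap.t_ne_one
    · exact C.swap.one_ne_tz.symm
  have ht₀w : t₀ * C.w * (t₀ * C.w) = 1 := by
    rcases ht₀ with rfl | rfl
    · have h1 : C.u * C.w = C.t * C.z := by unfold u z; group
      rw [h1]; exact C.tz_sq
    · have h1 : C.u * C.z * C.w = C.t := by
        have h2 : C.u * C.z = C.t * C.w⁻¹ := C.uz_eq
        rw [h2]; group
      rw [h1]; exact C.ht
  have h720 := card_dvd_720 x C.w t₀ hx3' C.w_pow4 ht₀t₀ ht₀w
    (by
      have h1 : x * x' * x⁻¹ * x'⁻¹ = 1 := by rw [hc]; group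
      have h2 : x * C.w * x * C.w⁻¹ * x⁻¹ * C.w * x⁻¹ * C.w⁻¹ = x * x' * x⁻¹ * x'⁻¹ := by
        rw [hx']; group
      rw [h2, h1])
    (by
      have h2 : C.w * C.w * x * C.w⁻¹ * C.w⁻¹ * x = (C.z * x * C.z⁻¹) * x := by
        unfold z; group
      rw [h2, hzx]; group)
    ht₀x
  set L := closure ({x, C.w, t₀} : Set G) with hL
  have hxL : x ∈ L := subset_closure (by simp)
  have hwL : C.w ∈ L := subset_closure (by simp)
  have ht₀L : t₀ ∈ L := subset_closure (by simp)
  have hzL : C.z ∈ L := mul_mem hwL hwL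
  have huL : C.u ∈ L := by
    rcases ht₀ with rfl | rfl
    · exact ht₀L
    · have h1 : C.u = C.u * C.z * C.z := by rw [mul_assoc, C.z_z, mul_one]
      rw [h1]; exact mul_mem ht₀L hzL
  have htL : C.t ∈ L := by
    have h1 : C.t = C.u * C.w⁻¹ := by unfold u; group
    rw [h1]; exact mul_mem huL (inv_mem hwL)
  have hx'L : x' ∈ L := mul_mem (mul_mem hwL hxL) (inv_mem hwL)
  have hSL : (C.S : Subgroup G) ≤ L := by
    intro s hs
    rcases C.mem_S_list hs with h | h | h | h | h | h | h | h <;> rw [h]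
    · exact one_mem _
    · exact hwL
    · exact hzL
    · exact inv_mem hwL
    · exact htL
    · exact mul_mem htL hwL
    · exact mul_mem htL hzL
    · exact mul_mem htL (inv_mem hwL)
  have hTL : T ≤ L := hTle L hxL hx'L
  have h8 : 8 ∣ Nat.card L := by
    rw [← C.hcardS]; exact Subgroup.card_dvd_of_le hSL
  have h9 : 9 ∣ Nat.card L := by
    rw [← hT9]; exact Subgroup.card_dvd_of_le hTL
  have h72 : 72 ∣ Nat.card L :=
    Nat.Coprime.mul_dvd_of_dvd_of_dvd (by norm_num : Nat.Coprime 8 9) h8 h9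
  have h2520 : Nat.card L ∣ 2520 := by
    rw [← hG]; exact Subgroup.card_subgroup_dvd_card L
  have h360 : Nat.card L ∣ 360 := by
    have h1 := Nat.dvd_gcd h720 h2520
    have h2 : Nat.gcd 720 2520 = 360 := by norm_num
    rwa [h2] at h1
  obtain ⟨d, hd⟩ := h72
  have hd5 : d ∣ 5 := by
    rw [hd] at h360
    exact Nat.dvd_of_mul_dvd_mul_left (by norm_num : 0 < 72) (by simpa using h360)
  rcases (Nat.dvd_prime (by norm_num : Nat.Prime 5)).1 hd5 with rfl | rfl
  · exfalso
    have hcardL : Nat.card L = 72 := by rw [hd]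
    obtain ⟨P, hP⟩ := H.exists_sylow hG T hT9
    set R : Subgroup G := L ⊓ normalizer (T : Set G) with hR
    have hRL : R ≤ L := inf_le_left
    have hTR : T ≤ R := le_inf hTL le_normalizer
    have hwT : ∀ y ∈ T, C.w * y * C.w⁻¹ ∈ T := by
      have hK : T ≤ T.comap (MulAut.conj C.w).toMonoidHom := by
        apply hTle
        · exact hx'T
        · change C.w * x' * C.w⁻¹ ∈ T
          have h1 : C.w * x' * C.w⁻¹ = C.z * x * C.z⁻¹ := by
            rw [hx']; unfold z; group
          rw [h1, hzx]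
          exact inv_mem hxT
      intro y hy
      exact hK hy
    have hwR : C.w ∈ R := ⟨hwL, mem_norm_of_maps hwT⟩
    have h4R : 4 ∣ Nat.card R := by
      have h1 : Nat.card (zpowers C.w) = 4 := C.card_zpowers_w
      rw [← h1]
      exact Subgroup.card_dvd_of_le (zpowers_le.2 hwR)
    have h9R : 9 ∣ Nat.card R := by
      rw [← hT9]; exact Subgroup.card_dvd_of_le hTR
    have h36R : 36 ∣ Nat.card R :=
      Nat.Coprime.mul_dvd_of_dvd_of_dvd (by norm_num : Nat.Coprime 4 9) h4R h9R
    have hRd : Nat.card R ∣ 72 := by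
      rw [← hcardL]; exact Subgroup.card_dvd_of_le hRL
    have hR2 : Nat.card R = 36 ∨ Nat.card R = 72 := by
      obtain ⟨e, he⟩ := h36R
      rw [he] at hRd
      have he2 : e ∣ 2 := Nat.dvd_of_mul_dvd_mul_left (by norm_num : 0 < 36) (by simpa using hRd)
      rcases (Nat.dvd_prime Nat.prime_two).1 he2 with rfl | rfl
      · left; rw [he]
      · right; rw [he]
    have ht₀T : ∀ y ∈ T, t₀ * y * t₀⁻¹ ∈ T := by
      rcases hR2 with hR36 | hR72
      · -- index two
        have hcardR' : Nat.card (R.subgroupOf L) = 36 := by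
          rw [← hR36]
          exact Nat.card_congr (Subgroup.subgroupOfEquivOfLe hRL).toEquiv
        have hidx : (R.subgroupOf L).index = 2 := by
          have h1 := Subgroup.card_mul_index (R.subgroupOf L)
          rw [hcardR', hcardL] at h1
          omega
        haveI hnorm : (R.subgroupOf L).Normal := Subgroup.normal_of_index_eq_two hidx
        have hconj : ∀ y ∈ T, t₀ * y * t₀⁻¹ ∈ R := by
          intro y hy
          have h1 : (⟨y, hTL hy⟩ : L) ∈ R.subgroupOf L := by
            rw [Subgroup.mem_subgroupOf]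
            exact hTR hy
          have h2 := hnorm.conj_mem _ h1 ⟨t₀, ht₀L⟩
          rw [Subgroup.mem_subgroupOf] at h2
          exact h2
        let Q : Subgroup G := T.map (MulAut.conj t₀).toMonoidHom
        have hQR : Q ≤ R := by
          rintro _ ⟨y, hy, rfl⟩
          exact hconj y hy
        have hQ : IsPGroup 3 Q := by
          apply IsPGroup.of_card (n := 2)
          rw [Subgroup.card_map_of_injective (MulAut.conj t₀).injective, hT9]
          norm_num
        obtain ⟨h, hh, hq⟩ := exists_conj_into_sylow R P (by rw [hP]; exact hTR) Q hQR hQ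
        intro y hy
        have h1 := hq (t₀ * y * t₀⁻¹) ⟨y, hy, rfl⟩
        rw [hP] at h1
        exact (mem_normalizer_iff.1 hh.2 _).2 h1
      · have hRLe : R = L := by
          apply Subgroup.eq_of_le_of_card_ge hRL
          rw [hR72, hcardL]
        have h1 : t₀ ∈ R := by rw [hRLe]; exact ht₀L
        intro y hy
        exact (mem_normalizer_iff.1 h1.2 y).1 hy
    have h5 := H.inv_of_norm T hT9 hTab hTo ht₀t₀ ht₀1 ht₀T x hxT
    have ht₀i : t₀⁻¹ = t₀ := inv_eq_of_mul_eq_one_left ht₀t₀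
    rw [ht₀i] at h5
    have h6 : (t₀ * x) * (t₀ * x) = 1 := by
      rw [← mul_assoc, h5]; group
    have h7 : t₀ * x = 1 := by
      have h8 : (t₀ * x) ^ 3 = 1 := ht₀x
      rw [pow_succ, pow_two, h6, one_mul] at h8
      exact h8
    have h9 : t₀ = x⁻¹ := eq_inv_of_mul_eq_one_left h7
    rw [h9] at ht₀t₀
    have h10 : x * x = 1 := by
      have h11 : (x * x)⁻¹ = 1 := by
        rw [mul_inv_rev]; exact ht₀t₀
      exact inv_eq_one.1 h11
    rw [h10, one_mul] at hx3
    exact hx1 hx3
  · have hcardL : Nat.card L = 360 := by rw [hd]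
    have hi : L.index = 7 := by
      have h1 := Subgroup.card_mul_index L
      rw [hcardL, hG] at h1
      omega
    apply iso_alt_of_index hperf L hi
    · intro h
      rw [h, Subgroup.card_top, hG] at hcardL
      omega
    · rw [hG]; decide

end A7Hyp

end Cfg

end Cfsg.Agent.Lib.SCent
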