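import Mathlib

/-!
# The arithmetic behind groups with a self-centralizing cyclic subgroup of order four

Integer consequences of Brauer's order formula and of the structure constant at an element of order
four.
-/

set_option autoImplicit false

namespace Cfsg.Agent.Lib.SCent.Arith

theorem delta_sq {δ : ℤ} (hδ : δ = 1 ∨ δ = -1) : δ ^ 2 = 1 := by
  rcases hδ with rfl | rfl <;> norm_num

/-- First consequence of the order formula. -/
theorem order_form {I a b x : ℤ} {δ : ℤ} (hδ : δ = 1 ∨ δ = -1) (hI : Odd I)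
    (ha : Odd a) (hb : Odd b) (ha0 : 0 < a) (hb0 : 0 < b) (hx0 : 0 < x) (hxδ : x ≠ δ)
    (h1 : I * (x - δ) ^ 2 = 8 * x * (x + δ) * (a + b) ^ 2) :
    ∃ m n : ℤ, 1 ≤ m ∧ 1 ≤ n ∧ Odd n ∧ x = 8 * m + δ ∧ a + b = 2 * n * m ∧
      I = n ^ 2 * x * (4 * m + δ) := by
  obtain ⟨s, hs⟩ : ∃ s : ℤ, a + b = 2 * s := by
    have : Even (a + b) := ha.add_odd hb
    obtain ⟨s, hs⟩ := this
    exact ⟨s, by omega⟩
  have hs0 : 0 < s := by omega
  have hδodd : Odd δ := by
    rcases hδ with rfl | rfl <;> decide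
  have h2 : I * (x - δ) ^ 2 = 32 * x * (x + δ) * s ^ 2 := by
    rw [h1, hs]; ring
  -- x is odd
  have hxodd : Odd x := by
    by_contra hne
    have hev : Even x := Int.not_odd_iff_even.1 hne
    have h3 : Odd (I * (x - δ) ^ 2) := hI.mul ((hev.sub_odd hδodd).pow)
    rw [h2] at h3
    have h4 : Even (32 * x * (x + δ) * s ^ 2) := by
      have : (32 * x * (x + δ) * s ^ 2) = 2 * (16 * x * (x + δ) * s ^ 2) := by ring
      rw [this]; exact even_two_mul _
    exact (Int.not_even_iff_odd.2 h3) h4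
  obtain ⟨X, hX⟩ : ∃ X : ℤ, x - δ = 2 * X := by
    have := hxodd.sub_odd hδodd
    obtain ⟨X, hX⟩ := this
    exact ⟨X, by omega⟩
  have hY : x + δ = 2 * (X + δ) := by linarith
  have h3 : I * X ^ 2 = 16 * x * (X + δ) * s ^ 2 := by
    have : 4 * (I * X ^ 2) = 4 * (16 * x * (X + δ) * s ^ 2) := by
      rw [hX, hY] at h2
      linear_combination h2
    linarith
  have hXev : Even X := by
    by_contra hne
    have hod : Odd X := Int.not_even_iff_odd.1 hne
    have h4 : Odd (I * X ^ 2) := hI.mul hod.pow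
    rw [h3] at h4
    have h5 : Even (16 * x * (X + δ) * s ^ 2) := by
      have : (16 * x * (X + δ) * s ^ 2) = 2 * (8 * x * (X + δ) * s ^ 2) := by ring
      rw [this]; exact even_two_mul _
    exact (Int.not_even_iff_odd.2 h4) h5
  obtain ⟨X1, hX1⟩ : ∃ X1 : ℤ, X = 2 * X1 := by
    obtain ⟨X1, hX1⟩ := hXev
    exact ⟨X1, by omega⟩
  have h4 : I * X1 ^ 2 = 4 * x * (2 * X1 + δ) * s ^ 2 := by
    rw [hX1] at h3
    have : 4 * (I * X1 ^ 2) = 4 * (4 * x * (2 * X1 + δ) * s ^ 2) := by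
      linear_combination h3
    linarith
  have hX1ev : Even X1 := by
    by_contra hne
    have hod : Odd X1 := Int.not_even_iff_odd.1 hne
    have h5 : Odd (I * X1 ^ 2) := hI.mul hod.pow
    rw [h4] at h5
    have h6 : Even (4 * x * (2 * X1 + δ) * s ^ 2) := by
      have : (4 * x * (2 * X1 + δ) * s ^ 2) = 2 * (2 * x * (2 * X1 + δ) * s ^ 2) := by ring
      rw [this]; exact even_two_mul _
    exact (Int.not_even_iff_odd.2 h5) h6
  obtain ⟨m, hm⟩ : ∃ m : ℤ, X1 = 2 * m := by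
    obtain ⟨m, hm⟩ := hX1ev
    exact ⟨m, by omega⟩
  have hx : x = 8 * m + δ := by
    rw [hX1, hm] at hX
    linarith
  have h5 : I * m ^ 2 = x * (4 * m + δ) * s ^ 2 := by
    rw [hm] at h4
    have : 4 * (I * m ^ 2) = 4 * (x * (4 * m + δ) * s ^ 2) := by
      linear_combination h4
    linarith
  have hm0 : m ≠ 0 := by
    rintro rfl
    apply hxδ
    rw [hx]; ring
  have hm1 : 1 ≤ m := by
    by_contra hlt
    have : m ≤ -1 := by omega
    rcases hδ with rfl | rfl <;> omega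
  -- coprimality
  have hc1 : IsCoprime m x := by
    rw [hx]
    refine ⟨-8 * δ, δ, ?_⟩
    have := delta_sq hδ
    linear_combination this
  have hc2 : IsCoprime m (4 * m + δ) := by
    refine ⟨-4 * δ, δ, ?_⟩
    have := delta_sq hδ
    linear_combination this
  have hc : IsCoprime (m ^ 2) (x * (4 * m + δ)) :=
    IsCoprime.pow_left (hc1.mul_right hc2)
  have hdvd : m ^ 2 ∣ s ^ 2 := by
    have : m ^ 2 ∣ x * (4 * m + δ) * s ^ 2 := ⟨I, by rw [← h5]; ring⟩
    exact hc.dvd_of_dvd_mul_left this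
  have hdvd' : m ∣ s := (Int.pow_dvd_pow_iff (by norm_num)).1 hdvd
  obtain ⟨n, hn⟩ := hdvd'
  have hn0 : 0 < n := by
    by_contra hle
    have : n ≤ 0 := by omega
    nlinarith
  have hI' : I = n ^ 2 * x * (4 * m + δ) := by
    have hm2 : m ^ 2 ≠ 0 := pow_ne_zero _ hm0
    apply mul_right_cancel₀ hm2
    rw [h5, hn]; ring
  have hnodd : Odd n := by
    by_contra hne
    have hev : Even n := Int.not_odd_iff_even.1 hne
    rw [hI'] at hI
    have : Even (n ^ 2 * x * (4 * m + δ)) := by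
      have h2n : Even (n ^ 2) := hev.pow_of_ne_zero (by norm_num)
      exact (h2n.mul_right _).mul_right _
    exact (Int.not_even_iff_odd.2 hI) this
  refine ⟨m, n, hm1, by omega, hnodd, hx, ?_, hI'⟩
  rw [hs, hn]; ring

/-- The relation between `p q` and the parameters. -/
theorem pq_form {a b x m n p q I : ℤ} {δ : ℤ} (hδ : δ = 1 ∨ δ = -1) (hx0 : 0 < x)
    (hx : x = 8 * m + δ) (hm : 1 ≤ m) (hn : 1 ≤ n)
    (hI : I = n ^ 2 * x * (4 * m + δ)) (hpq : p + q = 1 + δ * x)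
    (h3 : (x + δ) * p * q * I - (p + q) * x * I = 32 * a * b * x * p * q) :
    p * q * ((n * (4 * m + δ)) ^ 2 - 16 * a * b) = δ * x * (n * (4 * m + δ)) ^ 2 := by
  have hd := delta_sq hδ
  have hps : p + q = 2 * δ * (4 * m + δ) := by
    rw [hpq, hx]; linear_combination -hd
  have hxd : x + δ = 2 * (4 * m + δ) := by rw [hx]; ring
  have h4 : 2 * x * (p * q * ((n * (4 * m + δ)) ^ 2 - 16 * a * b)) =
      2 * x * (δ * x * (n * (4 * m + δ)) ^ 2) := by
    rw [hps, hxd, hI] at h3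
    linear_combination h3
  have h2x : (2 * x) ≠ 0 := by omega
  exact mul_left_cancel₀ h2x h4

/-- `g₀ (p - q)² = (4 (4m+δ) (a-b))²`. -/
theorem disc_form {a b x m n p q : ℤ} {δ : ℤ} (hδ : δ = 1 ∨ δ = -1)
    (hx : x = 8 * m + δ) (hab : a + b = 2 * n * m) (hpq : p + q = 1 + δ * x)
    (h : p * q * ((n * (4 * m + δ)) ^ 2 - 16 * a * b) = δ * x * (n * (4 * m + δ)) ^ 2) :
    ((n * (4 * m + δ)) ^ 2 - 16 * a * b) * (p - q) ^ 2 = (4 * (4 * m + δ) * (a - b)) ^ 2 := by
  have hd := delta_sq hδ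
  have hps : p + q = 2 * δ * (4 * m + δ) := by
    rw [hpq, hx]; linear_combination -hd
  have hsq : (p - q) ^ 2 = (p + q) ^ 2 - 4 * (p * q) := by ring
  have hb : b = 2 * n * m - a := by linarith
  rw [hsq, hps]
  have e : ∀ u : ℤ, ((n * (4 * m + δ)) ^ 2 - 16 * a * b) * ((2 * δ * (4 * m + δ)) ^ 2 - 4 * (p * q)) =
      ((n * (4 * m + δ)) ^ 2 - 16 * a * b) * (2 * δ * (4 * m + δ)) ^ 2 -
        4 * (p * q * ((n * (4 * m + δ)) ^ 2 - 16 * a * b)) := fun _ => by ring
  rw [e 0, h, hx, hb]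
  have hd4 : δ ^ 4 = 1 := by
    have : δ ^ 4 = (δ ^ 2) ^ 2 := by ring
    rw [this, hd]; norm_num
  have hd3 : δ ^ 3 = δ := by
    have : δ ^ 3 = δ ^ 2 * δ := by ring
    rw [this, hd]; ring
  rcases hδ with rfl | rfl <;> ring

theorem isSq_of_mul_sq {g r K : ℤ} (hr : r ≠ 0) (h : g * r ^ 2 = K ^ 2) : ∃ e : ℤ, g = e ^ 2 := by
  have hd : r ^ 2 ∣ K ^ 2 := ⟨g, by rw [← h]; ring⟩
  obtain ⟨e, he⟩ := (Int.pow_dvd_pow_iff (by norm_num)).1 hd
  refine ⟨e, ?_⟩
  have hr2 : r ^ 2 ≠ 0 := pow_ne_zero _ hr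
  apply mul_right_cancel₀ hr2
  rw [h, he]; ring

/-- Squares: no square strictly between two consecutive squares. -/
theorem no_sq_between {g L : ℤ} (hL : 0 ≤ L) (h1 : L ^ 2 < g) (h2 : g < (L + 1) ^ 2) :
    ¬ ∃ e : ℤ, g = e ^ 2 := by
  rintro ⟨e, rfl⟩
  have h3 : L ^ 2 < |e| ^ 2 := by rwa [sq_abs]
  have h4 : |e| ^ 2 < (L + 1) ^ 2 := by rwa [sq_abs]
  have h5 : L < |e| := by nlinarith [abs_nonneg e]
  have h6 : |e| < L + 1 := by nlinarith [abs_nonneg e]
  omega

/-- The case `b = 1`: only `a = 3` and `a = 5` survive. -/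
theorem b_one {a x m n p q I : ℤ} {δ : ℤ} (hδ : δ = 1 ∨ δ = -1) (ha1 : 1 < a)
    (hx : x = 8 * m + δ) (hm : 1 ≤ m) (hn : 1 ≤ n) (hnodd : Odd n)
    (hab : a + 1 = 2 * n * m) (hI : I = n ^ 2 * x * (4 * m + δ)) (hpq : p + q = 1 + δ * x)
    (h : p * q * ((n * (4 * m + δ)) ^ 2 - 16 * a * 1) = δ * x * (n * (4 * m + δ)) ^ 2) :
    (a = 3 ∧ I = 105) ∨ (a = 5 ∧ I = 189) := by
  have hdisc := disc_form (b := 1) hδ hx hab hpq h
  have hne : p - q ≠ 0 := by
    intro h0
    rw [h0] at hdisc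
    have : (4 * (4 * m + δ) * (a - 1)) = 0 := by
      have h1 : (4 * (4 * m + δ) * (a - 1)) ^ 2 = 0 := by rw [← hdisc]; ring
      exact pow_eq_zero_iff (by norm_num) |>.1 h1
    have h2 : 4 * m + δ ≠ 0 := by rcases hδ with rfl | rfl <;> omega
    have h3 : a - 1 ≠ 0 := by omega
    exact (mul_ne_zero (mul_ne_zero (by norm_num) h2) h3) this
  have hsq := isSq_of_mul_sq hne hdisc
  have ha : a = 2 * n * m - 1 := by linarith
  -- the identity for g₀
  have hg : ∀ L : ℤ, L = n * (4 * m + δ) → L ^ 2 - 16 * a * 1 = (L - 4) ^ 2 + 8 * δ * n := by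
    intro L hL
    rw [ha, hL]; ring
  rcases hδ with rfl | rfl
  · -- δ = 1
    exfalso
    rw [hg _ rfl] at hsq
    by_cases hbig : 2 ≤ m ∨ 4 ≤ n
    · refine no_sq_between (L := n * (4 * m + 1) - 4) ?_ ?_ ?_ hsq
      · nlinarith
      · nlinarith
      · rcases hbig with h2 | h4
        · nlinarith [mul_le_mul h2 hn (by norm_num) (by linarith)]
        · nlinarith
    · have hm1 : m = 1 := by
        push Not at hbig; omega
      have hn3 : n = 1 ∨ n = 3 := by
        push Not at hbig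
        obtain ⟨k, hk⟩ := hnodd
        omega
      subst hm1
      rcases hn3 with rfl | rfl
      · norm_num at ha; omega
      · exact no_sq_between (L := 12) (by norm_num) (by norm_num) (by norm_num) hsq
  · -- δ = -1
    rw [hg _ rfl] at hsq
    by_cases hm3 : 3 ≤ m
    · exfalso
      refine no_sq_between (L := n * (4 * m + -1) - 5) ?_ ?_ ?_ hsq
      · nlinarith
      · nlinarith
      · nlinarith
    by_cases hm2 : m = 2
    · subst hm2
      by_cases hn2 : 2 ≤ n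
      · exfalso
        refine no_sq_between (L := n * (4 * 2 + -1) - 5) ?_ ?_ ?_ hsq
        · nlinarith
        · nlinarith
        · nlinarith
      · have hn1 : n = 1 := by omega
        subst hn1
        left
        refine ⟨by omega, ?_⟩
        rw [hI, hx]; norm_num
    · have hm1 : m = 1 := by omega
      subst hm1
      by_cases hn6 : 6 ≤ n
      · exfalso
        refine no_sq_between (L := 3 * n - 6) ?_ ?_ ?_ hsq
        · omega
        · nlinarith
        · nlinarith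
      · have hn3 : n = 1 ∨ n = 3 ∨ n = 5 := by
          obtain ⟨k, hk⟩ := hnodd
          omega
        rcases hn3 with rfl | rfl | rfl
        · norm_num at ha; omega
        · right
          refine ⟨by omega, ?_⟩
          rw [hI, hx]; norm_num
        · exfalso
          have h81 : p * q * 81 = -1575 := by
            rw [hx, ha] at h
            norm_num at h
            linarith
          omega

/-- The case `a = b`: the index forces `m = 1`. -/
theorem a_eq_b {a x m n I k : ℤ} {δ : ℤ} (hδ : δ = 1 ∨ δ = -1)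
    (hx : x = 8 * m + δ) (hm : 1 ≤ m) (hn : 1 ≤ n)
    (hab : a + a = 2 * n * m) (hI : I = n ^ 2 * x * (4 * m + δ)) (hk : I = 3 * a ^ 2 * k) :
    m = 1 ∧ a = n := by
  have ha : a = n * m := by linarith
  have hd := delta_sq hδ
  have h1 : n ^ 2 * (x * (4 * m + δ)) = n ^ 2 * (3 * m ^ 2 * k) := by
    rw [← mul_assoc, ← hI, hk, ha]; ring
  have hn2 : n ^ 2 ≠ 0 := pow_ne_zero _ (by omega)
  have h2 : x * (4 * m + δ) = 3 * m ^ 2 * k := mul_left_cancel₀ hn2 h1
  have hc1 : IsCoprime m x := by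
    rw [hx]
    refine ⟨-8 * δ, δ, ?_⟩
    linear_combination hd
  have hc2 : IsCoprime m (4 * m + δ) := by
    refine ⟨-4 * δ, δ, ?_⟩
    linear_combination hd
  have hc : IsCoprime m (x * (4 * m + δ)) := hc1.mul_right hc2
  have hdvd : m ∣ x * (4 * m + δ) := ⟨3 * m * k, by rw [h2]; ring⟩
  have hu : IsUnit m := hc.isUnit_of_dvd' dvd_rfl hdvd
  have hm1 : m = 1 := by
    rcases Int.isUnit_iff.1 hu with h | h <;> omega
  refine ⟨hm1, ?_⟩
  rw [ha, hm1]; ring

/-- `c₁ (2 b + c₁) ≥ 1 + 2 b²` with `c₁ ≤ a` gives `3 a > 2 b`. -/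
theorem three_gt {b c : ℕ} (h : 1 + 2 * b ^ 2 ≤ c * (2 * b + c)) : 2 * b < 3 * c := by
  by_contra hle
  push Not at hle
  nlinarith

/-- Both inequalities together force `c₁ = a`, `c₂ = b`. -/
theorem c_eq {a b c d : ℕ} (ha : Odd a) (hca : c ∣ a) (hdb : d ∣ b) (ha0 : 0 < a) (hb0 : 0 < b)
    (h1 : 1 + 2 * b ^ 2 ≤ c * (2 * b + c)) (h2 : 1 + 2 * a ^ 2 ≤ d * (2 * a + d)) : c = a := by
  have h3 := three_gt h1
  have h4 := three_gt h2
  have hd : d ≤ b := Nat.le_of_dvd hb0 hdb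
  obtain ⟨k, hk⟩ := hca
  have hc0 : 0 < c := by
    rcases Nat.eq_zero_or_pos c with h | h
    · subst h; omega
    · exact h
  have hkodd : Odd k := by
    rw [hk] at ha
    exact (Nat.odd_mul.1 ha).2
  have hk3 : k < 3 := by
    -- `9 c > 6 b ≥ ... > 4 a`
    by_contra hge
    push Not at hge
    have : 3 * c ≤ a := by rw [hk]; nlinarith
    omega
  have hk1 : k = 1 := by
    obtain ⟨j, hj⟩ := hkodd
    omega
  rw [hk, hk1, mul_one]

end Cfsg.Agent.Lib.SCent.Arith
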