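import Mathlib
import Cfsg.Agent.S4481
import Cfsg.Agent.S4482
import Cfsg.Agent.Lib.Char.ClassPair
import Cfsg.Agent.Lib.Char.CompleteCor
import Cfsg.Agent.Lib.Char.Values
import Cfsg.Agent.Lib.Char.Codegree
import Cfsg.Agent.Lib.Char.Kazarin
import Cfsg.Agent.Lib.Char.Basic
import Cfsg.Agent.Lib.Char.Burnside2
import Cfsg.Agent.Lib.SCent.Base
import Cfsg.Agent.Lib.SCent.Arith

/-!
# The character computation for a self-centralizing element of order four
-/

set_option autoImplicit false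

namespace Cfsg.Agent.Lib.SCent

open Cfsg Subgroup
open scoped ComplexConjugate

universe u

theorem card_fiber {G : Type u} [Group G] [Fintype G] [DecidableEq G] {t y : G} (hc : IsConj t y) :
    (Finset.univ.filter fun g : G => g * t * g⁻¹ = y).card = Nat.card (centralizer ({t} : Set G)) := by
  obtain ⟨h, rfl⟩ := isConj_iff.1 hc
  rw [← Fintype.card_subtype, ← Nat.card_eq_fintype_card]
  refine Nat.card_congr ⟨fun g => ⟨h⁻¹ * g.1, ?_⟩, fun c => ⟨h * c.1, ?_⟩, fun g => ?_, fun c => ?_⟩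
  · rw [mem_centralizer_singleton_iff]
    have h1 := g.2
    have h2 : g.1 * t = h * t * h⁻¹ * g.1 := by
      calc g.1 * t = (g.1 * t * g.1⁻¹) * g.1 := by group
        _ = _ := congrArg (· * g.1) h1
    calc h⁻¹ * g.1 * t = h⁻¹ * (g.1 * t) := by group
      _ = h⁻¹ * (h * t * h⁻¹ * g.1) := by rw [h2]
      _ = t * (h⁻¹ * g.1) := by group
  · have h1 := mem_centralizer_singleton_iff.1 c.2
    calc h * c.1 * t * (h * c.1)⁻¹ = h * (c.1 * t) * c.1⁻¹ * h⁻¹ := by group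
      _ = h * (t * c.1) * c.1⁻¹ * h⁻¹ := by rw [h1]
      _ = h * t * h⁻¹ := by group
  · apply Subtype.ext
    simp
  · apply Subtype.ext
    simp

namespace Cfg

variable {G : Type u} [Group G] [Finite G] (C : Cfg G)

lemma cent_w : centralizer ({C.w} : Set G) = zpowers C.w := by
  ext y
  rw [mem_centralizer_singleton_iff]
  constructor
  · exact C.hcw y
  · rintro ⟨k, rfl⟩
    exact (Commute.zpow_left (Commute.refl _) k).eq

lemma card_cent_w : Nat.card (centralizer ({C.w} : Set G)) = 4 := by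
  rw [cent_w, card_zpowers_w]

lemma closure_eq : closure ({C.w, C.t} : Set G) = (C.S : Subgroup G) := by
  apply le_antisymm
  · rw [closure_le]
    rintro x (rfl | hx)
    · exact C.hwS
    · rw [Set.mem_singleton_iff] at hx
      subst hx
      exact C.htS
  · intro s hs
    have hw : C.w ∈ closure ({C.w, C.t} : Set G) := subset_closure (Or.inl rfl)
    have ht : C.t ∈ closure ({C.w, C.t} : Set G) := subset_closure (Or.inr rfl)
    have hz : C.z ∈ closure ({C.w, C.t} : Set G) := mul_mem hw hw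
    rcases C.mem_S_list hs with h | h | h | h | h | h | h | h <;> subst h
    · exact one_mem _
    · exact hw
    · exact hz
    · exact inv_mem hw
    · exact ht
    · exact mul_mem ht hw
    · exact mul_mem ht hz
    · exact mul_mem ht (inv_mem hw)

/-- The four ways of writing `w` as a product of two involutions. -/
theorem card_pairs [Fintype G] [DecidableEq G] (hc : ∀ x : G, orderOf x = 2 → IsConj C.z x) :
    (Finset.univ.filter fun a : G × G =>
      a.1 * C.z * a.1⁻¹ * (a.2 * C.z * a.2⁻¹) = C.w).card =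
      4 * Nat.card (centralizer ({C.z} : Set G)) ^ 2 := by
  set X := Finset.univ.filter fun a : G × G =>
    a.1 * C.z * a.1⁻¹ * (a.2 * C.z * a.2⁻¹) = C.w with hX
  set B : Finset G := (Finset.univ.filter (· ∈ zpowers C.w)).image (fun y => C.t * y) with hB
  have hBcard : B.card = 4 := by
    rw [hB, Finset.card_image_of_injective _ (mul_right_injective C.t)]
    rw [← C.card_zpowers_w, Nat.card_eq_fintype_card, Fintype.card_subtype]
  have hconj1 : ∀ g : G, (g * C.z * g⁻¹) * (g * C.z * g⁻¹) = 1 := by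
    intro g
    calc (g * C.z * g⁻¹) * (g * C.z * g⁻¹) = g * (C.z * C.z) * g⁻¹ := by group
      _ = 1 := by rw [C.z_z]; group
  have hmap : ∀ a ∈ X, a.1 * C.z * a.1⁻¹ ∈ B := by
    intro a ha
    have ha' : a.1 * C.z * a.1⁻¹ * (a.2 * C.z * a.2⁻¹) = C.w := by
      simpa [hX] using ha
    set u' := a.1 * C.z * a.1⁻¹ with hu
    set v' := a.2 * C.z * a.2⁻¹ with hv
    have hu2 : u' * u' = 1 := hconj1 a.1
    have hv2 : v' * v' = 1 := hconj1 a.2
    have h1 : u' * C.w = v' := by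
      rw [← ha', ← mul_assoc, hu2, one_mul]
    have h2 : C.w⁻¹ * u' = v' := by
      rw [← ha', mul_inv_rev, inv_eq_of_mul_eq_one_left hu2, inv_eq_of_mul_eq_one_left hv2,
        mul_assoc, hu2, mul_one]
    have h3 : (C.t * u') * C.w = C.w * (C.t * u') := by
      calc (C.t * u') * C.w = C.t * (u' * C.w) := by group
        _ = C.t * (C.w⁻¹ * u') := by rw [h1, h2]
        _ = (C.t * C.w⁻¹) * u' := by group
        _ = (C.w * C.t) * u' := by rw [C.wt_eq]
        _ = C.w * (C.t * u') := by group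
    have h4 := C.hcw _ h3
    rw [hB, Finset.mem_image]
    refine ⟨C.t * u', by simpa using h4, ?_⟩
    rw [← mul_assoc, C.ht, one_mul]
  rw [Finset.card_eq_sum_card_fiberwise hmap]
  have hfib : ∀ b ∈ B, (X.filter fun a => a.1 * C.z * a.1⁻¹ = b).card =
      Nat.card (centralizer ({C.z} : Set G)) ^ 2 := by
    intro b hb
    rw [hB, Finset.mem_image] at hb
    obtain ⟨y, hy, rfl⟩ := hb
    have hy' : y ∈ zpowers C.w := by simpa using hy
    have hyw : y * C.w ∈ zpowers C.w := mul_mem hy' (mem_zpowers _)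
    have hset : (X.filter fun a => a.1 * C.z * a.1⁻¹ = C.t * y) =
        (Finset.univ.filter fun g : G => g * C.z * g⁻¹ = C.t * y) ×ˢ
        (Finset.univ.filter fun g : G => g * C.z * g⁻¹ = C.t * (y * C.w)) := by
      ext ⟨g₁, g₂⟩
      simp only [hX, Finset.mem_filter, Finset.mem_univ, true_and, Finset.mem_product]
      constructor
      · rintro ⟨h3, h4⟩
        refine ⟨h4, ?_⟩
        rw [h4] at h3
        have h5 := C.ty_sq hy'
        calc g₂ * C.z * g₂⁻¹ = (C.t * y * (C.t * y)) * (g₂ * C.z * g₂⁻¹) := by rw [h5, one_mul]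
          _ = C.t * y * (C.t * y * (g₂ * C.z * g₂⁻¹)) := by group
          _ = C.t * y * C.w := by rw [h3]
          _ = C.t * (y * C.w) := by group
      · rintro ⟨h3, h4⟩
        refine ⟨?_, h3⟩
        rw [h3, h4]
        have h5 := C.ty_sq hy'
        calc _ = (C.t * y * (C.t * y)) * C.w := by group
          _ = _ := by rw [h5, one_mul]
    rw [hset, Finset.card_product, card_fiber (hc _ (C.orderOf_ty hy')),
      card_fiber (hc _ (C.orderOf_ty hyw)), pow_two]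
  rw [Finset.sum_congr rfl hfib, Finset.sum_const, hBcard]
  rfl


/-- The outcome of the character computation. -/
theorem chars (hD : Nonempty ((C.S : Subgroup G) ≃* DihedralGroup 4))
    (hc : ∀ x : G, orderOf x = 2 → IsConj C.z x) :
    ∃ x p q δ : ℤ, (δ = 1 ∨ δ = -1) ∧ 0 < x ∧ x ≠ δ ∧ p ≠ 0 ∧ q ≠ 0 ∧
      ((centralizer ({C.z} : Set G)).index : ℤ) * (x - δ) ^ 2 =
        8 * x * (x + δ) * ((Nat.card C.Ap : ℤ) + (Nat.card C.swap.Ap : ℤ)) ^ 2 ∧
      p + q = 1 + δ * x ∧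
      (x + δ) * p * q * ((centralizer ({C.z} : Set G)).index : ℤ) -
        (p + q) * x * ((centralizer ({C.z} : Set G)).index : ℤ) =
        32 * (Nat.card C.Ap : ℤ) * (Nat.card C.swap.Ap : ℤ) * x * p * q := by
  classical
  haveI := Fintype.ofFinite G
  haveI := Fintype.ofFinite (IrrCharacter G)
  obtain ⟨M, hM⟩ := Cfsg.Agent.Lib.Char.Kazarin.exists_modular 2 Nat.prime_two
  obtain ⟨-, χ₁, χ₂, χ₃, χ', δ₁, δ₂, δ₃, hδ₁, hδ₂, hδ₃, -, hne1, hne2, hne3, h12, h13, h23, -,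
    hblock, hvals, hodd⟩ :=
    Cfsg.Agent.S4481.result M hM 3 (le_refl 3) C.S hD C.w C.hwS (by simpa using C.hw)
      Complex.I (by simpa using Complex.isPrimitiveRoot_I)
  have hχ₁b : χ₁ ∈ Cfsg.principalBlock M G := by
    rw [hblock]
    exact Or.inr (Or.inl rfl)
  have hvv : ∀ l : ℕ, 0 < l → l < 4 → (χ₁ : G → ℂ) (C.w ^ l) = δ₁ := fun l h0 h4 =>
    (hvals l h0 h4).1
  have hform := Cfsg.Agent.S4482.result M hM 3 (le_refl 3) C.S C.w C.t C.hwS C.htS
    (by simpa using C.hw) (orderOf_eq_prime (p := 2) (by rw [pow_two, C.ht]) C.t_ne_one)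
    (by rw [C.t_inv, C.hinv]) C.closure_eq
    (by
      have h1 : C.w ^ 2 ^ (3 - 2) = C.z := by simp [z, pow_two]
      rw [h1]
      exact ⟨hc _ (orderOf_eq_prime (p := 2) (by rw [pow_two, C.ht]) C.t_ne_one), by
        apply hc
        rw [C.wt_eq]
        exact C.orderOf_ty (inv_mem (mem_zpowers _))⟩)
    χ₁ hχ₁b hne1 δ₁ hδ₁ hvv
  obtain ⟨hne, hform⟩ := hform
  have hzz : C.w ^ 2 ^ (3 - 2) = C.z := by simp [z, pow_two]
  rw [hzz, C.card_cent_z', C.card_cent_z_t, C.card_cent_z_wt] at hform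
  have hG : Nat.card G = 8 * Nat.card C.Ap * Nat.card C.swap.Ap * (centralizer ({C.z} : Set G)).index := by
    rw [← C.card_cent_z', Subgroup.card_mul_index]
  have hdeg : ∀ χ : IrrCharacter G, (χ : G → ℂ) 1 = (charDegree (χ : G → ℂ) : ℂ) := fun χ =>
    (Cfsg.Agent.Lib.Char.Values.IsCharacter.charDegree_cast
      (Cfsg.Agent.Lib.Char.Basic.isCharacter_of_isIrrCharacter χ.2)).symm
  have hpos : ∀ χ : IrrCharacter G, 0 < charDegree (χ : G → ℂ) := fun χ =>
    Cfsg.Agent.Lib.Char.Codegree.charDegree_pos χ.2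
  -- values
  have v1 := hvals 1 (by norm_num) (by norm_num)
  have v2 := hvals 2 (by norm_num) (by norm_num)
  have hw1 : (χ₁ : G → ℂ) C.w = δ₁ := by simpa using v1.1
  have hw2 : (χ₂ : G → ℂ) C.w = δ₂ := by simpa using v1.2.1
  have hw3 : (χ₃ : G → ℂ) C.w = δ₃ := by simpa using v1.2.2.1
  have hz1 : (χ₁ : G → ℂ) C.z = δ₁ := by
    have := v2.1; rwa [pow_two] at this
  have hz2 : (χ₂ : G → ℂ) C.z = -δ₂ := by
    have := v2.2.1; rw [pow_two] at this
    change (χ₂ : G → ℂ) (C.w * C.w) = _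
    rw [this]; norm_num
  have hz3 : (χ₃ : G → ℂ) C.z = -δ₃ := by
    have := v2.2.2.1; rw [pow_two] at this
    change (χ₃ : G → ℂ) (C.w * C.w) = _
    rw [this]; norm_num
  have hrel := (hodd 1 (by simp) ⟨0, by norm_num⟩).1
  rw [hdeg, hdeg, hdeg] at hrel
  set x := charDegree (χ₁ : G → ℂ) with hx
  set x₂ := charDegree (χ₂ : G → ℂ) with hx₂
  set x₃ := charDegree (χ₃ : G → ℂ) with hx₃
  set a := Nat.card C.Ap with ha
  set b := Nat.card C.swap.Ap with hb
  set I := (centralizer ({C.z} : Set G)).index with hI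
  have ha0 : 0 < a := Nat.card_pos
  have hb0 : 0 < b := Nat.card_pos
  have hx0 : 0 < x := hpos χ₁
  have hx₂0 : 0 < x₂ := hpos χ₂
  have hx₃0 : 0 < x₃ := hpos χ₃
  have e1 := Arith.delta_sq hδ₁
  have e2 := Arith.delta_sq hδ₂
  have e3 := Arith.delta_sq hδ₃
  -- the order formula
  have hQ : (I : ℚ) * ((x : ℚ) - δ₁) ^ 2 = 8 * x * (x + δ₁) * ((a : ℚ) + b) ^ 2 := by
    have ha0' : (a : ℚ) ≠ 0 := by positivity
    have hb0' : (b : ℚ) ≠ 0 := by positivity
    rw [hG] at hform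
    push_cast at hform
    have h1 : (1 / (4 * (a : ℚ)) + 1 / (4 * (b : ℚ))) = (a + b) / (4 * a * b) := by
      field_simp
      ring
    rw [h1] at hform
    have h2 : 8 * (a : ℚ) * b * ((I : ℚ) * ((x : ℚ) - δ₁) ^ 2) =
        8 * (a : ℚ) * b * (8 * x * (x + δ₁) * ((a : ℚ) + b) ^ 2) := by
      calc 8 * (a : ℚ) * b * ((I : ℚ) * ((x : ℚ) - δ₁) ^ 2)
          = 8 * (a : ℚ) * b * I * ((x : ℚ) - δ₁) ^ 2 := by ring
        _ = _ := hform
        _ = _ := by field_simp; ring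
    exact mul_left_cancel₀ (by positivity) h2
  have hZ1 : (I : ℤ) * ((x : ℤ) - δ₁) ^ 2 = 8 * x * (x + δ₁) * ((a : ℤ) + b) ^ 2 := by
    exact_mod_cast hQ
  have hrelZ : 1 + δ₁ * (x : ℤ) = -δ₂ * x₂ - δ₃ * x₃ := by
    exact_mod_cast hrel
  -- the column relation
  let χ0 : IrrCharacter G := ⟨fun _ => 1, Cfsg.Agent.Lib.Char.Burnside2.isIrrCharacter_one⟩
  have h01 : χ0 ≠ χ₁ := fun h => hne1 (by rw [← h])
  have h02 : χ0 ≠ χ₂ := fun h => hne2 (by rw [← h])
  have h03 : χ0 ≠ χ₃ := fun h => hne3 (by rw [← h])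
  let T : Finset (IrrCharacter G) := {χ0, χ₁, χ₂, χ₃}
  have hn : ∀ δ : ℤ, (δ = 1 ∨ δ = -1) → Complex.normSq (δ : ℂ) = 1 := by
    intro δ h; rcases h with rfl | rfl <;> simp
  have hcol := Cfsg.Agent.Lib.Char.CompleteCor.column_orth_conj (G := G) (IsConj.refl C.w)
  rw [C.card_cent_w] at hcol
  have hsum : ∑ χ : IrrCharacter G, Complex.normSq ((χ : G → ℂ) C.w) = 4 := by
    have h1 : ((∑ χ : IrrCharacter G, Complex.normSq ((χ : G → ℂ) C.w) : ℝ) : ℂ) = ((4 : ℝ) : ℂ) := by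
      push_cast
      rw [show (4 : ℂ) = ((4 : ℕ) : ℂ) by norm_num, ← hcol]
      exact Finset.sum_congr rfl fun χ _ => (Complex.mul_conj _).symm
    exact_mod_cast h1
  have hsumT : ∑ χ ∈ T, Complex.normSq ((χ : G → ℂ) C.w) = 4 := by
    have hT : T = insert χ0 (insert χ₁ (insert χ₂ {χ₃})) := rfl
    rw [hT, Finset.sum_insert (by simp [h01, h02, h03]), Finset.sum_insert (by simp [h12, h13]),
      Finset.sum_insert (by simp [h23]), Finset.sum_singleton, hw1, hw2, hw3, hn _ hδ₁, hn _ hδ₂,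
      hn _ hδ₃]
    simp [χ0]
    norm_num
  have hzero : ∀ χ : IrrCharacter G, χ ∉ T → (χ : G → ℂ) C.w = 0 := by
    intro χ hχ
    have h1 := Finset.sum_sdiff (Finset.subset_univ T) (f := fun χ : IrrCharacter G =>
      Complex.normSq ((χ : G → ℂ) C.w))
    rw [hsum, hsumT] at h1
    have h2 : ∑ χ ∈ Finset.univ \ T, Complex.normSq ((χ : G → ℂ) C.w) = 0 := by linarith
    rw [Finset.sum_eq_zero_iff_of_nonneg (fun _ _ => Complex.normSq_nonneg _)] at h2
    have h3 := h2 χ (by simp [hχ])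
    exact Complex.normSq_eq_zero.1 h3
  -- the structure constant
  have hpairs := Cfsg.Agent.Lib.Char.ClassPair.card_pairs_eq_sum (G := G) C.z C.z C.w
  rw [C.card_pairs hc, C.card_cent_z'] at hpairs
  have hsum2 : ∑ χ : IrrCharacter G, (conj ((χ : G → ℂ) C.z * (χ : G → ℂ) C.z) / (χ : G → ℂ) 1) *
      (χ : G → ℂ) C.w = 1 + δ₁ / x + δ₂ / x₂ + δ₃ / x₃ := by
    have h1 : ∑ χ ∈ T, (conj ((χ : G → ℂ) C.z * (χ : G → ℂ) C.z) / (χ : G → ℂ) 1) * (χ : G → ℂ) C.w =
        ∑ χ : IrrCharacter G, (conj ((χ : G → ℂ) C.z * (χ : G → ℂ) C.z) / (χ : G → ℂ) 1) *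
          (χ : G → ℂ) C.w := by
      apply Finset.sum_subset (Finset.subset_univ T)
      intro χ _ hχ
      rw [hzero χ hχ, mul_zero]
    rw [← h1]
    have hT : T = insert χ0 (insert χ₁ (insert χ₂ {χ₃})) := rfl
    rw [hT, Finset.sum_insert (by simp [h01, h02, h03]), Finset.sum_insert (by simp [h12, h13]),
      Finset.sum_insert (by simp [h23]), Finset.sum_singleton, hw1, hw2, hw3, hz1, hz2, hz3,
      hdeg χ₁, hdeg χ₂, hdeg χ₃]
    have hs : ∀ δ : ℤ, (δ = 1 ∨ δ = -1) → conj ((δ : ℂ) * δ) = 1 := by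
      intro δ h; rcases h with rfl | rfl <;> simp
    have hs' : ∀ δ : ℤ, (δ = 1 ∨ δ = -1) → conj (-(δ : ℂ) * -δ) = 1 := by
      intro δ h; rcases h with rfl | rfl <;> simp
    rw [hs _ hδ₁, hs' _ hδ₂, hs' _ hδ₃]
    simp [χ0]
    ring
  rw [hsum2, hG] at hpairs
  have hx0' : (x : ℂ) ≠ 0 := by exact_mod_cast hx0.ne'
  have hx₂0' : (x₂ : ℂ) ≠ 0 := by exact_mod_cast hx₂0.ne'
  have hx₃0' : (x₃ : ℂ) ≠ 0 := by exact_mod_cast hx₃0.ne'
  have ha0' : (a : ℂ) ≠ 0 := by exact_mod_cast ha0.ne'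
  have hb0' : (b : ℂ) ≠ 0 := by exact_mod_cast hb0.ne'
  push_cast at hpairs
  have hC : (32 : ℂ) * a * b * x * x₂ * x₃ =
      I * (x * x₂ * x₃ + δ₁ * x₂ * x₃ + δ₂ * x * x₃ + δ₃ * x * x₂) := by
    have h2 : (8 : ℂ) * a * b * ((32 : ℂ) * a * b * x * x₂ * x₃) =
        8 * a * b * (I * (x * x₂ * x₃ + δ₁ * x₂ * x₃ + δ₂ * x * x₃ + δ₃ * x * x₂)) := by
      have h3 : (I : ℂ) * (x * x₂ * x₃ + δ₁ * x₂ * x₃ + δ₂ * x * x₃ + δ₃ * x * x₂) =
          I * (1 + δ₁ / x + δ₂ / x₂ + δ₃ / x₃) * (x * x₂ * x₃) := by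
        field_simp
      rw [h3]
      have h4 : (8 : ℂ) * a * b * (I * (1 + δ₁ / x + δ₂ / x₂ + δ₃ / x₃) * (x * x₂ * x₃)) =
          (8 * a * b * I * (1 + δ₁ / x + δ₂ / x₂ + δ₃ / x₃)) * (x * x₂ * x₃) := by ring
      rw [h4, ← hpairs]
      ring
    exact mul_left_cancel₀ (by simp [ha0', hb0']) h2
  have hCZ : (32 : ℤ) * a * b * x * x₂ * x₃ =
      I * (x * x₂ * x₃ + δ₁ * x₂ * x₃ + δ₂ * x * x₃ + δ₃ * x * x₂) := by
    exact_mod_cast hC
  refine ⟨x, -δ₂ * x₂, -δ₃ * x₃, δ₁, hδ₁, by exact_mod_cast hx0, hne, ?_, ?_, hZ1, by rw [hrelZ]; ring, ?_⟩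
  · rcases hδ₂ with rfl | rfl <;> simp [hx₂0.ne']
  · rcases hδ₃ with rfl | rfl <;> simp [hx₃0.ne']
  · linear_combination (-δ₂ * δ₃) * hCZ - x * I * δ₂ * x₂ * e3 - x * I * δ₃ * x₃ * e2


/-- The index of the centralizer of `z` is odd. -/
lemma odd_index : Odd (centralizer ({C.z} : Set G)).index := by
  haveI : Fact (Nat.Prime 2) := ⟨Nat.prime_two⟩
  have h1 : (centralizer ({C.z} : Set G)).index ∣ (C.S : Subgroup G).index :=
    Subgroup.index_dvd_of_le C.S_le_cent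
  have h2 := C.S.not_dvd_index
  exact (Nat.not_even_iff_odd.1 (fun h => h2 (even_iff_two_dvd.1 h))).of_dvd_nat h1

/-- The arithmetic consequences. -/
theorem arith_data (hD : Nonempty ((C.S : Subgroup G) ≃* DihedralGroup 4))
    (hc : ∀ x : G, orderOf x = 2 → IsConj C.z x) :
    ∃ x m n p q δ : ℤ, (δ = 1 ∨ δ = -1) ∧ 1 ≤ m ∧ 1 ≤ n ∧ Odd n ∧ x = 8 * m + δ ∧
      (Nat.card C.Ap : ℤ) + (Nat.card C.swap.Ap : ℤ) = 2 * n * m ∧
      ((centralizer ({C.z} : Set G)).index : ℤ) = n ^ 2 * x * (4 * m + δ) ∧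
      p + q = 1 + δ * x ∧
      p * q * ((n * (4 * m + δ)) ^ 2 - 16 * (Nat.card C.Ap : ℤ) * (Nat.card C.swap.Ap : ℤ)) =
        δ * x * (n * (4 * m + δ)) ^ 2 := by
  obtain ⟨x, p, q, δ, hδ, hx0, hxδ, hp, hq, h1, hpq, h3⟩ := C.chars hD hc
  have hI : Odd ((centralizer ({C.z} : Set G)).index : ℤ) := by exact_mod_cast C.odd_index
  have ha : Odd (Nat.card C.Ap : ℤ) := by exact_mod_cast C.odd_a
  have hb : Odd (Nat.card C.swap.Ap : ℤ) := by exact_mod_cast C.odd_b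
  have ha0 : 0 < (Nat.card C.Ap : ℤ) := by exact_mod_cast Nat.card_pos
  have hb0 : 0 < (Nat.card C.swap.Ap : ℤ) := by exact_mod_cast Nat.card_pos
  obtain ⟨m, n, hm, hn, hnodd, hx, hab, hI2⟩ := Arith.order_form hδ hI ha hb ha0 hb0 hx0 hxδ h1
  exact ⟨x, m, n, p, q, δ, hδ, hm, hn, hnodd, hx, hab, hI2, hpq,
    Arith.pq_form hδ hx0 hx hm hn hI2 hpq h3⟩

end Cfg

end Cfsg.Agent.Lib.SCent
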