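import Mathlib
import Cfsg.Agent.Lib.SCent.Iso

/-!
# No simple group of order 29160 has a subgroup of index 15
-/

set_option autoImplicit false

namespace Cfsg.Agent.Lib.SCent

open Subgroup

theorem factorization_fact15 : (Nat.factorial 15).factorization 3 = 6 := by
  have h : Nat.factorial 15 = 3 ^ 6 * 1793792000 := by decide
  rw [h, Nat.factorization_mul (by norm_num) (by norm_num), Finsupp.add_apply,
    Nat.Prime.factorization_pow (by norm_num), Finsupp.single_eq_same,
    Nat.factorization_eq_zero_of_not_dvd (by norm_num), add_zero]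

theorem factorization_29160 : (29160 : ℕ).factorization 3 = 6 := by
  have h : (29160 : ℕ) = 3 ^ 6 * 40 := by norm_num
  rw [h, Nat.factorization_mul (by norm_num) (by norm_num), Finsupp.add_apply,
    Nat.Prime.factorization_pow (by norm_num), Finsupp.single_eq_same,
    Nat.factorization_eq_zero_of_not_dvd (by norm_num), add_zero]

theorem no_29160 {G : Type*} [Group G] [Finite G] [IsSimpleGroup G] (N : Subgroup G)
    (hN : N.index = 15) (hG : Nat.card G = 29160) : False := by
  classical
  have hNtop : N ≠ ⊤ := by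
    rintro rfl
    rw [Subgroup.index_top] at hN
    omega
  let Ω := G ⧸ N
  haveI : Fintype Ω := Fintype.ofFinite _
  have hΩ : Fintype.card Ω = 15 := by
    rw [← Nat.card_eq_fintype_card]; exact hN
  have hcoatom : IsCoatom N := by
    refine ⟨hNtop, fun M hNM => ?_⟩
    by_contra hM
    have h1 : M.index ∣ 15 := by
      rw [← hN]; exact Subgroup.index_dvd_of_le hNM.le
    have h2 : M.index ≠ 1 := fun h => hM (Subgroup.index_eq_one.1 h)
    have h3 : M.index ≠ 15 := by
      intro h
      apply hNM.ne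
      apply Subgroup.eq_of_le_of_card_ge hNM.le
      have h4 := Subgroup.card_mul_index M
      have h5 := Subgroup.card_mul_index N
      rw [h, hG] at h4
      rw [hN, hG] at h5
      omega
    have h4 : M.index ≤ 15 := Nat.le_of_dvd (by norm_num) h1
    have h5 := card_dvd_factorial M hM
    rw [hG] at h5
    have h6 : M.index = 3 ∨ M.index = 5 := by
      interval_cases (M.index) <;> first | omega | exact absurd h1 (by decide)
    rcases h6 with h6 | h6 <;> rw [h6] at h5 <;> exact absurd h5 (by decide)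
  haveI : Nontrivial Ω := by
    apply Fintype.one_lt_card_iff_nontrivial.1
    rw [hΩ]; norm_num
  have hprim : MulAction.IsPreprimitive G Ω := by
    rw [← MulAction.isCoatom_stabilizer_iff_preprimitive G (((1 : G) : G ⧸ N) : Ω),
      MulAction.stabilizer_quotient]
    exact hcoatom
  let φ : G →* Equiv.Perm Ω := MulAction.toPermHom G Ω
  have hφ : Function.Injective φ := coset_hom_inj N hNtop
  let R : Subgroup (Equiv.Perm Ω) := φ.range
  have hcardR : Nat.card R = 29160 := by
    rw [← hG]
    exact (Nat.card_congr (MonoidHom.ofInjective hφ).toEquiv).symm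
  let f : Ω →ₑ[φ.rangeRestrict] Ω :=
    { toFun := id
      map_smul' := fun g x => rfl }
  have hprimR : MulAction.IsPreprimitive R Ω :=
    MulAction.IsPreprimitive.of_surjective (f := f) Function.surjective_id
  -- a three-cycle in the image
  obtain ⟨P⟩ : Nonempty (Sylow 3 G) := inferInstance
  have hPcard : Nat.card (P : Subgroup G) = 3 ^ 6 := by
    rw [P.card_eq_multiplicity, hG, factorization_29160]
  let Q : Subgroup (Equiv.Perm Ω) := (P : Subgroup G).map φ
  have hQcard : Nat.card Q = 3 ^ (Nat.card (Equiv.Perm Ω)).factorization 3 := by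
    rw [Subgroup.card_map_of_injective hφ, hPcard, Nat.card_eq_fintype_card (α := Equiv.Perm Ω),
      Fintype.card_perm, hΩ, factorization_fact15]
  let SQ : Sylow 3 (Equiv.Perm Ω) := Sylow.ofCard Q hQcard
  obtain ⟨a, b, c, hab, hac, hbc⟩ : ∃ a b c : Ω, a ≠ b ∧ a ≠ c ∧ b ≠ c := by
    have h1 : 2 < Fintype.card Ω := by rw [hΩ]; norm_num
    exact Fintype.two_lt_card_iff.1 h1
  let c₃ : Equiv.Perm Ω := Equiv.swap a b * Equiv.swap a c
  have hc₃ : c₃.IsThreeCycle := Equiv.Perm.isThreeCycle_swap_mul_swap_same hab hac hbc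
  have hQ3 : IsPGroup 3 (zpowers c₃) := by
    apply IsPGroup.of_card (n := 1)
    rw [Nat.card_zpowers, hc₃.orderOf, pow_one]
  obtain ⟨S₃, hS₃⟩ := hQ3.exists_le_sylow
  obtain ⟨g, hg⟩ := MulAction.exists_smul_eq (Equiv.Perm Ω) S₃ SQ
  have hmem : g * c₃ * g⁻¹ ∈ (SQ : Subgroup (Equiv.Perm Ω)) := by
    rw [← hg, Sylow.smul_def, Sylow.pointwise_smul_def]
    exact Subgroup.smul_mem_pointwise_smul _ (MulAut.conj g) _ (hS₃ (mem_zpowers c₃))
  have hmem' : g * c₃ * g⁻¹ ∈ Q := by
    have : (SQ : Subgroup (Equiv.Perm Ω)) = Q := Sylow.coe_ofCard Q hQcard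
    rwa [this] at hmem
  have hc₃' : (g * c₃ * g⁻¹).IsThreeCycle := by
    unfold Equiv.Perm.IsThreeCycle at hc₃ ⊢
    rw [Equiv.Perm.cycleType_conj]
    exact hc₃
  have hmemR : g * c₃ * g⁻¹ ∈ R := by
    obtain ⟨y, -, hy⟩ := hmem'
    exact ⟨y, hy⟩
  have hle := Equiv.Perm.alternatingGroup_le_of_isPreprimitive_of_isThreeCycle_mem hprimR hc₃' hmemR
  have hcard := Subgroup.card_le_of_le hle
  rw [hcardR] at hcard
  have h2 := two_mul_nat_card_alternatingGroup (α := Ω)
  rw [Nat.card_eq_fintype_card (α := Equiv.Perm Ω), Fintype.card_perm, hΩ] at h2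
  have h3 : Nat.factorial 15 = 1307674368000 := by decide
  omega

end Cfsg.Agent.Lib.SCent
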