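import Mathlib
import Cfsg.Agent.Lib.SCent.Local2

/-!
# The centralizer of `u` in `N`
-/

set_option autoImplicit false

namespace Cfsg.Agent.Lib.SCent

open Subgroup

namespace Cfg

variable {G : Type*} [Group G] [Finite G] (C : Cfg G)

/-- Subgroups of `C(z)`: the part outside `A` is a 2-group. -/
theorem card_sub_cent (K : Subgroup G) (hK : K ≤ centralizer ({C.z} : Set G)) :
    ∃ j : ℕ, Nat.card K = Nat.card (K ⊓ C.A : Subgroup G) * 2 ^ j := by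
  classical
  set Cz := centralizer ({C.z} : Set G) with hCz
  let A' : Subgroup Cz := C.A.subgroupOf Cz
  haveI hA' : A'.Normal := by
    constructor
    rintro ⟨a, ha⟩ ha' ⟨g, hg⟩
    exact C.normal_A (C.mem_cent_z.1 hg) ha'
  have hcardA' : Nat.card A' = Nat.card C.A :=
    Nat.card_congr (Subgroup.subgroupOfEquivOfLe C.A_le_cent).toEquiv
  have hidx : A'.index = 8 := by
    have h1 := Subgroup.card_mul_index A'
    rw [hcardA', C.card_cent_z] at h1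
    exact Nat.eq_of_mul_eq_mul_left Nat.card_pos h1
  let K' : Subgroup Cz := K.subgroupOf Cz
  have hcardK' : Nat.card K' = Nat.card K :=
    Nat.card_congr (Subgroup.subgroupOfEquivOfLe hK).toEquiv
  let φ : K' →* Cz ⧸ A' := (QuotientGroup.mk' A').comp K'.subtype
  have h1 := Subgroup.card_mul_index φ.ker
  rw [Subgroup.index_ker] at h1
  have h2 : Nat.card φ.range ∣ 2 ^ 3 := by
    have h3 : Nat.card φ.range ∣ Nat.card (Cz ⧸ A') := Subgroup.card_subgroup_dvd_card _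
    have h4 : Nat.card (Cz ⧸ A') = 8 := hidx
    rw [h4] at h3
    exact h3
  obtain ⟨j, -, hj⟩ := (Nat.dvd_prime_pow Nat.prime_two).1 h2
  refine ⟨j, ?_⟩
  rw [← hcardK', ← h1, hj]
  congr 1
  refine Nat.card_congr ⟨fun x => ⟨x.1.1.1, ⟨x.1.2, ?_⟩⟩, fun y => ⟨⟨⟨y.1, hK y.2.1⟩, y.2.1⟩, ?_⟩, ?_, ?_⟩
  · have h3 : φ x.1 = 1 := x.2
    have h4 : ((x.1.1 : Cz) : Cz ⧸ A') = 1 := h3
    rw [QuotientGroup.eq_one_iff] at h4
    exact h4
  · rw [MonoidHom.mem_ker]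
    change ((⟨y.1, hK y.2.1⟩ : Cz) : Cz ⧸ A') = 1
    rw [QuotientGroup.eq_one_iff]
    exact y.2.2
  · rintro ⟨⟨⟨x, hx⟩, hx'⟩, hx''⟩
    rfl
  · rintro ⟨y, hy⟩
    rfl

theorem conj_orderOf' (g x : G) : orderOf (g⁻¹ * x * g) = orderOf x := by
  have := conj_orderOf g⁻¹ x
  rwa [inv_inv] at this

section Sigma

variable {C} {σ : G} (hσA : ∀ β ∈ C.swap.Ap, σ * β * σ⁻¹ = β) (hσz : σ * C.z * σ⁻¹ = C.u)
  (hσu : σ * C.u * σ⁻¹ = C.u * C.z)

include hσz in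
lemma sigma_inv_u : σ⁻¹ * C.u * σ = C.z := by
  rw [← hσz]; exact inv_conj_conj σ C.z

include hσz hσu in
lemma sigma_uz : σ * (C.u * C.z) * σ⁻¹ = C.z := by
  rw [← conj_mul_conj, hσu, hσz, mul_assoc, C.z_comm_u, ← mul_assoc, C.u_u, one_mul]

include hσz hσu in
lemma sigma_inv_z : σ⁻¹ * C.z * σ = C.u * C.z := by
  nth_rw 1 [← sigma_uz hσz hσu]
  exact inv_conj_conj σ _

include hσu in
lemma sigma_inv_uz : σ⁻¹ * (C.u * C.z) * σ = C.u := by
  rw [← hσu]; exact inv_conj_conj σ C.u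

include hσA in
lemma sigma_inv_A {β : G} (hβ : β ∈ C.swap.Ap) : σ⁻¹ * β * σ = β := by
  nth_rw 1 [← hσA β hβ]
  exact inv_conj_conj σ β

/-- The conjugate of `A` in `C(u)`. -/
def Au (C : Cfg G) (σ : G) : Subgroup G := C.A.map (MulAut.conj σ).toMonoidHom

lemma mem_Au {x : G} : x ∈ Au C σ ↔ σ⁻¹ * x * σ ∈ C.A := by
  constructor
  · rintro ⟨y, hy, rfl⟩
    change σ⁻¹ * (σ * y * σ⁻¹) * σ ∈ C.A
    rwa [inv_conj_conj]
  · intro h
    exact ⟨_, h, conj_inv_conj σ x⟩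

lemma card_Au : Nat.card (Au C σ) = Nat.card C.A :=
  Subgroup.card_map_of_injective (MulAut.conj σ).injective

include hσz in
lemma Au_comm_u {x : G} (hx : x ∈ Au C σ) : x * C.u = C.u * x := by
  obtain ⟨y, hy, rfl⟩ := hx
  rw [← hσz]
  exact conj_commute (C.A_comm_z hy)

include hσz in
/-- Elements of odd order of `C(u)` lie in `Au`. -/
lemma mem_Au_of_odd {x : G} (hx : x * C.u = C.u * x) (ho : Odd (orderOf x)) : x ∈ Au C σ := by
  rw [mem_Au]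
  apply C.mem_A_of_odd
  · have := conj_commute (g := σ⁻¹) hx
    rwa [conj_inv_inv, conj_inv_inv, sigma_inv_u hσz] at this
  · rw [conj_orderOf']
    exact ho

/-- The subgroup `P₀` of `A₊`. -/
def P0 (C : Cfg G) (σ : G) : Subgroup G :=
  C.Ap ⊓ C.Hc.comap (MulAut.conj σ).toMonoidHom

lemma mem_P0 {α : G} : α ∈ P0 C σ ↔ α ∈ C.Ap ∧ σ * α * σ⁻¹ ∈ C.Hc := Iff.rfl

include hσA in
theorem card_L : Nat.card (Au C σ ⊓ C.Hc : Subgroup G) =
    Nat.card (P0 C σ) * Nat.card C.swap.Ap := by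
  have h1 : Nat.card (P0 C σ) = Nat.card ((P0 C σ).map (MulAut.conj σ).toMonoidHom) :=
    (Subgroup.card_map_of_injective (MulAut.conj σ).injective).symm
  rw [h1]
  apply card_of_decomp
  · rintro _ ⟨α, hα, rfl⟩
    exact ⟨⟨α, (C.mem_Ap.1 hα.1).1, rfl⟩, hα.2⟩
  · intro β hβ
    have hβA := (C.mem_swap_Ap.1 hβ).1
    exact ⟨⟨β, hβA, hσA β hβ⟩, C.A_le_Hc hβA⟩
  · rw [eq_bot_iff]
    rintro _ ⟨⟨α, hα, rfl⟩, h2⟩
    have h3 : σ * α * σ⁻¹ ∈ C.swap.Ap := h2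
    have h4 : α = σ * α * σ⁻¹ := by
      have := sigma_inv_A hσA h3
      rwa [inv_conj_conj] at this
    have h5 : α ∈ C.Ap ⊓ C.swap.Ap := ⟨hα.1, by rw [h4]; exact h3⟩
    rw [C.Ap_inf_Am, Subgroup.mem_bot] at h5
    rw [Subgroup.mem_bot]
    change σ * α * σ⁻¹ = 1
    rw [h5]; group
  · rintro x ⟨hx, hxH⟩
    have h2 := mem_Au.1 hx
    obtain ⟨α, hα, β, hβ, h3⟩ := C.A_decomp _ h2
    have h4 : x = (σ * α * σ⁻¹) * β := by
      have h5 : x = σ * (σ⁻¹ * x * σ) * σ⁻¹ := (conj_inv_conj σ x).symm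
      rw [h5, h3, ← conj_mul_conj, hσA β hβ]
    refine ⟨σ * α * σ⁻¹, ⟨α, ⟨hα, ?_⟩, rfl⟩, β, hβ, h4⟩
    have h6 : σ * α * σ⁻¹ = x * β⁻¹ := by rw [h4]; group
    change σ * α * σ⁻¹ ∈ C.Hc
    rw [h6]
    exact mul_mem hxH (inv_mem (C.A_le_Hc (C.mem_swap_Ap.1 hβ).1))

lemma odd_L {x : G} (hx : x ∈ Au C σ) : Odd (orderOf x) := by
  obtain ⟨y, hy, rfl⟩ := hx
  change Odd (orderOf (σ * y * σ⁻¹))
  rw [conj_orderOf]
  exact C.odd_of_mem_A hy

include hσz in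
/-- The order of the centralizer of `u` in `N`. -/
theorem card_K (ha : 1 < Nat.card C.Ap) :
    Nat.card (C.Nc ⊓ centralizer ({C.u} : Set G) : Subgroup G) =
      4 * Nat.card (Au C σ ⊓ C.Hc : Subgroup G) := by
  haveI : Fact (Nat.Prime 2) := ⟨Nat.prime_two⟩
  set K : Subgroup G := C.Nc ⊓ centralizer ({C.u} : Set G) with hK
  let K' : Subgroup G := K.map (MulAut.conj σ⁻¹).toMonoidHom
  have hK'le : K' ≤ centralizer ({C.z} : Set G) := by
    rintro _ ⟨x, hx, rfl⟩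
    have h1 : x * C.u = C.u * x := mem_centralizer_singleton_iff.1 hx.2
    rw [mem_centralizer_singleton_iff, ← sigma_inv_u hσz]
    change σ⁻¹ * x * σ⁻¹⁻¹ * (σ⁻¹ * C.u * σ) = (σ⁻¹ * C.u * σ) * (σ⁻¹ * x * σ⁻¹⁻¹)
    have := conj_commute (g := σ⁻¹) h1
    simp only [inv_inv] at this ⊢
    exact this
  obtain ⟨j, hj⟩ := C.card_sub_cent K' hK'le
  have hcK' : Nat.card K' = Nat.card K := Subgroup.card_map_of_injective (MulAut.conj σ⁻¹).injective
  have hinf : (K' ⊓ C.A : Subgroup G).map (MulAut.conj σ).toMonoidHom = Au C σ ⊓ C.Hc := by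
    ext y
    constructor
    · rintro ⟨x, ⟨⟨x₀, hx₀, rfl⟩, hxA⟩, rfl⟩
      have hxA' : σ⁻¹ * x₀ * σ⁻¹⁻¹ ∈ C.A := hxA
      have hy : σ * (σ⁻¹ * x₀ * σ⁻¹⁻¹) * σ⁻¹ = x₀ := by group
      change σ * (σ⁻¹ * x₀ * σ⁻¹⁻¹) * σ⁻¹ ∈ _
      rw [hy]
      have h1 : x₀ ∈ Au C σ := by
        rw [mem_Au, ← conj_inv_inv]; exact hxA'
      exact ⟨h1, C.mem_Hc_of_odd ha hx₀.1 (odd_L h1)⟩
    · rintro ⟨hy, hyH⟩
      have h1 : y ∈ K := ⟨C.Hc_le_Nc hyH, mem_centralizer_singleton_iff.2 (Au_comm_u hσz hy)⟩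
      refine ⟨σ⁻¹ * y * σ, ⟨⟨y, h1, ?_⟩, mem_Au.1 hy⟩, conj_inv_conj σ y⟩
      change σ⁻¹ * y * σ⁻¹⁻¹ = _
      rw [inv_inv]
  have hcL : Nat.card (K' ⊓ C.A : Subgroup G) = Nat.card (Au C σ ⊓ C.Hc : Subgroup G) := by
    rw [← hinf]
    exact (Subgroup.card_map_of_injective (MulAut.conj σ).injective).symm
  rw [hcK', hcL] at hj
  have hLodd : Odd (Nat.card (Au C σ ⊓ C.Hc : Subgroup G)) := by
    have h1 : Nat.card (Au C σ ⊓ C.Hc : Subgroup G) ∣ Nat.card (Au C σ) :=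
      Subgroup.card_dvd_of_le inf_le_left
    rw [card_Au] at h1
    exact C.hAodd.of_dvd_nat h1
  -- `4` divides the order
  have h4 : 4 ∣ Nat.card K := by
    have hle : C.swap.V ≤ K := by
      intro s hs
      have hsS : s ∈ (C.S : Subgroup G) := C.swap.V_le_S hs
      exact ⟨C.S_le_Nc hsS, hs.2⟩
    rw [← C.swap.card_V]
    exact Subgroup.card_dvd_of_le hle
  -- `8` does not
  have h8 : ¬ 8 ∣ Nat.card K := by
    intro h8
    obtain ⟨Q, hQ⟩ := Sylow.exists_subgroup_card_pow_prime (G := K) 2 (n := 3) (by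
      simpa using h8)
    let Q' : Subgroup G := Q.map K.subtype
    have hQ'c : Nat.card Q' = 8 := by
      rw [Subgroup.card_map_of_injective K.subtype_injective, hQ]; norm_num
    have hQ'p : IsPGroup 2 Q' := by
      apply IsPGroup.of_card (n := 3)
      rw [hQ'c]; norm_num
    have hQ'N : Q' ≤ C.Nc := by
      rintro _ ⟨x, -, rfl⟩
      exact x.2.1
    obtain ⟨h, hh, hS⟩ := exists_conj_into_sylow C.Nc C.S C.S_le_Nc Q' hQ'N hQ'p
    have hmapeq : Q'.map (MulAut.conj h).toMonoidHom = (C.S : Subgroup G) := by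
      apply Subgroup.eq_of_le_of_card_ge
      · rintro _ ⟨y, hy, rfl⟩
        exact hS y hy
      · rw [Subgroup.card_map_of_injective (MulAut.conj h).injective, hQ'c, C.hcardS]
    have hcomm : ∀ s ∈ (C.S : Subgroup G), s * (h * C.u * h⁻¹) = (h * C.u * h⁻¹) * s := by
      intro s hs
      rw [← hmapeq] at hs
      obtain ⟨y, ⟨x, -, rfl⟩, rfl⟩ := hs
      have h1 : (x : G) * C.u = C.u * x := mem_centralizer_singleton_iff.1 x.2.2
      exact conj_commute h1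
    have h5 : h * C.u * h⁻¹ ∈ zpowers C.w := by
      apply C.hcw
      exact (hcomm C.w C.hwS).symm
    have h6 := hcomm C.t C.htS
    have h7 : h * C.u * h⁻¹ ∈ C.V := by
      refine ⟨(zpowers_le.2 C.hwS) h5, ?_⟩
      change _ ∈ centralizer ({C.t} : Set G)
      rw [mem_centralizer_singleton_iff]
      exact h6.symm
    have h8 : h * C.u * h⁻¹ ∈ C.Hc := C.V_le_Hc h7
    apply C.u_notMem_Hc ha
    have h9 := C.Hc_normal (inv_mem hh) h8
    rwa [conj_inv_inv, inv_conj_conj] at h9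
  have hc4 : Nat.Coprime (2 ^ 2) (Nat.card (Au C σ ⊓ C.Hc : Subgroup G)) :=
    (Nat.coprime_two_left.2 hLodd).pow_left 2
  have hj2 : j = 2 := by
    have h5 : 2 ^ 2 ∣ 2 ^ j := by
      apply hc4.dvd_of_dvd_mul_left
      rw [← hj]; simpa using h4
    have h6 : 2 ≤ j := (Nat.pow_dvd_pow_iff_le_right (by norm_num)).1 h5
    by_contra hne
    apply h8
    rw [hj]
    have h7 : 2 ^ 3 ∣ 2 ^ j := Nat.pow_dvd_pow 2 (by omega)
    exact Dvd.dvd.mul_left h7 _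
  rw [hj, hj2, mul_comm]
  norm_num

end Sigma

end Cfg

end Cfsg.Agent.Lib.SCent
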