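import Mathlib
import Cfsg.Agent.Lib.SCent.Local3

/-!
# Counting the involutions of `N` outside `H`
-/

set_option autoImplicit false

namespace Cfsg.Agent.Lib.SCent

open Subgroup

namespace Cfg

variable {G : Type*} [Group G] [Finite G] {C : Cfg G}

/-- Square roots in `A₊`. -/
lemma exists_sqrt_Ap (C : Cfg G) {y : G} (hy : y ∈ C.Ap) : ∃ r ∈ C.Ap, r * r = y := by
  obtain ⟨k, hk⟩ := C.hAodd
  refine ⟨y ^ (k + 1), pow_mem hy _, ?_⟩
  have h1 : y ^ Nat.card C.A = 1 := by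
    apply orderOf_dvd_iff_pow_eq_one.1
    have h : orderOf (⟨y, (C.mem_Ap.1 hy).1⟩ : C.A) ∣ Nat.card C.A := orderOf_dvd_natCard _
    rwa [Subgroup.orderOf_mk] at h
  rw [← pow_add, show k + 1 + (k + 1) = Nat.card C.A + 1 by omega, pow_succ, h1, one_mul]

lemma mem_Ap_of_u_inv (C : Cfg G) {γ : G} (hγ : γ ∈ C.A) (h : C.u * γ * C.u⁻¹ = γ⁻¹) : γ ∈ C.Ap := by
  rw [mem_Ap]
  refine ⟨hγ, ?_⟩
  have h1 : C.u * γ * C.u⁻¹ = C.t * γ⁻¹ * C.t := by
    unfold u
    rw [conj_conj', C.w_act hγ, C.t_inv]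
  rw [h1] at h
  have h2 : C.t * γ⁻¹ * C.t = (C.t * γ * C.t)⁻¹ := by
    have := conj_inv' C.t γ
    rwa [C.t_inv] at this
  rw [h2, inv_inj] at h
  exact h

lemma u_conj_z_comm (C : Cfg G) {γ : G} (hγ : γ ∈ C.A) :
    (C.u * C.z) * γ * (C.u * C.z)⁻¹ = C.u * γ * C.u⁻¹ := by
  have h : C.z * γ * C.z⁻¹ = γ := by
    rw [← C.A_comm_z hγ]; simp
  rw [conj_conj', h]

lemma t_u_t (C : Cfg G) : C.t * C.u * C.t⁻¹ = C.u * C.z := by
  rw [C.t_inv, ← C.wt_eq_uz]
  unfold u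
  rw [← mul_assoc, C.ht, one_mul]

lemma t_mul_u (C : Cfg G) : C.t * C.u = C.w := by
  unfold u
  rw [← mul_assoc, C.ht, one_mul]

/-- `wi(tz)w = t`. -/
lemma wi_tz_w (C : Cfg G) : C.w⁻¹ * (C.t * C.z) * C.w = C.t := by
  rw [← C.w_mul_t]; exact inv_conj_conj _ _

lemma uz_sq (C : Cfg G) : (C.u * C.z) * (C.u * C.z) = 1 := by
  calc (C.u * C.z) * (C.u * C.z) = C.u * (C.z * C.u) * C.z := by group
    _ = C.u * (C.u * C.z) * C.z := by rw [C.z_comm_u]
    _ = (C.u * C.u) * (C.z * C.z) := by group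
    _ = 1 := by rw [C.u_u, C.z_z, one_mul]

lemma orderOf_t_self (C : Cfg G) : orderOf C.t = 2 :=
  orderOf_eq_prime (p := 2) (by rw [pow_two, C.ht]) C.t_ne_one

section Main

variable {τ σ : G} (ha : 1 < Nat.card C.Ap) (hτH : τ ∈ C.Hc) (hτz : τ * C.z * τ⁻¹ = C.t)
  (hτt : τ * C.t * τ⁻¹ = C.t * C.z)
  (hσA : ∀ β ∈ C.swap.Ap, σ * β * σ⁻¹ = β) (hσz : σ * C.z * σ⁻¹ = C.u)
  (hσu : σ * C.u * σ⁻¹ = C.u * C.z)

/-- The first kind of involutions. -/
def O1 (C : Cfg G) (τ : G) : Set G :=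
  {y | ∃ c ∈ centralizer ({C.z} : Set G), c * (τ⁻¹ * C.u * τ) * c⁻¹ = y}

/-- The element `β tᵉ`. -/
def cc (C : Cfg G) (β : G) (e : Bool) : G := β * (if e then C.t else 1)

/-- The second kind of involutions. -/
def Phi (C : Cfg G) (σ : G) (x : C.Ap × Bool × P0 C σ) : G :=
  cc C x.1 x.2.1 * (C.z * C.u * (σ * (x.2.2 : G) * σ⁻¹)) * (cc C x.1 x.2.1)⁻¹

lemma cc_mem_Hc (β : C.Ap) (e : Bool) : cc C β e ∈ C.Hc := by
  unfold cc
  apply mul_mem (C.A_le_Hc (C.mem_Ap.1 β.2).1)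
  cases e
  · simp
  · simpa using C.t_mem_Hc

lemma cc_comm_z (β : C.Ap) (e : Bool) : cc C β e * C.z = C.z * cc C β e := by
  unfold cc
  have h := C.A_comm_z (C.mem_Ap.1 β.2).1
  cases e
  · simpa using h
  · simp only [if_true]
    rw [mul_assoc, C.zt.symm, ← mul_assoc, h, mul_assoc]

include hσz in
lemma rho_comm_u {ε : G} (hε : ε ∈ P0 C σ) : (σ * ε * σ⁻¹) * C.u = C.u * (σ * ε * σ⁻¹) := by
  rw [← hσz]
  exact conj_commute (C.A_comm_z (C.mem_Ap.1 hε.1).1)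

lemma rho_mem {ε : G} (hε : ε ∈ P0 C σ) : σ * ε * σ⁻¹ ∈ C.Hc := hε.2

lemma rho_odd {ε : G} (hε : ε ∈ P0 C σ) : Odd (orderOf (σ * ε * σ⁻¹)) := by
  rw [conj_orderOf]
  exact C.odd_of_mem_A (C.mem_Ap.1 hε.1).1

include hσz hσu in
lemma rho_inv {ε : G} (hε : ε ∈ P0 C σ) : C.z * (σ * ε * σ⁻¹) * C.z⁻¹ = (σ * ε * σ⁻¹)⁻¹ := by
  have h0 := sigma_uz hσz hσu
  have hA := (C.mem_Ap.1 hε.1).1
  have h1 : C.z * (σ * ε * σ⁻¹) * C.z⁻¹ = σ * ((C.u * C.z) * ε * (C.u * C.z)⁻¹) * σ⁻¹ := by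
    have h2 : ∀ a b : G, (σ * a * σ⁻¹) * (σ * b * σ⁻¹) * (σ * a * σ⁻¹)⁻¹ = σ * (a * b * a⁻¹) * σ⁻¹ := by
      intro a b; group
    rw [← h2, h0]
  rw [h1, C.u_conj_z_comm hA, C.u_act hε.1, conj_inv']

include hσz hσu in
/-- The involution `z u ρ`. -/
lemma x0_sq {ε : G} (hε : ε ∈ P0 C σ) :
    (C.z * C.u * (σ * ε * σ⁻¹)) * (C.z * C.u * (σ * ε * σ⁻¹)) = 1 := by
  set ρ := σ * ε * σ⁻¹ with hρ
  have h1 : ρ * C.u = C.u * ρ := rho_comm_u hσz hε
  have h2 : C.z * ρ * C.z⁻¹ = ρ⁻¹ := rho_inv hσz hσu hε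
  have h3 : C.z * ρ = ρ⁻¹ * C.z := by
    rw [mul_inv_eq_iff_eq_mul] at h2; exact h2
  calc C.z * C.u * ρ * (C.z * C.u * ρ) = C.z * C.u * (ρ * C.z) * C.u * ρ := by group
    _ = C.z * C.u * (C.z * ρ⁻¹) * C.u * ρ := by
        have h4 : ρ * C.z = C.z * ρ⁻¹ := by
          rw [← h2, C.z_inv]
          calc ρ * C.z = (C.z * C.z) * ρ * C.z := by rw [C.z_z, one_mul]
            _ = _ := by group
        rw [h4]
    _ = (C.z * C.u * C.z) * (ρ⁻¹ * C.u) * ρ := by group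
    _ = (C.z * C.u * C.z) * (C.u * ρ⁻¹) * ρ := by
        have h6 : ρ⁻¹ * C.u = C.u * ρ⁻¹ := by
          rw [eq_mul_inv_iff_mul_eq, mul_assoc, ← h1, ← mul_assoc]; simp
        rw [h6]
    _ = (C.z * C.u * C.z * C.u) := by group
    _ = 1 := by
        rw [mul_assoc C.z, C.z_comm_u.symm, ← mul_assoc, C.z_z, one_mul, C.u_u]

include ha hτH in
lemma O1_sub : O1 C τ ⊆ C.Vs := by
  rintro _ ⟨c, hc, rfl⟩
  have hcN := C.cent_le_Nc (C.mem_cent_z.1 hc)
  have hu₁N : τ⁻¹ * C.u * τ ∈ C.Nc := by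
    have := mul_mem (mul_mem (inv_mem (C.Hc_le_Nc hτH)) C.u_mem_Nc) (C.Hc_le_Nc hτH)
    exact this
  refine ⟨mul_mem (mul_mem hcN hu₁N) (inv_mem hcN), ?_, ?_⟩
  · intro h
    have h1 := C.Hc_normal (inv_mem hcN) h
    rw [conj_inv_inv, inv_conj_conj] at h1
    have h2 := C.Hc_normal (C.Hc_le_Nc hτH) h1
    rw [conj_inv_conj] at h2
    exact C.u_notMem_Hc ha h2
  · apply conj_sq
    have := conj_sq (g := τ⁻¹) C.u_u
    rwa [conj_inv_inv] at this

include ha hσz hσu in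
lemma Phi_sub (x : C.Ap × Bool × P0 C σ) : Phi C σ x ∈ C.Vs := by
  obtain ⟨β, e, ε⟩ := x
  have hc := cc_mem_Hc β e
  have hcN := C.Hc_le_Nc hc
  have hρ := rho_mem (σ := σ) ε.2
  have hx0N : C.z * C.u * (σ * (ε : G) * σ⁻¹) ∈ C.Nc :=
    mul_mem (mul_mem (C.Hc_le_Nc C.z_mem_Hc) C.u_mem_Nc) (C.Hc_le_Nc hρ)
  refine ⟨mul_mem (mul_mem hcN hx0N) (inv_mem hcN), ?_, conj_sq (x0_sq hσz hσu ε.2)⟩
  intro h
  have h' : cc C β e * (C.z * C.u * (σ * (ε : G) * σ⁻¹)) * (cc C β e)⁻¹ ∈ C.Hc := h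
  have h1 := C.Hc_normal (inv_mem hcN) h'
  rw [conj_inv_inv, inv_conj_conj] at h1
  apply C.u_notMem_Hc ha
  have h2 := mul_mem (mul_mem (inv_mem C.z_mem_Hc) h1) (inv_mem hρ)
  have h3 : C.z⁻¹ * (C.z * C.u * (σ * (ε : G) * σ⁻¹)) * (σ * (ε : G) * σ⁻¹)⁻¹ = C.u := by group
  rwa [h3] at h2


omit ha in
lemma z_mul_conj {c x : G} (hc : c * C.z = C.z * c) :
    C.z * (c * (C.z * x) * c⁻¹) = c * x * c⁻¹ := by
  have h1 : c * C.z * c⁻¹ = C.z := by rw [hc]; simp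
  calc C.z * (c * (C.z * x) * c⁻¹) = (c * C.z * c⁻¹) * (c * (C.z * x) * c⁻¹) := by rw [h1]
    _ = c * (C.z * (C.z * x)) * c⁻¹ := by group
    _ = c * x * c⁻¹ := by
        have h2 : C.z * (C.z * x) = x := by rw [← mul_assoc, C.z_z, one_mul]
        rw [h2]

lemma cc_conj_u (β : C.Ap) (e : Bool) :
    cc C β e * C.u * (cc C β e)⁻¹ = (β : G) * β * (if e then C.u * C.z else C.u) := by
  have hβA := (C.mem_Ap.1 β.2).1
  have h1 : C.u * (β : G)⁻¹ * C.u⁻¹ = β := by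
    rw [conj_inv', C.u_act β.2, inv_inv]
  have h2 : (C.u * C.z) * (β : G)⁻¹ * (C.u * C.z)⁻¹ = β := by
    rw [C.u_conj_z_comm (inv_mem hβA), h1]
  unfold cc
  cases e
  · simp only [Bool.false_eq_true, if_false, mul_one]
    calc (β : G) * C.u * (β : G)⁻¹ = β * (C.u * (β : G)⁻¹ * C.u⁻¹) * C.u := by group
      _ = _ := by rw [h1]
  · simp only [if_true]
    have h3 : (β : G) * C.t * C.u * ((β : G) * C.t)⁻¹ = β * (C.t * C.u * C.t⁻¹) * (β : G)⁻¹ := by group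
    rw [h3, C.t_u_t]
    calc (β : G) * (C.u * C.z) * (β : G)⁻¹ = β * ((C.u * C.z) * (β : G)⁻¹ * (C.u * C.z)⁻¹) * (C.u * C.z) := by
          group
      _ = _ := by rw [h2]

omit ha in
include hσz hσu in
theorem Phi_inj : Function.Injective (Phi C σ) := by
  rintro ⟨β, e, ε⟩ ⟨β', e', ε'⟩ h
  have h' : cc C β e * (C.z * C.u * (σ * (ε : G) * σ⁻¹)) * (cc C β e)⁻¹ =
    cc C β' e' * (C.z * C.u * (σ * (ε' : G) * σ⁻¹)) * (cc C β' e')⁻¹ := h
  have h1 := congrArg (fun x => C.z * x) h'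
  simp only [mul_assoc C.z] at h1
  rw [z_mul_conj (cc_comm_z β e), z_mul_conj (cc_comm_z β' e')] at h1
  set ρ := σ * (ε : G) * σ⁻¹ with hρ
  set ρ' := σ * (ε' : G) * σ⁻¹ with hρ'
  rw [← conj_mul_conj (cc C β e) C.u ρ, ← conj_mul_conj (cc C β' e') C.u ρ'] at h1
  obtain ⟨h2, h3⟩ := parts_unique (conj_sq C.u_u) (conj_sq C.u_u)
    (conj_commute (rho_comm_u hσz ε.2).symm) (conj_commute (rho_comm_u hσz ε'.2).symm)
    (by rw [conj_orderOf]; exact rho_odd ε.2) (by rw [conj_orderOf]; exact rho_odd ε'.2) h1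
  rw [cc_conj_u, cc_conj_u] at h2
  have hAβ := (C.mem_Ap.1 β.2).1
  have hAβ' := (C.mem_Ap.1 β'.2).1
  have hs : ∀ e : Bool, (if e then C.u * C.z else C.u) ∈ (C.S : Subgroup G) := by
    intro e
    cases e
    · simpa using C.u_mem
    · simpa using mul_mem C.u_mem C.z_mem_S
  obtain ⟨h4, h5⟩ := C.decomp_unique (mul_mem hAβ hAβ) (mul_mem hAβ' hAβ') (hs e) (hs e') h2
  have he : e = e' := by
    cases e <;> cases e' <;> simp only [Bool.false_eq_true, if_false, if_true] at h5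
    · rfl
    · exfalso
      exact C.z_ne_one (mul_eq_left.1 h5.symm)
    · exfalso
      exact C.z_ne_one (mul_eq_left.1 h5)
    · rfl
  subst he
  have hββ : β = β' := by
    apply Subtype.ext
    have h6 : ((β : G) * (β' : G)⁻¹) * ((β : G) * (β' : G)⁻¹) = 1 := by
      have hc := C.A_comm hAβ (inv_mem hAβ')
      calc ((β : G) * (β' : G)⁻¹) * ((β : G) * (β' : G)⁻¹)
          = (β : G) * ((β' : G)⁻¹ * β) * (β' : G)⁻¹ := by group
        _ = (β : G) * ((β : G) * (β' : G)⁻¹) * (β' : G)⁻¹ := by rw [hc]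
        _ = ((β : G) * β) * ((β' : G)⁻¹ * (β' : G)⁻¹) := by group
        _ = ((β' : G) * β') * ((β' : G)⁻¹ * (β' : G)⁻¹) := by rw [h4]
        _ = 1 := by group
    have h7 := C.A_sq_eq_one (mul_mem hAβ (inv_mem hAβ')) h6
    exact mul_inv_eq_one.1 h7
  subst hββ
  have h8 : ρ = ρ' := by
    have := mul_left_cancel (mul_right_cancel h3)
    exact this
  have h9 : (ε : G) = ε' := mul_left_cancel (mul_right_cancel h8)
  have h10 : ε = ε' := Subtype.ext h9
  rw [h10]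

omit ha in
include hτz hσz in
/-- Disjointness. -/
theorem O1_disj {y : G} (h1 : y ∈ O1 C τ) : y ∉ Set.range (Phi C σ) := by
  rintro ⟨⟨β, e, ε⟩, rfl⟩
  obtain ⟨c, hc, h2⟩ := h1
  have hcz := C.mem_cent_z.1 hc
  have h' : c * (τ⁻¹ * C.u * τ) * c⁻¹ = cc C β e * (C.z * C.u * (σ * (ε : G) * σ⁻¹)) * (cc C β e)⁻¹ := h2
  have h3 := congrArg (fun x => C.z * x) h'
  simp only [mul_assoc C.z] at h3
  rw [z_mul_conj (cc_comm_z β e)] at h3
  have h4 : C.z * (c * (τ⁻¹ * C.u * τ) * c⁻¹) = c * (τ⁻¹ * C.w * τ) * c⁻¹ := by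
    have h5 : c * C.z * c⁻¹ = C.z := by rw [hcz]; simp
    have h6 : τ⁻¹ * C.t * τ = C.z := by
      rw [← hτz]; exact inv_conj_conj τ C.z
    calc C.z * (c * (τ⁻¹ * C.u * τ) * c⁻¹) = c * (C.z * (τ⁻¹ * C.u * τ)) * c⁻¹ := by
          nth_rw 1 [← h5]; group
      _ = c * ((τ⁻¹ * C.t * τ) * (τ⁻¹ * C.u * τ)) * c⁻¹ := by rw [h6]
      _ = c * (τ⁻¹ * (C.t * C.u) * τ) * c⁻¹ := by group
      _ = c * (τ⁻¹ * C.w * τ) * c⁻¹ := by rw [C.t_mul_u]
  rw [h4] at h3
  have ho : orderOf (C.u * (σ * (ε : G) * σ⁻¹)) = 4 := by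
    have h7 := congrArg orderOf h3
    rw [conj_orderOf, conj_orderOf', conj_orderOf, C.hw] at h7
    exact h7.symm
  set ρ := σ * (ε : G) * σ⁻¹ with hρ
  have hc' : Commute C.u ρ := (rho_comm_u hσz ε.2).symm
  have h8 : (C.u * ρ) ^ 4 = 1 := by
    rw [← ho]; exact pow_orderOf_eq_one _
  rw [hc'.mul_pow, show (4 : ℕ) = 2 * 2 by norm_num, pow_mul C.u, pow_two C.u, C.u_u, one_pow, one_mul] at h8
  have h9 : orderOf ρ ∣ 2 * 2 := orderOf_dvd_of_pow_eq_one h8
  have h10 : Odd (orderOf ρ) := rho_odd ε.2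
  have h11 : orderOf ρ ∣ 1 := by
    have h12 : Nat.Coprime (orderOf ρ) (2 * 2) := by
      apply Nat.Coprime.mul_right <;> exact Nat.coprime_two_right.2 h10
    exact Nat.Coprime.eq_one_of_dvd h12 h9 ▸ dvd_rfl
  have h13 : ρ = 1 := orderOf_eq_one_iff.1 (Nat.dvd_one.1 h11)
  have hu : orderOf C.u = 2 := C.swap.orderOf_t_self
  rw [h13, mul_one, hu] at ho
  omega

omit ha in
include hτz hτt in
/-- The number of involutions of the first kind. -/
theorem card_O1 : (O1 C τ).ncard * 2 = 4 * (2 * Nat.card C.Ap * Nat.card C.swap.Ap) := by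
  have h1 := card_class (centralizer ({C.z} : Set G)) (τ⁻¹ * C.u * τ)
  have h2 : Nat.card (centralizer ({C.z} : Set G) ⊓ centralizer ({τ⁻¹ * C.u * τ} : Set G) : Subgroup G) = 2 := by
    classical
    have htz : τ * (C.t * C.z) * τ⁻¹ = C.z := by
      rw [← conj_mul_conj, hτz, hτt, mul_assoc, C.zt, ← mul_assoc, C.ht, one_mul]
    have h3 : ((centralizer ({C.z} : Set G) ⊓ centralizer ({τ⁻¹ * C.u * τ} : Set G) : Subgroup G) : Set G) =
        ↑({1, C.t * C.z} : Finset G) := by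
      ext c
      simp only [Finset.coe_insert, Finset.coe_singleton, Set.mem_insert_iff, Set.mem_singleton_iff,
        SetLike.mem_coe, Subgroup.mem_inf, mem_centralizer_singleton_iff]
      constructor
      · rintro ⟨hz, hu⟩
        -- conjugate by `τ`
        have h4 : (τ * c * τ⁻¹) * C.t = C.t * (τ * c * τ⁻¹) := by
          rw [← hτz]; exact conj_commute hz
        have h5 : (τ * c * τ⁻¹) * C.u = C.u * (τ * c * τ⁻¹) := by
          have := conj_commute (g := τ) hu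
          rwa [conj_inv_conj] at this
        have h6 : (τ * c * τ⁻¹) * C.w = C.w * (τ * c * τ⁻¹) := by
          rw [← C.t_mul_u]
          calc (τ * c * τ⁻¹) * (C.t * C.u) = ((τ * c * τ⁻¹) * C.t) * C.u := by group
            _ = (C.t * (τ * c * τ⁻¹)) * C.u := by rw [h4]
            _ = C.t * ((τ * c * τ⁻¹) * C.u) := by group
            _ = C.t * (C.u * (τ * c * τ⁻¹)) := by rw [h5]
            _ = _ := by group
        have h7 := C.hcw _ h6
        have hd : τ * c * τ⁻¹ = 1 ∨ τ * c * τ⁻¹ = C.z := by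
          have hV : τ * c * τ⁻¹ ∈ C.V := ⟨(zpowers_le.2 C.hwS) h7, by
            change _ ∈ centralizer ({C.t} : Set G)
            exact mem_centralizer_singleton_iff.2 h4⟩
          rcases C.mem_V.1 hV with h8 | h8 | h8 | h8
          · exact Or.inl h8
          · exact Or.inr h8
          · exfalso
            rw [h8] at h7
            exact C.t_notMem h7
          · exfalso
            rw [h8] at h7
            apply C.t_notMem
            have h9 : C.z ∈ zpowers C.w := mul_mem (mem_zpowers _) (mem_zpowers _)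
            have h10 := mul_mem h7 h9
            rwa [mul_assoc, C.z_z, mul_one] at h10
        rcases hd with h8 | h8
        · left
          have : c = τ⁻¹ * (τ * c * τ⁻¹) * τ := by group
          rw [this, h8]; group
        · right
          have : c = τ⁻¹ * (τ * c * τ⁻¹) * τ := by group
          have h10 : τ⁻¹ * C.z * τ = C.t * C.z := by
            nth_rw 1 [← htz]; exact inv_conj_conj τ _
          rw [this, h8, h10]
      · rintro (rfl | rfl)
        · simp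
        · constructor
          · rw [mul_assoc, C.z_z, mul_one, ← mul_assoc, C.zt, mul_assoc, C.z_z, mul_one]
          · have h9 : C.z * C.u = C.u * C.z := C.z_comm_u
            rw [← htz] at h9
            have := conj_commute (g := τ⁻¹) h9
            simp only [inv_inv] at this
            rw [inv_conj_conj] at this
            exact this
    rw [show Nat.card (centralizer ({C.z} : Set G) ⊓ centralizer ({τ⁻¹ * C.u * τ} : Set G) : Subgroup G) =
      Nat.card ((centralizer ({C.z} : Set G) ⊓ centralizer ({τ⁻¹ * C.u * τ} : Set G) : Subgroup G) : Set G) from rfl,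
      h3, Nat.card_coe_set_eq, Set.ncard_coe_finset, Finset.card_pair C.one_ne_tz]
  rw [h2, C.card_cent_z'] at h1
  have h3 : O1 C τ = {y | ∃ g ∈ centralizer ({C.z} : Set G), g * (τ⁻¹ * C.u * τ) * g⁻¹ = y} := rfl
  rw [h3, h1]
  ring

include ha hτH hτz hσz hσu hσA in
/-- Every involution of `N` outside `H` is of one of the two kinds. -/
theorem Vs_cover {v : G} (hv : v ∈ C.Vs) : v ∈ O1 C τ ∨ v ∈ Set.range (Phi C σ) := by
  obtain ⟨hvN, hvH, hv2⟩ := hv
  set y := C.z * v with hy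
  have hyN : y ∈ C.Nc := mul_mem (C.Hc_le_Nc C.z_mem_Hc) hvN
  have hyH : y ∉ C.Hc := by
    intro h
    apply hvH
    have h1 := mul_mem C.z_mem_Hc h
    rwa [hy, ← mul_assoc, C.z_z, one_mul] at h1
  have hzy : C.z * y = v := by rw [hy, ← mul_assoc, C.z_z, one_mul]
  have hyinv : C.z * y * C.z⁻¹ = y⁻¹ := by
    rw [hzy, hy, mul_inv_rev, inv_eq_of_mul_eq_one_left hv2]
  have hnpos : orderOf y ≠ 0 := (orderOf_pos y).ne'
  obtain ⟨k, o, ho, hn⟩ := Nat.exists_eq_two_pow_mul_odd hnpos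
  set s := y ^ o with hs
  have hsord : orderOf s = 2 ^ k := by
    rw [hs, orderOf_pow_of_dvd ho.pos.ne' (by rw [hn]; exact Dvd.intro_left _ rfl), hn]
    exact Nat.mul_div_cancel _ ho.pos
  have hsH : s ∉ C.Hc := C.odd_pow_notMem ha hyN hyH ho
  have hsN : s ∈ C.Nc := pow_mem hyN o
  obtain ⟨h, hh, hS⟩ := C.conj_into_S hsN hsord
  have hnot : h * s * h⁻¹ ∉ C.Hc := by
    intro h1
    apply hsH
    have h2 := C.Hc_normal (inv_mem hh) h1
    rwa [conj_inv_inv, inv_conj_conj] at h2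
  have hsback : s = h⁻¹ * (h * s * h⁻¹) * h := (inv_conj_conj h s).symm
  have hys : y * s = s * y := (Commute.pow_right (Commute.refl y) o).eq
  have hzs : C.z * s * C.z⁻¹ = s⁻¹ := by
    rw [hs, ← conj_pow, hyinv, inv_pow]
  have htN := C.Hc_le_Nc C.t_mem_Hc
  have hwi : C.t * C.w * C.t⁻¹ = C.w⁻¹ := by rw [C.t_inv]; exact C.hinv
  -- the order four case
  have case4 : ∀ h₁ ∈ C.Nc, s = h₁ * C.w * h₁⁻¹ → v ∈ O1 C τ := by
    intro h₁ hh₁ hsw
    have h2 : (h₁⁻¹ * y * h₁) * C.w = C.w * (h₁⁻¹ * y * h₁) := by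
      have h3 : h₁⁻¹ * s * h₁ = C.w := by rw [hsw]; exact inv_conj_conj h₁ C.w
      have h4 := conj_commute (g := h₁⁻¹) hys
      simp only [inv_inv] at h4
      rwa [h3] at h4
    have h3 := C.hcw _ h2
    have hy₀H : h₁⁻¹ * y * h₁ ∉ C.Hc := by
      intro h4
      apply hyH
      have h5 := C.Hc_normal hh₁ h4
      rwa [conj_inv_conj] at h5
    obtain ⟨h₂, hh₂, hyw⟩ : ∃ h₂ ∈ C.Nc, y = h₂ * C.w * h₂⁻¹ := by
      rcases C.mem_zpowers_w.1 h3 with h4 | h4 | h4 | h4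
      · exfalso; rw [h4] at hy₀H; exact hy₀H (one_mem _)
      · refine ⟨h₁, hh₁, ?_⟩
        rw [← h4, conj_inv_conj]
      · exfalso; rw [h4] at hy₀H; exact hy₀H C.z_mem_Hc
      · refine ⟨h₁ * C.t, mul_mem hh₁ htN, ?_⟩
        rw [conj_conj', hwi, ← h4, conj_inv_conj]
    set d := h₂⁻¹ * C.z * h₂ with hd
    have hdH : d ∈ C.Hc := by
      have := C.Hc_normal (inv_mem hh₂) C.z_mem_Hc
      rwa [conj_inv_inv] at this
    have hdd : d * d = 1 := by
      have := conj_sq (g := h₂⁻¹) C.z_z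
      rwa [conj_inv_inv] at this
    have hdw : d * C.w = C.w⁻¹ * d := by
      have h4 : d * C.w * d⁻¹ = C.w⁻¹ := by
        have h5 : h₂⁻¹ * (C.z * y * C.z⁻¹) * h₂ = h₂⁻¹ * y⁻¹ * h₂ := by rw [hyinv]
        have h6 : h₂⁻¹ * y⁻¹ * h₂ = C.w⁻¹ := by
          rw [hyw]; group
        have h7 : h₂⁻¹ * (C.z * y * C.z⁻¹) * h₂ = d * C.w * d⁻¹ := by
          rw [hyw, hd]; group
        rw [← h7, h5, h6]
      rw [mul_inv_eq_iff_eq_mul] at h4
      exact h4
    have htd : (C.t * d) * C.w = C.w * (C.t * d) := by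
      calc (C.t * d) * C.w = C.t * (d * C.w) := by group
        _ = C.t * (C.w⁻¹ * d) := by rw [hdw]
        _ = (C.t * C.w⁻¹) * d := by group
        _ = (C.w * C.t) * d := by rw [C.wt_eq]
        _ = _ := by group
    have h4 := C.hcw _ htd
    have h5 : C.t * d ∈ C.Hc := mul_mem C.t_mem_Hc hdH
    have hd2 : d = C.t ∨ d = C.t * C.z := by
      have hback : ∀ x : G, C.t * d = x → d = C.t * x := by
        intro x hx; rw [← hx, ← mul_assoc, C.ht, one_mul]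
      rcases C.mem_zpowers_w.1 h4 with h6 | h6 | h6 | h6
      · left; rw [hback _ h6, mul_one]
      · exfalso; rw [h6] at h5; exact C.w_notMem_Hc ha h5
      · right; exact hback _ h6
      · exfalso; rw [h6] at h5; exact C.w_notMem_Hc ha (by simpa using h5)
    obtain ⟨h₃, hh₃, hyw₃, hd₃⟩ : ∃ h₃ ∈ C.Nc, y = h₃ * C.w * h₃⁻¹ ∧ h₃⁻¹ * C.z * h₃ = C.t := by
      rcases hd2 with hd3 | hd3
      · exact ⟨h₂, hh₂, hyw, hd3⟩
      · refine ⟨h₂ * C.w, mul_mem hh₂ C.w_mem_Nc, ?_, ?_⟩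
        · rw [hyw]; group
        · have h6 : (h₂ * C.w)⁻¹ * C.z * (h₂ * C.w) = C.w⁻¹ * d * C.w := by
            rw [hd]; group
          rw [h6, hd3, C.wi_tz_w]
    refine ⟨h₃ * τ, ?_, ?_⟩
    · rw [mem_centralizer_singleton_iff]
      have h6 : (h₃ * τ) * C.z * (h₃ * τ)⁻¹ = C.z := by
        rw [conj_conj', hτz, ← hd₃, conj_inv_conj]
      rw [mul_inv_eq_iff_eq_mul] at h6
      exact h6
    · have h6 : h₃ * C.t * h₃⁻¹ = C.z := by
        rw [← hd₃, conj_inv_conj]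
      have h7 : (h₃ * τ) * (τ⁻¹ * C.u * τ) * (h₃ * τ)⁻¹ = h₃ * C.u * h₃⁻¹ := by group
      rw [h7, ← hzy, hyw₃, ← h6, conj_mul_conj]
      rfl
  -- the involution case
  have case2 : s * s = 1 → v ∈ Set.range (Phi C σ) := by
    intro hss
    have hs1 : s ≠ 1 := fun h1 => hsH (h1 ▸ one_mem _)
    have hso : s⁻¹ = s := inv_eq_of_mul_eq_one_left hss
    have hszc : s * C.z = C.z * s := by
      rw [hso, mul_inv_eq_iff_eq_mul] at hzs
      exact hzs.symm
    -- order of `y`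
    have hk : 2 ^ k = 2 := by
      rw [← hsord]; exact order_two_of hss hs1
    have hny : orderOf y = 2 * o := by rw [hn, hk]
    obtain ⟨l, hl⟩ := ho
    set ρ := y ^ (2 * (l + 1)) with hρ
    have hρH : ρ ∈ C.Hc := C.even_pow_mem ha hyN _
    have hys2 : y = s * ρ := by
      rw [hs, hρ, ← pow_add]
      have h3 : o + 2 * (l + 1) = 2 * o + 1 := by omega
      rw [h3, pow_succ, ← hny, pow_orderOf_eq_one, one_mul]
    have hsρ : Commute s ρ := (Commute.refl y).pow_pow _ _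
    have hρodd : Odd (orderOf ρ) := by
      have h3 : ρ ^ o = 1 := by
        rw [hρ, ← pow_mul, show 2 * (l + 1) * o = (2 * o) * (l + 1) by ring, pow_mul, ← hny,
          pow_orderOf_eq_one, one_pow]
      have h4 : orderOf ρ ∣ o := orderOf_dvd_of_pow_eq_one h3
      exact (show Odd o from ⟨l, hl⟩).of_dvd_nat h4
    have hzρ : C.z * ρ * C.z⁻¹ = ρ⁻¹ := by
      rw [hρ, ← conj_pow, hyinv, inv_pow]
    -- `s` in `C(z)`
    obtain ⟨α, hα, s₀, hs₀, hdec⟩ := C.hAS s hszc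
    have hs₀H : s₀ ∉ C.Hc := by
      intro h1
      apply hsH
      rw [hdec]
      exact mul_mem (C.A_le_Hc hα) h1
    have hαu : ∀ s₁ : G, s₁ = C.u ∨ s₁ = C.u * C.z → s = α * s₁ → α ∈ C.Ap := by
      rintro s₁ hs₁ hss₁
      apply C.mem_Ap_of_u_inv hα
      have h3 : s₁ * α * s₁⁻¹ = C.u * α * C.u⁻¹ := by
        rcases hs₁ with rfl | rfl
        · rfl
        · exact C.u_conj_z_comm hα
      have h4 : s₁ * s₁ = 1 := by
        rcases hs₁ with rfl | rfl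
        · exact C.u_u
        · exact C.uz_sq
      have h5 : s₁⁻¹ = s₁ := inv_eq_of_mul_eq_one_left h4
      have h6 : α * s₁ * (α * s₁) = 1 := by rw [← hss₁]; exact hss
      rw [← h3, h5]
      calc s₁ * α * s₁ = α⁻¹ * (α * s₁ * (α * s₁)) := by group
        _ = α⁻¹ := by rw [h6, mul_one]
    have hfin : ∀ (β : C.Ap) (e : Bool), s = cc C β e * C.u * (cc C β e)⁻¹ →
        v ∈ Set.range (Phi C σ) := by
      intro β e hsc
      set c := cc C β e with hc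
      have hcH : c ∈ C.Hc := cc_mem_Hc β e
      have hcz : c * C.z = C.z * c := cc_comm_z β e
      have hczc : c⁻¹ * C.z * c = C.z := by
        rw [mul_assoc, ← hcz]; simp
      set ρ₀ := c⁻¹ * ρ * c with hρ₀
      have hρback : c * ρ₀ * c⁻¹ = ρ := conj_inv_conj c ρ
      have h1 : ρ₀ * C.u = C.u * ρ₀ := by
        have h2 : c⁻¹ * s * c = C.u := by rw [hsc]; exact inv_conj_conj c C.u
        have h3 := conj_commute (g := c⁻¹) hsρ.eq.symm
        simp only [inv_inv] at h3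
        rwa [h2] at h3
      have h2 : Odd (orderOf ρ₀) := by
        rw [hρ₀, conj_orderOf']; exact hρodd
      have h3 := mem_Au.1 (mem_Au_of_odd hσz h1 h2)
      set ε := σ⁻¹ * ρ₀ * σ with hε
      have hεback : σ * ε * σ⁻¹ = ρ₀ := conj_inv_conj σ ρ₀
      have h4 : C.z * ρ₀ * C.z⁻¹ = ρ₀⁻¹ := by
        have h5 : C.z * ρ₀ * C.z⁻¹ = c⁻¹ * (C.z * ρ * C.z⁻¹) * c := by
          nth_rw 1 [← hczc]
          nth_rw 2 [← hczc]
          rw [hρ₀]; group
        rw [h5, hzρ, hρ₀]; group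
      have h5 : C.u * ε * C.u⁻¹ = ε⁻¹ := by
        rw [← C.u_conj_z_comm h3, ← sigma_inv_z hσz hσu]
        have h6 : σ⁻¹ * C.z * σ * ε * (σ⁻¹ * C.z * σ)⁻¹ = σ⁻¹ * (C.z * ρ₀ * C.z⁻¹) * σ := by
          rw [hε]; group
        rw [h6, h4, hε]; group
      have h6 : ε ∈ C.Ap := C.mem_Ap_of_u_inv h3 h5
      have h7 : ε ∈ P0 C σ := by
        refine ⟨h6, ?_⟩
        change σ * ε * σ⁻¹ ∈ C.Hc
        rw [hεback, hρ₀]
        have := C.Hc_normal (inv_mem (C.Hc_le_Nc hcH)) hρH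
        rwa [conj_inv_inv] at this
      refine ⟨(β, e, ⟨ε, h7⟩), ?_⟩
      change c * (C.z * C.u * (σ * ε * σ⁻¹)) * c⁻¹ = v
      rw [hεback]
      have h8 : c * C.z * c⁻¹ = C.z := by rw [hcz]; simp
      calc c * (C.z * C.u * ρ₀) * c⁻¹ = (c * C.z * c⁻¹) * (c * C.u * c⁻¹) * (c * ρ₀ * c⁻¹) := by group
        _ = C.z * s * ρ := by rw [h8, hρback, ← hsc]
        _ = C.z * y := by rw [mul_assoc, ← hys2]
        _ = v := hzy
    have hfin2 : ∀ s₁ : G, (s₁ = C.u ∨ s₁ = C.u * C.z) → s = α * s₁ → v ∈ Set.range (Phi C σ) := by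
      intro s₁ hs₁ hss₁
      have hαAp := hαu s₁ hs₁ hss₁
      obtain ⟨β, hβ, hββ⟩ := C.exists_sqrt_Ap hαAp
      rcases hs₁ with rfl | rfl
      · apply hfin ⟨β, hβ⟩ false
        rw [cc_conj_u]
        simp only [Bool.false_eq_true, if_false]
        rw [hss₁, hββ]
      · apply hfin ⟨β, hβ⟩ true
        rw [cc_conj_u]
        simp only [if_true]
        rw [hss₁, hββ]
    rcases C.S_outside hs₀ hs₀H with h3 | h3 | h3 | h3
    · exfalso
      apply C.z_ne_one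
      rw [hdec, h3] at hss
      rw [← hss]
      have h4 : α * C.w * (α * C.w) = α * (C.w * α * C.w⁻¹) * (C.w * C.w) := by group
      rw [h4, C.w_act hα, mul_inv_cancel, one_mul]
      rfl
    · exfalso
      apply C.z_ne_one
      rw [hdec, h3] at hss
      rw [← hss]
      have h4 : α * C.w⁻¹ * (α * C.w⁻¹) = α * (C.w⁻¹ * α * C.w) * (C.w⁻¹ * C.w⁻¹) := by group
      rw [h4, C.w_inv_act hα, mul_inv_cancel, one_mul, ← mul_inv_rev]
      exact C.z_inv.symm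
    · exact hfin2 _ (Or.inl rfl) (by rw [hdec, h3])
    · exact hfin2 _ (Or.inr rfl) (by rw [hdec, h3])
  rcases C.S_outside hS hnot with h2 | h2 | h2 | h2
  · left
    apply case4 h⁻¹ (inv_mem hh)
    rw [hsback, h2, inv_inv]
  · left
    apply case4 (h⁻¹ * C.t) (mul_mem (inv_mem hh) htN)
    rw [conj_conj', hwi, ← h2, conj_inv_inv, inv_conj_conj]
  · right
    apply case2
    have := conj_sq (g := h⁻¹) C.u_u
    rw [conj_inv_inv, ← h2, inv_conj_conj] at this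
    exact this
  · right
    apply case2
    have := conj_sq (g := h⁻¹) C.uz_sq
    rw [conj_inv_inv, ← h2, inv_conj_conj] at this
    exact this

include ha hτH hτz hτt hσz hσu hσA in
/-- The count of `Vs`. -/
theorem card_Vs : C.Vs.ncard =
    4 * Nat.card C.Ap * Nat.card C.swap.Ap + 2 * Nat.card C.Ap * Nat.card (P0 C σ) := by
  classical
  have h1 : C.Vs = O1 C τ ∪ Set.range (Phi C σ) := by
    apply Set.Subset.antisymm
    · intro v hv
      exact Vs_cover ha hτH hτz hσA hσz hσu hv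
    · apply Set.union_subset (O1_sub ha hτH)
      rintro _ ⟨x, rfl⟩
      exact Phi_sub ha hσz hσu x
  have h2 : Disjoint (O1 C τ) (Set.range (Phi C σ)) := by
    rw [Set.disjoint_left]
    intro y hy
    exact O1_disj hτz hσz hy
  have h3 : (Set.range (Phi C σ)).ncard = 2 * Nat.card C.Ap * Nat.card (P0 C σ) := by
    rw [← Nat.card_coe_set_eq, Nat.card_range_of_injective (Phi_inj hσz hσu), Nat.card_prod, Nat.card_prod]
    simp only [Nat.card_eq_fintype_card, Fintype.card_bool]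
    ring
  have h4 : (O1 C τ).ncard = 4 * Nat.card C.Ap * Nat.card C.swap.Ap := by
    have := card_O1 (C := C) hτz hτt
    have h5 : (O1 C τ).ncard * 2 = (4 * Nat.card C.Ap * Nat.card C.swap.Ap) * 2 := by
      rw [this]; ring
    exact Nat.eq_of_mul_eq_mul_right (by norm_num) h5
  rw [h1, Set.ncard_union_eq h2, h3, h4]

end Main

end Cfg

end Cfsg.Agent.Lib.SCent
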