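import Mathlib
import Cfsg.Agent.Lib.SCent.Local4

/-!
# The main local count
-/

set_option autoImplicit false

namespace Cfsg.Agent.Lib.SCent

open Subgroup

namespace Cfg

variable {G : Type*} [Group G] [Finite G] {C : Cfg G}

section Main

variable {τ σ : G} (ha : 1 < Nat.card C.Ap) (hτH : τ ∈ C.Hc) (hτz : τ * C.z * τ⁻¹ = C.t)
  (hτt : τ * C.t * τ⁻¹ = C.t * C.z)
  (hσA : ∀ β ∈ C.swap.Ap, σ * β * σ⁻¹ = β) (hσz : σ * C.z * σ⁻¹ = C.u)
  (hσu : σ * C.u * σ⁻¹ = C.u * C.z)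

/-- The involutions of `H` used in the lower bound. -/
def Psi (C : Cfg G) (τ : G) (x : C.swap.Ap × Bool × C.swap.Ap) : G :=
  cc C.swap x.1 x.2.1 * (C.z * C.t * (τ * (x.2.2 : G) * τ⁻¹)) * (cc C.swap x.1 x.2.1)⁻¹

lemma sq_of_parts {z i ρ : G} (hz : z * z = 1) (hi : i * i = 1) (hzi : z * i = i * z)
    (hρi : ρ * i = i * ρ) (hzρ : z * ρ * z⁻¹ = ρ⁻¹) : (z * i * ρ) * (z * i * ρ) = 1 := by
  have hzi' : z⁻¹ = z := inv_eq_of_mul_eq_one_left hz
  rw [hzi'] at hzρ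
  have h4 : ρ * z = z * ρ⁻¹ := by
    rw [← hzρ]
    calc ρ * z = (z * z) * ρ * z := by rw [hz, one_mul]
      _ = _ := by group
  have h6 : ρ⁻¹ * i = i * ρ⁻¹ := by
    rw [eq_mul_inv_iff_mul_eq, mul_assoc, ← hρi, ← mul_assoc]; simp
  calc z * i * ρ * (z * i * ρ) = z * i * (ρ * z) * i * ρ := by group
    _ = z * i * (z * ρ⁻¹) * i * ρ := by rw [h4]
    _ = (z * i * z) * (ρ⁻¹ * i) * ρ := by group
    _ = (z * i * z) * (i * ρ⁻¹) * ρ := by rw [h6]
    _ = z * i * z * i := by group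
    _ = 1 := by
        calc z * i * z * i = (z * i) * (z * i) := by group
          _ = (i * z) * (z * i) := by rw [hzi]
          _ = i * (z * z) * i := by group
          _ = 1 := by rw [hz, mul_one, hi]

omit ha in
include hτH hτz hτt in
lemma r_facts {γ : G} (hγ : γ ∈ C.swap.Ap) :
    (τ * γ * τ⁻¹) * C.t = C.t * (τ * γ * τ⁻¹) ∧ C.z * (τ * γ * τ⁻¹) * C.z⁻¹ = (τ * γ * τ⁻¹)⁻¹ ∧
      τ * γ * τ⁻¹ ∈ C.Hc ∧ Odd (orderOf (τ * γ * τ⁻¹)) := by
  have hγA := (C.mem_swap_Ap.1 hγ).1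
  have hγt := (C.mem_swap_Ap.1 hγ).2
  have htz : τ * (C.t * C.z) * τ⁻¹ = C.z := by
    rw [← conj_mul_conj, hτz, hτt, mul_assoc, C.zt, ← mul_assoc, C.ht, one_mul]
  refine ⟨?_, ?_, ?_, ?_⟩
  · rw [← hτz]
    exact conj_commute (C.A_comm_z hγA)
  · have h2 : ∀ a b : G, (τ * a * τ⁻¹) * (τ * b * τ⁻¹) * (τ * a * τ⁻¹)⁻¹ = τ * (a * b * a⁻¹) * τ⁻¹ := by
      intro a b; group
    have h3 : (C.t * C.z) * γ * (C.t * C.z)⁻¹ = γ⁻¹ := by
      have h4 : C.z * γ * C.z⁻¹ = γ := by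
        rw [← C.A_comm_z hγA]; simp
      rw [conj_conj', h4, C.t_inv, hγt]
    rw [← htz, h2, h3, conj_inv']
  · have := C.Hc_normal (C.Hc_le_Nc hτH) (C.A_le_Hc hγA)
    exact this
  · rw [conj_orderOf]
    exact C.odd_of_mem_A hγA

lemma cc_swap_Nc (β : C.swap.Ap) (e : Bool) : cc C.swap β e ∈ C.Nc := by
  unfold cc
  apply mul_mem (C.Hc_le_Nc (C.A_le_Hc (C.swap.mem_Ap.1 β.2).1))
  cases e
  · simp
  · simp only [if_true]
    exact C.u_mem_Nc

lemma cc_swap_conj_t (β : C.swap.Ap) (e : Bool) :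
    cc C.swap β e * C.t * (cc C.swap β e)⁻¹ = (β : G) * β * (if e then C.t * C.z else C.t) := by
  have hβ := C.mem_swap_Ap.1 β.2
  have h1 : C.t * (β : G)⁻¹ * C.t⁻¹ = β := by
    rw [conj_inv', C.t_inv, hβ.2, inv_inv]
  have h2 : (C.t * C.z) * (β : G)⁻¹ * (C.t * C.z)⁻¹ = β := by
    have h4 : C.z * (β : G)⁻¹ * C.z⁻¹ = (β : G)⁻¹ := by
      rw [← C.A_comm_z (inv_mem hβ.1)]; simp
    rw [conj_conj', h4, h1]
  have hut : C.u * C.t * C.u⁻¹ = C.t * C.z := by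
    unfold u
    rw [conj_conj', C.w_mul_t, C.t_inv, ← mul_assoc C.t C.t, C.ht, one_mul, C.zt]
  unfold cc
  cases e
  · simp only [Bool.false_eq_true, if_false, mul_one]
    calc (β : G) * C.t * (β : G)⁻¹ = β * (C.t * (β : G)⁻¹ * C.t⁻¹) * C.t := by group
      _ = _ := by rw [h1]
  · simp only [if_true]
    have h3 : (β : G) * C.u * C.t * ((β : G) * C.u)⁻¹ =
        β * (C.u * C.t * C.u⁻¹) * (β : G)⁻¹ := by group
    change (β : G) * C.u * C.t * ((β : G) * C.u)⁻¹ = _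
    rw [h3, hut]
    calc (β : G) * (C.t * C.z) * (β : G)⁻¹ = β * ((C.t * C.z) * (β : G)⁻¹ * (C.t * C.z)⁻¹) * (C.t * C.z) := by
          group
      _ = _ := by rw [h2]

omit ha in
include hτH hτz hτt in
theorem Psi_inj : Function.Injective (Psi C τ) := by
  rintro ⟨β, e, γ⟩ ⟨β', e', γ'⟩ h
  have h' : cc C.swap β e * (C.z * C.t * (τ * (γ : G) * τ⁻¹)) * (cc C.swap β e)⁻¹ =
    cc C.swap β' e' * (C.z * C.t * (τ * (γ' : G) * τ⁻¹)) * (cc C.swap β' e')⁻¹ := h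
  have h1 := congrArg (fun x => C.z * x) h'
  simp only [mul_assoc C.z] at h1
  rw [z_mul_conj (C := C) (cc_comm_z (C := C.swap) β e), z_mul_conj (C := C) (cc_comm_z (C := C.swap) β' e')] at h1
  set ρ := τ * (γ : G) * τ⁻¹ with hρ
  set ρ' := τ * (γ' : G) * τ⁻¹ with hρ'
  have hr := r_facts hτH hτz hτt γ.2
  have hr' := r_facts hτH hτz hτt γ'.2
  rw [← conj_mul_conj (cc C.swap β e) C.t ρ, ← conj_mul_conj (cc C.swap β' e') C.t ρ'] at h1
  obtain ⟨h2, h3⟩ := parts_unique (conj_sq C.ht) (conj_sq C.ht)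
    (conj_commute hr.1.symm) (conj_commute hr'.1.symm)
    (by rw [conj_orderOf]; exact hr.2.2.2) (by rw [conj_orderOf]; exact hr'.2.2.2) h1
  rw [cc_swap_conj_t, cc_swap_conj_t] at h2
  have hAβ := (C.mem_swap_Ap.1 β.2).1
  have hAβ' := (C.mem_swap_Ap.1 β'.2).1
  have hs : ∀ e : Bool, (if e then C.t * C.z else C.t) ∈ (C.S : Subgroup G) := by
    intro e
    cases e
    · simpa using C.htS
    · simpa using mul_mem C.htS C.z_mem_S
  obtain ⟨h4, h5⟩ := C.decomp_unique (mul_mem hAβ hAβ) (mul_mem hAβ' hAβ') (hs e) (hs e') h2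
  have he : e = e' := by
    cases e <;> cases e' <;> simp only [Bool.false_eq_true, if_false, if_true] at h5
    · rfl
    · exfalso
      exact C.z_ne_one (mul_eq_left.1 h5.symm)
    · exfalso
      exact C.z_ne_one (mul_eq_left.1 h5)
    · rfl
  subst he
  have hββ : β = β' := by
    apply Subtype.ext
    have h6 : ((β : G) * (β' : G)⁻¹) * ((β : G) * (β' : G)⁻¹) = 1 := by
      have hc := C.A_comm hAβ (inv_mem hAβ')
      calc ((β : G) * (β' : G)⁻¹) * ((β : G) * (β' : G)⁻¹)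
          = (β : G) * ((β' : G)⁻¹ * β) * (β' : G)⁻¹ := by group
        _ = (β : G) * ((β : G) * (β' : G)⁻¹) * (β' : G)⁻¹ := by rw [hc]
        _ = ((β : G) * β) * ((β' : G)⁻¹ * (β' : G)⁻¹) := by group
        _ = ((β' : G) * β') * ((β' : G)⁻¹ * (β' : G)⁻¹) := by rw [h4]
        _ = 1 := by group
    have h7 := C.A_sq_eq_one (mul_mem hAβ (inv_mem hAβ')) h6
    exact mul_inv_eq_one.1 h7
  subst hββ
  have h8 : ρ = ρ' := mul_left_cancel (mul_right_cancel h3)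
  have h9 : (γ : G) = γ' := mul_left_cancel (mul_right_cancel h8)
  have h10 : γ = γ' := Subtype.ext h9
  rw [h10]

omit ha in
include hτH hτz hτt in
theorem card_I1_ge : 1 + 2 * Nat.card C.swap.Ap ^ 2 ≤ C.I1.ncard := by
  classical
  have hsub : insert C.z (Set.range (Psi C τ)) ⊆ C.I1 := by
    intro x hx
    rcases hx with rfl | ⟨⟨β, e, γ⟩, rfl⟩
    · exact ⟨C.z_mem_Hc, C.z_z, C.z_ne_one⟩
    · have hr := r_facts hτH hτz hτt γ.2
      have hx0 : C.z * C.t * (τ * (γ : G) * τ⁻¹) ∈ C.Hc :=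
        mul_mem (mul_mem C.z_mem_Hc C.t_mem_Hc) hr.2.2.1
      have hsq := sq_of_parts C.z_z C.ht C.zt hr.1 hr.2.1
      have hne : C.z * C.t * (τ * (γ : G) * τ⁻¹) ≠ 1 := by
        intro h0
        have h1 : C.z = C.t * (τ * (γ : G) * τ⁻¹) := by
          have e1 : C.z * (C.z * C.t * (τ * (γ : G) * τ⁻¹)) = C.t * (τ * (γ : G) * τ⁻¹) := by
            calc C.z * (C.z * C.t * (τ * (γ : G) * τ⁻¹)) = (C.z * C.z) * C.t * (τ * (γ : G) * τ⁻¹) := by group
              _ = _ := by rw [C.z_z, one_mul]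
          rw [h0, mul_one] at e1
          exact e1
        obtain ⟨h2, -⟩ := parts_unique C.z_z C.ht (Commute.one_right _) hr.1.symm (by simp) hr.2.2.2
          (show C.z * 1 = _ by rw [mul_one]; exact h1)
        exact C.t_ne_z h2.symm
      exact ⟨C.Hc_normal (cc_swap_Nc β e) hx0, conj_sq hsq, conj_ne_one hne⟩
  have hnot : C.z ∉ Set.range (Psi C τ) := by
    rintro ⟨⟨β, e, γ⟩, h⟩
    have hr := r_facts hτH hτz hτt γ.2
    have h' : cc C.swap β e * (C.z * C.t * (τ * (γ : G) * τ⁻¹)) * (cc C.swap β e)⁻¹ = C.z := h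
    have h1 := congrArg (fun x => C.z * x) h'
    simp only [mul_assoc C.z] at h1
    rw [z_mul_conj (C := C) (cc_comm_z (C := C.swap) β e), C.z_z] at h1
    rw [← conj_mul_conj (cc C.swap β e) C.t (τ * (γ : G) * τ⁻¹)] at h1
    obtain ⟨h2, -⟩ := parts_unique (i' := 1) (r' := 1) (conj_sq (g := cc C.swap β e) C.ht) (one_mul 1) (conj_commute hr.1.symm)
      (Commute.one_left _) (by rw [conj_orderOf]; exact hr.2.2.2) (by simp)
      (by rw [h1, one_mul])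
    exact conj_ne_one C.t_ne_one h2
  have h3 : (Set.range (Psi C τ)).ncard = 2 * Nat.card C.swap.Ap ^ 2 := by
    rw [← Nat.card_coe_set_eq, Nat.card_range_of_injective (Psi_inj hτH hτz hτt), Nat.card_prod, Nat.card_prod]
    simp only [Nat.card_eq_fintype_card, Fintype.card_bool]
    ring
  calc 1 + 2 * Nat.card C.swap.Ap ^ 2 = (insert C.z (Set.range (Psi C τ))).ncard := by
        rw [Set.ncard_insert_of_notMem hnot (Set.toFinite _), h3]; ring
    _ ≤ C.I1.ncard := Set.ncard_le_ncard hsub (Set.toFinite _)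

include ha hτH hτz hτt hσA hσz hσu in
/-- **The main local count.** -/
theorem local_main :
    Nat.card C.Nc = 8 * Nat.card C.Ap * Nat.card C.swap.Ap *
        (Nat.card (P0 C σ) * (2 * Nat.card C.swap.Ap + Nat.card (P0 C σ))) ∧
      1 + 2 * Nat.card C.swap.Ap ^ 2 ≤
        Nat.card (P0 C σ) * (2 * Nat.card C.swap.Ap + Nat.card (P0 C σ)) := by
  have h1 := C.card_N_I1 ha hτH hτz hτt
  have h2 := C.card_N_Vs ha
  rw [card_K hσz ha, card_L hσA, card_Vs ha hτH hτz hτt hσA hσz hσu] at h2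
  have h3 : Nat.card C.Nc = 8 * Nat.card C.Ap * Nat.card C.swap.Ap *
      (Nat.card (P0 C σ) * (2 * Nat.card C.swap.Ap + Nat.card (P0 C σ))) := by
    rw [← h2]; ring
  refine ⟨h3, ?_⟩
  have h4 : C.I1.ncard = Nat.card (P0 C σ) * (2 * Nat.card C.swap.Ap + Nat.card (P0 C σ)) := by
    rw [h3, mul_comm] at h1
    have hpos : 0 < 8 * Nat.card C.Ap * Nat.card C.swap.Ap := by
      have h5 : 0 < Nat.card C.Ap := Nat.card_pos
      have h6 : 0 < Nat.card C.swap.Ap := Nat.card_pos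
      positivity
    exact Nat.eq_of_mul_eq_mul_left hpos h1
  rw [← h4]
  exact card_I1_ge hτH hτz hτt

end Main

end Cfg

end Cfsg.Agent.Lib.SCent
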