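import Mathlib

/-!
# The dihedral maximal subgroup of a semidihedral group
-/

set_option autoImplicit false

namespace Cfsg.Agent.Lib.SCent

open Subgroup

/-- A semidihedral group has a subgroup of index two containing all involutions, and the elements of
this subgroup that are not involutions commute with the cyclic maximal subgroup. -/
theorem sd_sub {X : Type*} [Group X] [Finite X] (k : ℕ) (hcard : Nat.card X = 2 ^ (k + 4))
    (a b : X) (ha : orderOf a = 2 ^ (k + 3)) (hb : orderOf b = 2)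
    (hab : b * a * b⁻¹ = a ^ (2 ^ (k + 2) - 1)) :
    ∃ D : Subgroup X, D.index = 2 ∧ (∀ y, y ^ 2 = 1 → y ∈ D) ∧
      ∀ y ∈ D, y ^ 2 ≠ 1 → y * a = a * y := by
  have hT : (4 : ℤ) ≤ 2 ^ (k + 2) := by
    have : (2 : ℤ) ^ (k + 2) = 2 ^ k * 4 := by ring
    have h1 : (1 : ℤ) ≤ 2 ^ k := one_le_pow₀ (by norm_num)
    linarith
  set T : ℤ := 2 ^ (k + 2) with hTdef
  have hT8 : (2 : ℤ) ^ (k + 3) = 2 * T := by rw [hTdef]; ring
  set q : ℤ := T - 1 with hq
  have hbb : b * b = 1 := by
    have := pow_orderOf_eq_one b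
    rw [hb, pow_two] at this
    exact this
  have hbi : b⁻¹ = b := inv_eq_of_mul_eq_one_left hbb
  have hab' : b * a * b⁻¹ = a ^ q := by
    rw [hab, hq, hTdef, ← zpow_natCast]
    congr 1
    have h1 : 1 ≤ 2 ^ (k + 2) := Nat.one_le_two_pow
    push_cast [Nat.cast_sub h1]
    ring
  have hconj : ∀ m : ℤ, b * a ^ m * b⁻¹ = a ^ (m * q) := by
    intro m
    rw [← conj_zpow, hab', ← zpow_mul, mul_comm]
  have hcomm : ∀ m : ℤ, b * a ^ m = a ^ (m * q) * b := by
    intro m
    rw [← hconj, hbi, mul_assoc, hbb, mul_one]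
  have hone : ∀ m : ℤ, a ^ m = 1 ↔ 2 * T ∣ m := by
    intro m
    rw [← orderOf_dvd_iff_zpow_eq_one, ha, ← hT8]
    push_cast
    rfl
  have hadd : ∀ m n : ℤ, a ^ m * a ^ n = a ^ (m + n) := fun m n => (zpow_add a m n).symm
  have hbnot : b ∉ zpowers a := by
    rintro ⟨m, hm⟩
    change a ^ m = b at hm
    have h1 : b * a * b⁻¹ = a := by
      rw [← hm]
      have : a ^ m * a = a * a ^ m := (Commute.zpow_left (Commute.refl a) m).eq
      rw [this]; group
    rw [hab'] at h1
    have h2 : a ^ (q - 1) = 1 := by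
      rw [zpow_sub, h1]; simp
    rw [hone] at h2
    have h3 := Int.le_of_dvd (by rw [hq]; linarith) h2
    rw [hq] at h3
    linarith
  have hbpow : ∀ m n : ℤ, a ^ m ≠ a ^ n * b := by
    intro m n h
    apply hbnot
    have : b = a ^ (-n + m) := by
      rw [← hadd, h]; simp [zpow_neg]
    rw [this]
    exact zpow_mem (mem_zpowers _) _
  -- the subgroup
  let D : Subgroup X :=
    { carrier := {x | ∃ j : ℤ, x = a ^ (2 * j) ∨ x = a ^ (2 * j) * b}
      one_mem' := ⟨0, Or.inl (by simp)⟩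
      mul_mem' := by
        rintro x y ⟨j, hx⟩ ⟨l, hy⟩
        rcases hx with rfl | rfl <;> rcases hy with rfl | rfl
        · exact ⟨j + l, Or.inl (by rw [hadd]; congr 1; ring)⟩
        · exact ⟨j + l, Or.inr (by rw [← mul_assoc, hadd]; congr 2; ring)⟩
        · refine ⟨j + l * q, Or.inr ?_⟩
          rw [mul_assoc, hcomm, ← mul_assoc, hadd]
          congr 2; ring
        · refine ⟨j + l * q, Or.inl ?_⟩
          rw [mul_assoc, ← mul_assoc b, hcomm, mul_assoc, hbb, mul_one, hadd]
          congr 1; ring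
      inv_mem' := by
        rintro x ⟨j, hx⟩
        rcases hx with rfl | rfl
        · exact ⟨-j, Or.inl (by rw [← zpow_neg]; congr 1; ring)⟩
        · refine ⟨-j * q, Or.inr ?_⟩
          rw [mul_inv_rev, hbi, ← zpow_neg, hcomm]
          congr 2; ring }
  have hmem : ∀ x, x ∈ D ↔ ∃ j : ℤ, x = a ^ (2 * j) ∨ x = a ^ (2 * j) * b := fun x => Iff.rfl
  have hmemP : ∀ m : ℤ, a ^ m ∈ D ↔ Even m := by
    intro m
    rw [hmem, even_iff_two_dvd]
    constructor
    · rintro ⟨j, h | h⟩
      · have h2 : a ^ (m - 2 * j) = 1 := by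
          rw [zpow_sub, h]; simp
        rw [hone] at h2
        have h3 : (2 : ℤ) ∣ m - 2 * j := Dvd.dvd.trans (Dvd.intro _ rfl) h2
        have h4 : (2 : ℤ) ∣ 2 * j := Dvd.intro _ rfl
        have := dvd_add h3 h4
        simpa using this
      · exact absurd h (hbpow _ _)
    · rintro ⟨j, rfl⟩
      exact ⟨j, Or.inl rfl⟩
  have hmemB : ∀ m : ℤ, a ^ m * b ∈ D ↔ Even m := by
    intro m
    rw [hmem, even_iff_two_dvd]
    constructor
    · rintro ⟨j, h | h⟩
      · exact absurd h.symm (hbpow _ _)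
      · have h1 : a ^ m = a ^ (2 * j) := mul_right_cancel h
        have h2 : a ^ (m - 2 * j) = 1 := by
          rw [zpow_sub, h1]; simp
        rw [hone] at h2
        have h3 : (2 : ℤ) ∣ m - 2 * j := Dvd.dvd.trans (Dvd.intro _ rfl) h2
        have h4 : (2 : ℤ) ∣ 2 * j := Dvd.intro _ rfl
        have := dvd_add h3 h4
        simpa using this
    · rintro ⟨j, rfl⟩
      exact ⟨j, Or.inr rfl⟩
  -- all elements
  have hidxa : (zpowers a).index = 2 := by
    have h1 := Subgroup.card_mul_index (zpowers a)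
    rw [Nat.card_zpowers, ha, hcard] at h1
    have h2 : 2 ^ (k + 4) = 2 ^ (k + 3) * 2 := by ring
    rw [h2] at h1
    exact Nat.eq_of_mul_eq_mul_left (by positivity) h1
  have hall : ∀ x : X, ∃ m : ℤ, x = a ^ m ∨ x = a ^ m * b := by
    intro x
    by_cases hx : x ∈ zpowers a
    · obtain ⟨m, hm⟩ := hx
      exact ⟨m, Or.inl hm.symm⟩
    · have h1 := Subgroup.mul_mem_iff_of_index_two hidxa (a := x) (b := b)
      have h2 : x * b ∈ zpowers a := h1.2 (by simp [hx, hbnot])
      obtain ⟨m, hm⟩ := h2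
      refine ⟨m, Or.inr ?_⟩
      change a ^ m = x * b at hm
      rw [hm, mul_assoc, hbb, mul_one]
  have hsq : ∀ m : ℤ, (a ^ m * b) ^ 2 = a ^ (m * T) := by
    intro m
    rw [pow_two, mul_assoc, ← mul_assoc b, hcomm, mul_assoc, hbb, mul_one, hadd]
    congr 1
    rw [hq]; ring
  have hqodd : ¬ Even q := by
    rw [hq, Int.even_sub_one, not_not]
    exact ⟨2 ^ (k + 1), by rw [hTdef]; ring⟩
  refine ⟨D, ?_, ?_, ?_⟩
  · rw [Subgroup.index_eq_two_iff]
    refine ⟨a, fun x => ?_⟩
    obtain ⟨m, hx | hx⟩ := hall x <;> subst hx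
    · have h1 : a ^ m * a = a ^ (m + 1) := (zpow_add_one a m).symm
      rw [h1, hmemP, hmemP]
      by_cases h : Even m
      · exact Or.inr ⟨h, by simpa [Int.even_add_one] using h⟩
      · exact Or.inl ⟨by simpa [Int.even_add_one] using h, h⟩
    · have h1 : a ^ m * b * a = a ^ (m + q) * b := by
        have h2 := hcomm 1
        rw [zpow_one, one_mul] at h2
        rw [mul_assoc, h2, ← mul_assoc, hadd]
      rw [h1, hmemB, hmemB]
      by_cases h : Even m
      · refine Or.inr ⟨h, ?_⟩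
        rw [Int.even_add]
        tauto
      · refine Or.inl ⟨?_, h⟩
        rw [Int.even_add]
        have hh : ¬ Even q := hqodd
        tauto
  · intro y hy
    obtain ⟨m, hx | hx⟩ := hall y <;> subst hx
    · rw [hmemP, even_iff_two_dvd]
      rw [← zpow_natCast, ← zpow_mul, hone] at hy
      push_cast at hy
      obtain ⟨c, hc⟩ := hy
      have h1 : T ∣ m := ⟨c, by linarith⟩
      have h2 : (2 : ℤ) ∣ T := by
        rw [hTdef, pow_succ]; exact Dvd.intro_left _ rfl
      exact h2.trans h1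
    · rw [hmemB, even_iff_two_dvd]
      rw [hsq, hone] at hy
      exact (mul_dvd_mul_iff_right (by linarith : T ≠ 0)).1 hy
  · intro y hy hne
    obtain ⟨j, h | h⟩ := (hmem y).1 hy
    · rw [h]
      exact (Commute.zpow_left (Commute.refl a) _).eq
    · exfalso
      apply hne
      rw [h, hsq, hone]
      exact ⟨j, by ring⟩

end Cfsg.Agent.Lib.SCent
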