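import Mathlib
import Cfsg.Agent.Lib.SCent.Local5

/-!
# Comparing the two factors of `A`
-/

set_option autoImplicit false

namespace Cfsg.Agent.Lib.SCent

open Subgroup

/-- Separation of factors. -/
lemma sep_parts {G : Type*} [Group G] [Finite G] {b₁ b₂ c₁ c₂ : G} (h1 : b₁ * c₁ = b₂ * c₂)
    (h2 : b₁ * c₁⁻¹ = b₂ * c₂⁻¹) (hc : c₁ * c₂ = c₂ * c₁) (he : Odd (orderOf (b₂⁻¹ * b₁))) :
    b₁ = b₂ ∧ c₁ = c₂ := by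
  have h3 : b₂⁻¹ * b₁ = c₂ * c₁⁻¹ := by
    have : b₁ = b₂ * c₂ * c₁⁻¹ := by rw [← h1]; group
    rw [this]; group
  have h4 : b₂⁻¹ * b₁ = c₂⁻¹ * c₁ := by
    have : b₁ = b₂ * c₂⁻¹ * c₁ := by rw [← h2]; group
    rw [this]; group
  have h5 : (b₂⁻¹ * b₁) * (b₂⁻¹ * b₁) = 1 := by
    nth_rw 2 [h4]
    rw [h3]
    calc c₂ * c₁⁻¹ * (c₂⁻¹ * c₁) = c₂ * (c₂ * c₁)⁻¹ * c₁ := by group
      _ = c₂ * (c₁ * c₂)⁻¹ * c₁ := by rw [hc]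
      _ = 1 := by group
  have h6 := Cfg.eq_one_of_sq_of_odd he h5
  have h7 : b₁ = b₂ := by
    rw [inv_mul_eq_one] at h6
    exact h6.symm
  refine ⟨h7, ?_⟩
  rw [h7] at h1
  exact mul_left_cancel h1

namespace Cfg

variable {G : Type*} [Group G] [Finite G] {C : Cfg G}

lemma orderOf_mul_odd {x y : G} (h : x * y = y * x) (hx : Odd (orderOf x)) (hy : Odd (orderOf y)) :
    Odd (orderOf (x * y)) :=
  Odd.of_dvd_nat (hx.mul hy) (Commute.orderOf_mul_dvd_mul_orderOf h)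

/-- A comparison of the orders of the two factors of `A`. -/
theorem b_le_a {ρ σ : G} (hρt : ρ * C.t * ρ⁻¹ = C.z) (hρtz : ρ * (C.t * C.z) * ρ⁻¹ = C.t)
    (hσz : σ * C.z * σ⁻¹ = C.u)
    (hcomm : ∀ β ∈ C.swap.Ap, ∀ β' ∈ C.swap.Ap, β' * (ρ * β * ρ⁻¹) = (ρ * β * ρ⁻¹) * β') :
    Nat.card C.swap.Ap ≤ Nat.card C.Ap := by
  have hρz : ρ * C.z * ρ⁻¹ = C.t * C.z := by
    calc ρ * C.z * ρ⁻¹ = ρ * (C.t * (C.t * C.z)) * ρ⁻¹ := by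
          rw [← mul_assoc C.t C.t C.z, C.ht, one_mul]
      _ = (ρ * C.t * ρ⁻¹) * (ρ * (C.t * C.z) * ρ⁻¹) := by group
      _ = C.z * C.t := by rw [hρt, hρtz]
      _ = C.t * C.z := C.zt
  -- basic action on `Am`
  have hAmt : ∀ β ∈ C.swap.Ap, C.t * β * C.t⁻¹ = β⁻¹ := by
    intro β hβ
    rw [C.t_inv]
    exact (C.mem_swap_Ap.1 hβ).2
  have hAmA : ∀ β ∈ C.swap.Ap, β ∈ C.A := fun β hβ => (C.mem_swap_Ap.1 hβ).1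
  have hAmz : ∀ β ∈ C.swap.Ap, C.z * β * C.z⁻¹ = β := by
    intro β hβ
    rw [← C.A_comm_z (hAmA β hβ)]; group
  have hAmu : ∀ β ∈ C.swap.Ap, C.u * β = β * C.u := by
    intro β hβ
    have h1 := (C.swap.mem_Ap.1 hβ).2
    have h2 : C.u * β * C.u = β := h1
    calc C.u * β = C.u * β * C.u * C.u := by rw [mul_assoc (C.u * β), C.u_u, mul_one]
      _ = β * C.u := by rw [h2]
  have hAmo : ∀ β ∈ C.swap.Ap, Odd (orderOf β) := fun β hβ => C.odd_of_mem_A (hAmA β hβ)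
  let y : G → G := fun β => ρ * β * ρ⁻¹
  let Y : G → G := fun β => C.u * (ρ * β * ρ⁻¹) * C.u⁻¹
  have hy_def : ∀ β, y β = ρ * β * ρ⁻¹ := fun _ => rfl
  have hY_def : ∀ β, Y β = C.u * y β * C.u⁻¹ := fun _ => rfl
  -- (1) `z` inverts `y`
  have hzy : ∀ β ∈ C.swap.Ap, C.z * y β * C.z⁻¹ = (y β)⁻¹ := by
    intro β hβ
    calc C.z * y β * C.z⁻¹ = (ρ * C.t * ρ⁻¹) * (ρ * β * ρ⁻¹) * (ρ * C.t * ρ⁻¹)⁻¹ := by rw [hρt]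
      _ = ρ * (C.t * β * C.t⁻¹) * ρ⁻¹ := by group
      _ = (y β)⁻¹ := by rw [hAmt β hβ, hy_def]; group
  -- (2) `t` inverts `y`
  have hty : ∀ β ∈ C.swap.Ap, C.t * y β * C.t⁻¹ = (y β)⁻¹ := by
    intro β hβ
    have h1 : (C.t * C.z) * β * (C.t * C.z)⁻¹ = β⁻¹ := by
      have h2 := hAmz β hβ
      have h3 := hAmt β hβ
      calc (C.t * C.z) * β * (C.t * C.z)⁻¹ = C.t * (C.z * β * C.z⁻¹) * C.t⁻¹ := by group
        _ = β⁻¹ := by rw [h2, h3]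
    calc C.t * y β * C.t⁻¹
        = (ρ * (C.t * C.z) * ρ⁻¹) * (ρ * β * ρ⁻¹) * (ρ * (C.t * C.z) * ρ⁻¹)⁻¹ := by rw [hρtz]
      _ = ρ * ((C.t * C.z) * β * (C.t * C.z)⁻¹) * ρ⁻¹ := by group
      _ = (y β)⁻¹ := by rw [h1, hy_def]; group
  -- (3) `z` inverts `Y`
  have hzY : ∀ β ∈ C.swap.Ap, C.z * Y β * C.z⁻¹ = (Y β)⁻¹ := by
    intro β hβ
    have h1 : C.z * C.u * C.z⁻¹ = C.u := by rw [C.z_comm_u]; group
    calc C.z * Y β * C.z⁻¹ = (C.z * C.u * C.z⁻¹) * (C.z * y β * C.z⁻¹) * (C.z * C.u * C.z⁻¹)⁻¹ := by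
          rw [hY_def]; group
      _ = (Y β)⁻¹ := by rw [h1, hzy β hβ, hY_def]; group
  -- (4) `t` centralizes `Y`
  have htY : ∀ β ∈ C.swap.Ap, C.t * Y β * C.t⁻¹ = Y β := by
    intro β hβ
    have h1 : C.t * C.u * C.t⁻¹ = C.u * C.z := by
      rw [C.t_inv, ← C.wt_eq_uz]
      unfold u
      rw [← mul_assoc, C.ht, one_mul]
    calc C.t * Y β * C.t⁻¹ = (C.t * C.u * C.t⁻¹) * (C.t * y β * C.t⁻¹) * (C.t * C.u * C.t⁻¹)⁻¹ := by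
          rw [hY_def]; group
      _ = C.u * (C.z * (y β)⁻¹ * C.z⁻¹) * C.u⁻¹ := by rw [h1, hty β hβ]; group
      _ = C.u * (C.z * y β * C.z⁻¹)⁻¹ * C.u⁻¹ := by group
      _ = Y β := by rw [hzy β hβ, inv_inv, hY_def]
  have hyo : ∀ β ∈ C.swap.Ap, Odd (orderOf (y β)) := by
    intro β hβ
    rw [hy_def, conj_orderOf]; exact hAmo β hβ
  have hYo : ∀ β ∈ C.swap.Ap, Odd (orderOf (Y β)) := by
    intro β hβ
    rw [hY_def, conj_orderOf]; exact hyo β hβ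
  -- (5) `Y` lies in a conjugate of `Am`
  have hγ : ∀ β ∈ C.swap.Ap, ρ * Y β * ρ⁻¹ ∈ C.swap.Ap := by
    intro β hβ
    have h1 : ρ * Y β * ρ⁻¹ * C.z = C.z * (ρ * Y β * ρ⁻¹) := by
      have h2 : Y β * C.t = C.t * Y β := by
        have h3 := htY β hβ
        rw [mul_inv_eq_iff_eq_mul] at h3
        exact h3.symm
      have h3 := conj_commute (g := ρ) h2
      rwa [hρt] at h3
    have h2 : ρ * Y β * ρ⁻¹ ∈ C.A := by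
      apply C.mem_A_of_odd h1
      rw [conj_orderOf]; exact hYo β hβ
    rw [C.mem_swap_Ap]
    refine ⟨h2, ?_⟩
    have h3 : (C.t * C.z) * (ρ * Y β * ρ⁻¹) * (C.t * C.z)⁻¹ = (ρ * Y β * ρ⁻¹)⁻¹ := by
      calc (C.t * C.z) * (ρ * Y β * ρ⁻¹) * (C.t * C.z)⁻¹
          = (ρ * C.z * ρ⁻¹) * (ρ * Y β * ρ⁻¹) * (ρ * C.z * ρ⁻¹)⁻¹ := by rw [hρz]
        _ = ρ * (C.z * Y β * C.z⁻¹) * ρ⁻¹ := by group
        _ = (ρ * Y β * ρ⁻¹)⁻¹ := by rw [hzY β hβ]; group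
    have h4 : (C.t * C.z) * (ρ * Y β * ρ⁻¹) * (C.t * C.z)⁻¹ =
        C.t * (ρ * Y β * ρ⁻¹) * C.t := by
      have h5 : (C.t * C.z)⁻¹ = C.t * C.z := inv_eq_of_mul_eq_one_left (by
        calc (C.t * C.z) * (C.t * C.z) = C.t * (C.z * C.t) * C.z := by group
          _ = C.t * (C.t * C.z) * C.z := by rw [C.zt]
          _ = (C.t * C.t) * (C.z * C.z) := by group
          _ = 1 := by rw [C.ht, C.z_z, one_mul])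
      rw [h5]
      calc C.t * C.z * (ρ * Y β * ρ⁻¹) * (C.t * C.z)
          = C.t * (C.z * (ρ * Y β * ρ⁻¹)) * C.t * C.z := by group
        _ = C.t * ((ρ * Y β * ρ⁻¹) * C.z) * C.t * C.z := by rw [h1]
        _ = C.t * (ρ * Y β * ρ⁻¹) * (C.z * C.t) * C.z := by group
        _ = C.t * (ρ * Y β * ρ⁻¹) * (C.t * C.z) * C.z := by rw [C.zt]
        _ = C.t * (ρ * Y β * ρ⁻¹) * C.t * (C.z * C.z) := by group
        _ = C.t * (ρ * Y β * ρ⁻¹) * C.t := by rw [C.z_z, mul_one]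
    rw [← h4, h3]
  -- (6) `ρ³` normalizes `Am`
  have hr : ∀ γ ∈ C.swap.Ap, (ρ * ρ * ρ)⁻¹ * γ * (ρ * ρ * ρ) ∈ C.swap.Ap := by
    intro γ hγ'
    set r := ρ * ρ * ρ with hr_def
    have hrt : r * C.t * r⁻¹ = C.t := by
      rw [hr_def]
      calc ρ * ρ * ρ * C.t * (ρ * ρ * ρ)⁻¹ = ρ * (ρ * (ρ * C.t * ρ⁻¹) * ρ⁻¹) * ρ⁻¹ := by group
        _ = C.t := by rw [hρt, hρz, hρtz]
    have hrz : r * C.z * r⁻¹ = C.z := by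
      rw [hr_def]
      calc ρ * ρ * ρ * C.z * (ρ * ρ * ρ)⁻¹ = ρ * (ρ * (ρ * C.z * ρ⁻¹) * ρ⁻¹) * ρ⁻¹ := by group
        _ = C.z := by rw [hρz, hρtz, hρt]
    have h1 : r⁻¹ * C.z = C.z * r⁻¹ := by
      rw [mul_inv_eq_iff_eq_mul] at hrz
      calc r⁻¹ * C.z = r⁻¹ * (C.z * r) * r⁻¹ := by group
        _ = r⁻¹ * (r * C.z) * r⁻¹ := by rw [hrz]
        _ = C.z * r⁻¹ := by group
    have h2 : r⁻¹ * C.t = C.t * r⁻¹ := by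
      rw [mul_inv_eq_iff_eq_mul] at hrt
      calc r⁻¹ * C.t = r⁻¹ * (C.t * r) * r⁻¹ := by group
        _ = r⁻¹ * (r * C.t) * r⁻¹ := by rw [hrt]
        _ = C.t * r⁻¹ := by group
    obtain ⟨α₀, hα₀, s₀, hs₀, hdec⟩ := C.cent_z_t_decomp h1 h2
    have h3 : r⁻¹ * γ * r = r⁻¹ * γ * r⁻¹⁻¹ := by rw [inv_inv]
    rw [h3, hdec]
    have hαc : α₀ * (s₀ * γ * s₀⁻¹) * α₀⁻¹ = s₀ * γ * s₀⁻¹ := by
      rcases C.mem_V.1 hs₀ with h | h | h | h <;> subst h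
      · rw [C.A_comm (C.Ap_le hα₀) (by simpa using hAmA γ hγ')]; group
      · rw [hAmz γ hγ', C.A_comm (C.Ap_le hα₀) (hAmA γ hγ')]; group
      · rw [hAmt γ hγ', C.A_comm (C.Ap_le hα₀) (inv_mem (hAmA γ hγ'))]; group
      · have h5 : (C.t * C.z) * γ * (C.t * C.z)⁻¹ = γ⁻¹ := by
          calc (C.t * C.z) * γ * (C.t * C.z)⁻¹ = C.t * (C.z * γ * C.z⁻¹) * C.t⁻¹ := by group
            _ = γ⁻¹ := by rw [hAmz γ hγ', hAmt γ hγ']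
        rw [h5, C.A_comm (C.Ap_le hα₀) (inv_mem (hAmA γ hγ'))]; group
    have h6 : α₀ * s₀ * γ * (α₀ * s₀)⁻¹ = α₀ * (s₀ * γ * s₀⁻¹) * α₀⁻¹ := by group
    rw [h6, hαc]
    rcases C.mem_V.1 hs₀ with h | h | h | h <;> subst h
    · simpa using hγ'
    · rw [hAmz γ hγ']; exact hγ'
    · rw [hAmt γ hγ']; exact inv_mem hγ'
    · have h5 : (C.t * C.z) * γ * (C.t * C.z)⁻¹ = γ⁻¹ := by
        calc (C.t * C.z) * γ * (C.t * C.z)⁻¹ = C.t * (C.z * γ * C.z⁻¹) * C.t⁻¹ := by group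
          _ = γ⁻¹ := by rw [hAmz γ hγ', hAmt γ hγ']
      rw [h5]; exact inv_mem hγ'
  -- commutation relations
  have c1 : ∀ β₁ ∈ C.swap.Ap, ∀ β₂ ∈ C.swap.Ap, β₁ * y β₂ = y β₂ * β₁ :=
    fun β₁ h₁ β₂ h₂ => hcomm β₂ h₂ β₁ h₁
  have c2 : ∀ β₁ ∈ C.swap.Ap, ∀ β₂ ∈ C.swap.Ap, β₁ * Y β₂ = Y β₂ * β₁ := by
    intro β₁ h₁ β₂ h₂
    have h3 := conj_commute (g := C.u) (c1 β₁ h₁ β₂ h₂)
    have h4 : C.u * β₁ * C.u⁻¹ = β₁ := by rw [hAmu β₁ h₁]; group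
    rwa [h4] at h3
  have c3 : ∀ β₁ ∈ C.swap.Ap, ∀ β₂ ∈ C.swap.Ap, y β₁ * y β₂ = y β₂ * y β₁ := by
    intro β₁ h₁ β₂ h₂
    exact conj_commute (C.A_comm (hAmA β₁ h₁) (hAmA β₂ h₂))
  have c4 : ∀ β₁ ∈ C.swap.Ap, ∀ β₂ ∈ C.swap.Ap, Y β₁ * Y β₂ = Y β₂ * Y β₁ := by
    intro β₁ h₁ β₂ h₂
    exact conj_commute (c3 β₁ h₁ β₂ h₂)
  have c5 : ∀ β₁ ∈ C.swap.Ap, ∀ β₂ ∈ C.swap.Ap, y β₁ * Y β₂ = Y β₂ * y β₁ := by
    intro β₁ h₁ β₂ h₂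
    set γ := ρ * Y β₂ * ρ⁻¹ with hγdef
    have hγm : γ ∈ C.swap.Ap := hγ β₂ h₂
    have hYγ : Y β₂ = ρ⁻¹ * γ * ρ := by rw [hγdef]; group
    set γ' := (ρ * ρ * ρ)⁻¹ * γ * (ρ * ρ * ρ) with hγ'def
    have hγ'm : γ' ∈ C.swap.Ap := hr γ hγm
    have h3 := c1 β₁ h₁ γ' hγ'm
    have h4 : y γ' = ρ⁻¹ * (ρ⁻¹ * γ * ρ) * ρ := by rw [hy_def, hγ'def]; group
    rw [h4] at h3
    have h5 := conj_commute (g := ρ) h3
    have h6 : ρ * β₁ * ρ⁻¹ = y β₁ := rfl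
    have h7 : ρ * (ρ⁻¹ * (ρ⁻¹ * γ * ρ) * ρ) * ρ⁻¹ = ρ⁻¹ * γ * ρ := by group
    rw [h6, h7, ← hYγ] at h5
    exact h5
  have hcm : ∀ β₂ ∈ C.swap.Ap, y β₂ * Y β₂ = Y β₂ * y β₂ := fun β₂ h₂ => c5 β₂ h₂ β₂ h₂
  have hu_yY : ∀ β₂ ∈ C.swap.Ap, C.u * (y β₂ * Y β₂) * C.u⁻¹ = y β₂ * Y β₂ := by
    intro β₂ h₂
    have h3 : C.u * Y β₂ * C.u⁻¹ = y β₂ := by
      rw [hY_def]
      rw [C.u_inv]
      calc C.u * (C.u * y β₂ * C.u) * C.u = (C.u * C.u) * y β₂ * (C.u * C.u) := by group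
        _ = y β₂ := by rw [C.u_u]; group
    rw [← conj_mul_conj, h3]
    exact (hcm β₂ h₂).symm
  have hodd_F : ∀ β₁ ∈ C.swap.Ap, ∀ β₂ ∈ C.swap.Ap, Odd (orderOf (β₁ * (y β₂ * Y β₂))) := by
    intro β₁ h₁ β₂ h₂
    apply orderOf_mul_odd
    · have h3 : Commute β₁ (y β₂ * Y β₂) := Commute.mul_right (c1 β₁ h₁ β₂ h₂) (c2 β₁ h₁ β₂ h₂)
      exact h3
    · exact hAmo β₁ h₁
    · exact orderOf_mul_odd (hcm β₂ h₂) (hyo β₂ h₂) (hYo β₂ h₂)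
  have hF : ∀ β₁ ∈ C.swap.Ap, ∀ β₂ ∈ C.swap.Ap, β₁ * (y β₂ * Y β₂) ∈ Au C σ := by
    intro β₁ h₁ β₂ h₂
    apply mem_Au_of_odd hσz
    · have h3 : C.u * (β₁ * (y β₂ * Y β₂)) * C.u⁻¹ = β₁ * (y β₂ * Y β₂) := by
        rw [← conj_mul_conj, hu_yY β₂ h₂, hAmu β₁ h₁]; group
      rw [mul_inv_eq_iff_eq_mul] at h3
      exact h3.symm
    · exact hodd_F β₁ h₁ β₂ h₂
  let f : C.swap.Ap × C.swap.Ap → Au C σ := fun q => ⟨_, hF q.1 q.1.2 q.2 q.2.2⟩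
  have hinj : Function.Injective f := by
    rintro ⟨⟨β₁, h₁⟩, ⟨β₂, h₂⟩⟩ ⟨⟨β₁', h₁'⟩, ⟨β₂', h₂'⟩⟩ heq
    have e1 : β₁ * (y β₂ * Y β₂) = β₁' * (y β₂' * Y β₂') := congrArg Subtype.val heq
    have hinvc : ∀ β ∈ C.swap.Ap, C.z * (y β * Y β) * C.z⁻¹ = (y β * Y β)⁻¹ := by
      intro β hβ
      rw [← conj_mul_conj, hzy β hβ, hzY β hβ, ← mul_inv_rev, hcm β hβ]
    have hzc : ∀ β₀ ∈ C.swap.Ap, ∀ β ∈ C.swap.Ap, C.z * (β₀ * (y β * Y β)) * C.z⁻¹ =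
        β₀ * (y β * Y β)⁻¹ := by
      intro β₀ hβ₀ β hβ
      rw [← conj_mul_conj, hAmz β₀ hβ₀, hinvc β hβ]
    have e2 : β₁ * (y β₂ * Y β₂)⁻¹ = β₁' * (y β₂' * Y β₂')⁻¹ := by
      rw [← hzc β₁ h₁ β₂ h₂, ← hzc β₁' h₁' β₂' h₂', e1]
    have hcc : (y β₂ * Y β₂) * (y β₂' * Y β₂') = (y β₂' * Y β₂') * (y β₂ * Y β₂) := by
      have a1 : Commute (y β₂) (y β₂') := c3 β₂ h₂ β₂' h₂'
      have a2 : Commute (y β₂) (Y β₂') := c5 β₂ h₂ β₂' h₂'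
      have a3 : Commute (Y β₂) (y β₂') := (c5 β₂' h₂' β₂ h₂).symm
      have a4 : Commute (Y β₂) (Y β₂') := c4 β₂ h₂ β₂' h₂'
      exact Commute.mul_left (Commute.mul_right a1 a2) (Commute.mul_right a3 a4)
    obtain ⟨e3, e4⟩ := sep_parts e1 e2 hcc (hAmo _ (mul_mem (inv_mem h₁') h₁))
    -- the second component
    have e5 : Y β₂ * y β₂ = Y β₂' * y β₂' := by
      rw [← hcm β₂ h₂, ← hcm β₂' h₂']; exact e4
    have htc : ∀ β ∈ C.swap.Ap, C.t * (y β * Y β) * C.t⁻¹ = Y β * (y β)⁻¹ := by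
      intro β hβ
      rw [← conj_mul_conj, hty β hβ, htY β hβ]
      have h3 : (y β)⁻¹ * Y β = Y β * (y β)⁻¹ := by
        have h4 := hcm β hβ
        calc (y β)⁻¹ * Y β = (y β)⁻¹ * (Y β * y β) * (y β)⁻¹ := by group
          _ = (y β)⁻¹ * (y β * Y β) * (y β)⁻¹ := by rw [h4]
          _ = Y β * (y β)⁻¹ := by group
      exact h3
    have e6 : Y β₂ * (y β₂)⁻¹ = Y β₂' * (y β₂')⁻¹ := by
      rw [← htc β₂ h₂, ← htc β₂' h₂', e4]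
    have hodd : Odd (orderOf ((Y β₂')⁻¹ * Y β₂)) := by
      have h3 : (Y β₂')⁻¹ * Y β₂ = Y (β₂'⁻¹ * β₂) := by
        rw [hY_def, hY_def, hY_def, hy_def, hy_def, hy_def]; group
      rw [h3]
      exact hYo _ (mul_mem (inv_mem h₂') h₂)
    obtain ⟨e7, e8⟩ := sep_parts e5 e6 (c3 β₂ h₂ β₂' h₂') hodd
    have e9 : β₂ = β₂' := by
      have h3 : β₂ = ρ⁻¹ * y β₂ * ρ := by rw [hy_def]; group
      have h4 : β₂' = ρ⁻¹ * y β₂' * ρ := by rw [hy_def]; group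
      rw [h3, h4, e8]
    subst e3
    subst e9
    rfl
  have hcard := Nat.card_le_card_of_injective f hinj
  rw [Nat.card_prod, card_Au, C.card_A] at hcard
  have hpos : 0 < Nat.card C.swap.Ap := Nat.card_pos
  rw [mul_comm (Nat.card C.Ap)] at hcard
  exact Nat.le_of_mul_le_mul_left hcard hpos

end Cfg

end Cfsg.Agent.Lib.SCent
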