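import Mathlib

/-!
# A transfer argument for elements of order dividing four
-/

set_option autoImplicit false

namespace Cfsg.Agent.Lib.SCent

open MulAction Subgroup

variable {G : Type*} [Group G]

/-- Let `D` have index two in `S`, `S` of odd index, `G` perfect. If all involutions of `S` lie in
`D`, every element of order dividing four has a conjugate in `D`. -/
theorem exists_conj_mem_of_index_two [Finite G] (S D : Subgroup G) (hodd : Odd S.index)
    (hidx : (D.subgroupOf S).index = 2) (hperf : commutator G = ⊤) (x : G) (hx : x ^ 4 = 1)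
    (hinv : ∀ y ∈ S, y ^ 2 = 1 → y ∈ D) : ∃ g : G, g⁻¹ * x * g ∈ D := by
  classical
  by_contra hno
  push Not at hno
  have hcard : Nat.card (S ⧸ D.subgroupOf S) = 2 := hidx
  haveI : Fact (Nat.Prime 2) := ⟨Nat.prime_two⟩
  haveI hn : (D.subgroupOf S).Normal := Subgroup.normal_of_index_eq_two hidx
  haveI hc : IsCyclic (S ⧸ D.subgroupOf S) := isCyclic_of_prime_card hcard
  let _ : CommGroup (S ⧸ D.subgroupOf S) := IsCyclic.commGroup
  let ϕ : S →* (S ⧸ D.subgroupOf S) := QuotientGroup.mk' (D.subgroupOf S)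
  have hϕ : ∀ s : S, ϕ s = 1 ↔ (s : G) ∈ D := by
    intro s
    change ((s : S) : S ⧸ D.subgroupOf S) = 1 ↔ _
    rw [QuotientGroup.eq_one_iff, Subgroup.mem_subgroupOf]
  have hV : MonoidHom.transfer ϕ x = 1 := by
    have hxmem : x ∈ commutator G := by rw [hperf]; trivial
    exact Abelianization.commutator_subset_ker (MonoidHom.transfer ϕ) hxmem
  have : Fintype (G ⧸ S) := Fintype.ofFinite _
  have : Fintype (Quotient (orbitRel (zpowers x) (G ⧸ S))) := Fintype.ofFinite _
  rw [MonoidHom.transfer_eq_prod_quotient_orbitRel_zpowers_quot] at hV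
  set per : Quotient (orbitRel (zpowers x) (G ⧸ S)) → ℕ :=
    fun Q => Function.minimalPeriod (x • ·) Q.out with hper
  have hdvd : ∀ Q, per Q ∣ 4 := by
    intro Q
    apply Function.IsPeriodicPt.minimalPeriod_dvd
    change (x • ·)^[4] Q.out = Q.out
    rw [smul_iterate, hx]
    exact one_smul _ _
  have h124 : ∀ Q, per Q = 1 ∨ per Q = 2 ∨ per Q = 4 := by
    intro Q
    have h := hdvd Q
    have h4 : per Q ≤ 4 := Nat.le_of_dvd (by norm_num) h
    interval_cases (per Q) <;> simp_all
  have hsum : S.index = ∑ Q, per Q := Subgroup.index_eq_sum_minimalPeriod S x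
  let f : Quotient (orbitRel (zpowers x) (G ⧸ S)) → (S ⧸ D.subgroupOf S) := fun Q =>
    ϕ ⟨Q.out.out⁻¹ * x ^ Function.minimalPeriod (x • ·) Q.out * Q.out.out,
      QuotientGroup.out_conj_pow_minimalPeriod_mem S x Q.out⟩
  have hf4 : ∀ Q, per Q = 4 → f Q = 1 := by
    intro Q hQ
    rw [hϕ]
    have : Function.minimalPeriod (x • ·) Q.out = 4 := hQ
    simp [this, hx, D.one_mem]
  have hf2 : ∀ Q, per Q = 2 → f Q = 1 := by
    intro Q hQ
    rw [hϕ]
    have h2 : Function.minimalPeriod (x • ·) Q.out = 2 := hQ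
    have hm := QuotientGroup.out_conj_pow_minimalPeriod_mem S x Q.out
    rw [h2] at hm
    simp only [h2]
    apply hinv _ hm
    have : (Q.out.out⁻¹ * x ^ 2 * Q.out.out) ^ 2 = Q.out.out⁻¹ * x ^ 4 * Q.out.out := by
      simp only [pow_succ, pow_zero, one_mul, mul_assoc, mul_inv_cancel_left]
    rw [this, hx]
    group
  have hf1 : ∀ Q, per Q = 1 → f Q ≠ 1 := by
    intro Q hQ
    rw [Ne, hϕ]
    have h1 : Function.minimalPeriod (x • ·) Q.out = 1 := hQ
    simp only [h1, pow_one]
    exact hno _
  obtain ⟨e, he⟩ : ∃ e : S ⧸ D.subgroupOf S, e ≠ 1 := by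
    have : Nontrivial (S ⧸ D.subgroupOf S) := by
      apply Finite.one_lt_card_iff_nontrivial.1 (by omega)
    exact exists_ne 1
  have huniq : ∀ a : S ⧸ D.subgroupOf S, a ≠ 1 → a = e := by
    obtain ⟨y, hy, hy2⟩ := (Nat.card_eq_two_iff' (1 : S ⧸ D.subgroupOf S)).1 hcard
    intro a ha
    rw [hy2 a ha, hy2 e he]
  have he2 : e * e = 1 := by
    by_contra h
    have h1 := huniq _ h
    have h2 : e = 1 := mul_eq_left.1 h1
    exact he h2
  let C1 : Finset (Quotient (orbitRel (zpowers x) (G ⧸ S))) := Finset.univ.filter (fun Q => per Q = 1)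
  have hC1odd : Odd C1.card := by
    have hs : (∑ Q, per Q) = C1.card + ∑ Q ∈ Finset.univ.filter (fun Q => ¬ per Q = 1), per Q := by
      rw [← Finset.sum_filter_add_sum_filter_not Finset.univ (fun Q => per Q = 1)]
      congr 1
      rw [Finset.card_eq_sum_ones]
      apply Finset.sum_congr rfl
      intro q hq
      simpa using hq
    have he : Even (∑ Q ∈ Finset.univ.filter (fun Q => ¬ per Q = 1), per Q) := by
      apply Finset.even_sum
      intro Q hQ
      have hQ1 : per Q ≠ 1 := by simpa using hQ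
      rcases h124 Q with h | h | h
      · exact absurd h hQ1
      · rw [h]; exact even_two
      · rw [h]; decide
    rw [hsum, hs] at hodd
    by_contra hc
    rw [Nat.not_odd_iff_even] at hc
    exact (Nat.not_even_iff_odd.2 hodd) (hc.add he)
  have hprod : ∏ Q, f Q = e ^ C1.card := by
    rw [← Finset.prod_const]
    rw [← Finset.prod_subset (Finset.subset_univ C1)]
    · apply Finset.prod_congr rfl
      intro Q hQ
      exact huniq _ (hf1 Q (Finset.mem_filter.1 hQ).2)
    · intro Q _ hQ
      have hQ1 : ¬ per Q = 1 := fun h => hQ (Finset.mem_filter.2 ⟨Finset.mem_univ _, h⟩)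
      rcases h124 Q with h | h | h
      · exact absurd h hQ1
      · exact hf2 Q h
      · exact hf4 Q h
  have hV' : ∏ Q, f Q = 1 := hV
  rw [hprod] at hV'
  obtain ⟨m, hm⟩ := hC1odd
  rw [hm, pow_succ, pow_mul, pow_two, he2, one_pow, one_mul] at hV'
  exact he hV'

end Cfsg.Agent.Lib.SCent
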